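import Mathlib
import Cfsg.Agent.H12.SubB

/-!
Elements `1 + N` of a group of linear automorphisms; overgroups of field extension subgroups that
contain a transvection.
-/

set_option autoImplicit false

namespace Cfsg.Agent.H12

open Module

variable {F V : Type*} [Field F] [AddCommGroup V] [Module F V] {M : Subgroup (V ≃ₗ[F] V)}

/-- The map `1 + N` lies in `M`. -/
def EN (M : Subgroup (V ≃ₗ[F] V)) (N : End F V) : Prop := ∃ g ∈ M, ∀ x, g x = x + N x

section EN
variable {N N' : End F V}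

theorem EN.zero : EN M 0 := ⟨1, one_mem _, by simp⟩

theorem EN.mul (h : EN M N) (h' : EN M N') : EN M (N + N' + N * N') := by
  obtain ⟨g, hg, h⟩ := h
  obtain ⟨g', hg', h'⟩ := h'
  exact ⟨g * g', mul_mem hg hg', fun x => by simp [h, h']; abel⟩

theorem EN.add (h : EN M N) (h' : EN M N') (H : ∀ x, N (N' x) = 0) : EN M (N + N') := by
  simpa [show N * N' = 0 from LinearMap.ext H] using h.mul h'

theorem EN.neg (h : EN M N) (H : ∀ x, N (N x) = 0) : EN M (-N) := by
  obtain ⟨g, hg, h⟩ := h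
  exact ⟨g⁻¹, inv_mem hg, fun x => g.symm_apply_eq.mpr (by simp [h, H])⟩

theorem EN.conj (h : EN M N) {k : V ≃ₗ[F] V} (hk : k ∈ M) (H : ∀ x, N' (k x) = k (N x)) :
    EN M N' := by
  obtain ⟨g, hg, h⟩ := h
  refine ⟨k * g * k⁻¹, mul_mem (mul_mem hk hg) (inv_mem hk), fun x => ?_⟩
  obtain ⟨x, rfl⟩ := k.surjective x
  simp [h, H]

theorem EN.conj_en (h : EN M N) (h' : EN M N') (H : ∀ x, N' (N' x) = 0) :
    EN M (N + (N' * N - N * N' - N' * N * N')) := by
  obtain ⟨g, hg, h'⟩ := h'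
  exact h.conj hg fun x => by simp [h', H]; abel

theorem EN.comm (h : EN M N) (h' : EN M N') (h1 : ∀ x, N (N x) = 0) (h2 : ∀ x, N' (N' x) = 0)
    (h3 : ∀ x, N' (N x) = 0) : EN M (N * N') := by
  convert (h'.conj_en h h1).mul (h'.neg h2) using 1
  ext x; simp [h1, h2, h3]

theorem EN.tr (h : EN M N) {w : V} {φ : Dual F V} (h0 : φ w = 0) (H : ∀ x, N x = φ x • w) :
    TR M w φ := ⟨h0, h.imp fun _ hg => ⟨hg.1, fun x => by rw [hg.2, H]⟩⟩

theorem TR.en {w : V} {φ : Dual F V} (h : TR M w φ) : EN M (φ.smulRight w) := h.2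

/-- The elements of `M` trivial on `U` and on the quotient by `U`. -/
def RS (M : Subgroup (V ≃ₗ[F] V)) (U : Submodule F V) : AddSubgroup (End F V) where
  carrier := {N | (∀ x, N x ∈ U) ∧ (∀ x ∈ U, N x = 0) ∧ EN M N}
  zero_mem' := ⟨by simp, by simp, EN.zero⟩
  add_mem' ha hb := ⟨fun x => add_mem (ha.1 x) (hb.1 x), fun x hx => by simp [ha.2.1 x hx, hb.2.1 x hx],
    ha.2.2.add hb.2.2 fun x => ha.2.1 _ (hb.1 x)⟩
  neg_mem' ha := ⟨fun x => neg_mem (ha.1 x), fun x hx => by simp [ha.2.1 x hx],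
    ha.2.2.neg fun x => ha.2.1 _ (ha.1 x)⟩

theorem RS.comm_mem {U : Submodule F V} (h : N ∈ RS M U) (h' : EN M N') (H : ∀ x, N' (N' x) = 0)
    (hU : ∀ x ∈ U, N' x ∈ U) : N' * N - N * N' - N' * N * N' ∈ RS M U := by
  refine ((RS M U).add_mem_cancel_left h).mp ⟨fun x => ?_, fun x hx => ?_, h.2.2.conj_en h' H⟩
  · exact add_mem (h.1 _) (sub_mem (sub_mem (hU _ (h.1 _)) (h.1 _)) (hU _ (h.1 _)))
  · simp [h.2.1 x hx, h.2.1 _ (hU x hx)]

end EN

theorem subring_eq_top_of_norm {K : Type*} [Field K] [Algebra F K] [Finite K] (hr : 2 ≤ finrank F K)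
    {Z : Subring K} (h : ∀ ε, Algebra.norm F ε = 1 → ε ∈ Z) : Z = ⊤ := by
  have := Fintype.ofFinite K
  have : Finite F := Finite.of_injective _ (algebraMap F K).injective
  have := Fintype.ofFinite F
  let L : Subfield K := ⟨Z, fun x hx => by
    by_cases h0 : x = 0
    · simp [h0]
    · rw [show x⁻¹ = x ^ (Fintype.card K - 2) from (eq_inv_of_mul_eq_one_left (by
        rw [← pow_succ, ← FiniteField.pow_card_sub_one_eq_one x h0]
        have := Fintype.one_lt_card (α := K)
        congr 1; omega)).symm]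
      exact Z.pow_mem hx _⟩
  have := Fintype.ofFinite L
  by_contra H
  have h1 : 2 ≤ finrank L K := by
    by_contra h1
    have := finrank_pos (R := L) (M := K)
    refine H (eq_top_iff.mpr fun x _ => ?_)
    obtain ⟨c, rfl⟩ := (finrank_eq_one_iff_of_nonzero' (K := L) (1 : K) one_ne_zero).mp (by omega) x
    simp [Subfield.smul_def, show c.1 ∈ Z from c.2]
  obtain ⟨g, hg⟩ := IsCyclic.exists_ofOrder_eq_natCard (α := Kˣ)
  have h2 : (g : K) ^ (Fintype.card F - 1) ∈ L := h _ (by
    rw [map_pow, FiniteField.pow_card_sub_one_eq_one _ (Algebra.norm_ne_zero_iff.mpr g.ne_zero)])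
  have h3 := congrArg Subtype.val (FiniteField.pow_card_sub_one_eq_one (⟨_, h2⟩ : L)
    fun e => pow_ne_zero _ g.ne_zero (congrArg Subtype.val e))
  have a1 := Fintype.one_lt_card (α := F)
  have a2 := Fintype.one_lt_card (α := L)
  have h4 := Nat.le_of_dvd (Nat.mul_pos (by omega) (by omega)) (orderOf_dvd_of_pow_eq_one
    (x := g) (n := (Fintype.card F - 1) * (Fintype.card L - 1)) (Units.ext (by simpa [pow_mul] using h3)))
  rw [hg, Nat.card_units, Nat.card_eq_fintype_card] at h4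
  have a3 := (Nat.pow_le_pow_right a1.le hr).trans (Module.card_eq_pow_finrank (K := F) (V := K)).ge
  have a4 := (Nat.pow_le_pow_right a2.le h1).trans (Module.card_eq_pow_finrank (K := L) (V := K)).ge
  obtain ⟨a, ha⟩ := Nat.exists_eq_add_of_lt a1
  obtain ⟨b, hb⟩ := Nat.exists_eq_add_of_lt a2
  rw [ha, hb] at h4
  rw [ha] at a3
  rw [hb] at a4
  simp only [Nat.add_sub_cancel] at h4
  have : Fintype.card K ≤ (1 + a) * (1 + b) + 1 := by omega
  nlinarith [sq_nonneg ((a : ℤ) - b)]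

variable {K : Type*} [Field K] [Algebra F K] [Module K V] [IsScalarTower F K V]

/-- The rank one map over the extension field. -/
def kt (F : Type*) [Field F] [Module F V] [Algebra F K] [IsScalarTower F K V] (ψ : Dual K V) (y : V) :
    End F V := (ψ.smulRight y).restrictScalars F

@[simp] theorem kt_apply (ψ : Dual K V) (y x : V) : kt F ψ y x = ψ x • y := rfl

/-- `M` contains the maps that are linear over the extension field and have determinant one. -/
def KM (K : Type*) [Field K] [Algebra F K] [Module K V] [IsScalarTower F K V]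
    (M : Subgroup (V ≃ₗ[F] V)) : Prop :=
  ∀ k : V ≃ₗ[K] V, Algebra.norm F (LinearMap.det (k : V →ₗ[K] V)) = 1 → k.restrictScalars F ∈ M

theorem finrank_KL {y : V} (hy : y ≠ 0) : finrank F ((K ∙ y).restrictScalars F) = finrank F K :=
  ((LinearEquiv.toSpanNonzeroSingleton K V y hy).restrictScalars F).finrank_eq.symm

theorem mem_span_of_ker [FiniteDimensional K V] (h : finrank K V ≤ 2) {χ : Dual K V} {x y : V}
    (h0 : χ ≠ 0) (hy : y ≠ 0) (h1 : χ y = 0) (h2 : χ x = 0) : x ∈ K ∙ y := by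
  have := Dual.finrank_ker_add_one_of_ne_zero h0
  rw [Submodule.eq_of_le_of_finrank_le (S₁ := K ∙ y) (S₂ := LinearMap.ker χ) (by simpa) (by
    rw [finrank_span_singleton hy]; omega)]
  exact h2

omit [Module F V] [IsScalarTower F K V] [Algebra F K] in
theorem exists_notMem_span (h : 2 ≤ finrank K V) (w : V) : ∃ z, z ∉ K ∙ w := by
  by_contra! H
  have := (finrank_span_le_card (R := K) {w}).trans_eq (by simp : _ = 1)
  rw [Submodule.eq_top_iff'.mpr H, finrank_top] at this
  omega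

variable [FiniteDimensional K V] [Finite K] (hM : KM K M)
include hM

theorem KM.en {ψ : Dual K V} {y : V} (h : Algebra.norm F (1 + ψ y) = 1) : EN M (kt F ψ y) :=
  ⟨_, hM (LinearEquiv.dilatransvection (f := ψ) (v := y) (Ne.isUnit fun e => by simp [e] at h))
    (by simpa), fun _ => rfl⟩

theorem KM.en₀ {ψ : Dual K V} {y : V} (h : ψ y = 0) : EN M (kt F ψ y) := hM.en (by simp [h])

theorem KM.tr_of_tr (hr : 2 ≤ finrank F K) {w x : V} {β : Dual F V} (h : TR M w β)
    (h1 : ∀ k : K, β (k • w) = 0) (h0 : w ≠ 0) (hx : β x ≠ 0) (γ : Dual F V)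
    (h2 : ∀ k : K, γ (k • w) = 0) : TR M w γ := by
  have := Module.Finite.of_finite (R := F) (M := K)
  have := Module.Finite.trans (R := F) K V
  let A : AddSubgroup (Dual F V) :=
    { carrier := {β | TR M w β ∧ ∀ k : K, β (k • w) = 0}
      zero_mem' := ⟨TR.zero_right w, by simp⟩
      add_mem' := fun ha hb => ⟨ha.1.add_right hb.1, fun k => by simp [ha.2, hb.2]⟩
      neg_mem' := fun ha => ⟨ha.1.neg_right, fun k => by simp [ha.2]⟩ }
  let L : K → End F V := fun k => (LinearMap.lsmul K V k).restrictScalars F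
  obtain ⟨χ, a1, -⟩ := exists_dual_one_zero (F := K) (v := w) (w := 0) (by simpa)
  have a2 : ∀ k : K, ∀ β ∈ A, β ∘ₗ L k ∈ A := fun k => by
    let Z : Subring K :=
      { carrier := {k | ∀ β ∈ A, β ∘ₗ L k ∈ A}
        mul_mem' := fun ha hb β h => by
          convert hb _ (ha β h) using 1; ext; simp [L, smul_smul, mul_comm]
        one_mem' := fun β h => by convert h using 1; ext; simp [L]
        add_mem' := fun ha hb β h => by
          convert add_mem (ha β h) (hb β h) using 1; ext; simp [L, add_smul]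
        zero_mem' := fun β h => by convert zero_mem A using 1; ext; simp [L]
        neg_mem' := fun ha β h => by convert neg_mem (ha β h) using 1; ext; simp [L] }
    refine (subring_eq_top_of_norm hr (Z := Z) fun ε hε β hβ => ⟨?_, fun k => ?_⟩).ge
      (Subring.mem_top k)
    · have e0 : ε ≠ 0 := fun e => by simp [e] at hε
      let s := LinearEquiv.dilatransvection (f := χ) (v := (ε - 1) • w) (Ne.isUnit (by simpa [a1]))
      have b1 := hM (LinearEquiv.smulOfNeZero K V ε⁻¹ (inv_ne_zero e0) * s) (by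
        have : ((LinearEquiv.smulOfNeZero K V ε⁻¹ (inv_ne_zero e0) * s : V ≃ₗ[K] V) : V →ₗ[K] V) =
          ε⁻¹ • LinearMap.transvection χ ((ε - 1) • w) := rfl
        simp [this, a1, hε, ← inv_pow, Algebra.norm_inv])
      have b2 := hβ.1.conj b1 (ψ := β ∘ₗ L ε) fun x => by
        simp [L, s, smul_smul, e0, hβ.2, LinearEquiv.dilatransvection.apply]
      simpa [s, LinearEquiv.dilatransvection.apply, a1, smul_smul, e0, ← add_smul, sub_smul] using b2
    · simp [L, smul_smul, hβ.2]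
  let A' : Submodule F (Dual F V) := ⟨A.toAddSubmonoid, fun c β hβ => by
    have := a2 (algebraMap F K c) β hβ
    rwa [show β ∘ₗ L (algebraMap F K c) = c • β by ext; simp [L]] at this⟩
  suffices γ ∈ A' from this.1
  rw [← Subspace.dualCoannihilator_dualAnnihilator_eq (W := A'), Submodule.mem_dualAnnihilator]
  intro u hu
  rw [Submodule.mem_dualCoannihilator] at hu
  by_contra a3
  have a4 : u ∉ Submodule.span K {w, x} := fun a4 => by
    obtain ⟨a, b, rfl⟩ := Submodule.mem_span_pair.mp a4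
    have b0 : b ≠ 0 := by rintro rfl; simp [h2] at a3
    simpa [L, smul_smul, h1, b0, hx] using hu _ (a2 b⁻¹ β ⟨h, h1⟩)
  obtain ⟨ψ, b1, b2⟩ := exists_dual_one a4
  have b3 := b2 w (Submodule.subset_span (by simp))
  obtain ⟨t, ht, b4⟩ := (hM.en₀ (b2 x (Submodule.subset_span (by simp)))).neg (by
    simp [b2 x (Submodule.subset_span (by simp))])
  have b5 := hu _ ⟨by simpa [b4, b3] using h.conj' ht, fun k => by
    rw [LinearMap.comp_apply, LinearEquiv.coe_coe, (t.symm_apply_eq (y := k • w)).mpr (by simp [b4, b3]), h1]⟩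
  rw [LinearMap.comp_apply, LinearEquiv.coe_coe, (t.symm_apply_eq (y := u + x)).mpr (by
    simp [b4, b1, b2 x (Submodule.subset_span (by simp))])] at b5
  simp [hu β ⟨h, h1⟩, hx] at b5

theorem KM.SLV_le_of_EN (hr : 2 ≤ finrank F K) (hm : 2 ≤ finrank K V) {Z : End F V} (h : EN M Z)
    {w x : V} (h1 : ∀ x, Z x ∈ F ∙ w) (h2 : ∀ k : K, Z (k • w) = 0) (h3 : Z x ≠ 0) :
    SLV F V ≤ M := by
  have := Module.Finite.of_finite (R := F) (M := K)
  have := Module.Finite.trans (R := F) K V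
  have h0 : w ≠ 0 := by rintro rfl; exact h3 (by simpa using h1 x)
  obtain ⟨φ, a1, -⟩ := exists_dual_one_zero (F := F) (v := w) (w := 0) (by simpa)
  have a2 : ∀ x, Z x = (φ ∘ₗ Z) x • w := fun x => by
    obtain ⟨c, hc⟩ := Submodule.mem_span_singleton.mp (h1 x)
    simp [← hc, a1]
  have a3 := hM.tr_of_tr hr (h.tr (by simpa using congrArg φ (h2 1)) a2) (by simp [h2]) h0
    (x := x) fun e => h3 (by rw [a2, e, zero_smul])
  have a4 : ∀ {w w' : V}, (∀ γ : Dual F V, (∀ k : K, γ (k • w) = 0) → TR M w γ) → w ≠ 0 →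
      w' ∉ K ∙ w → ∀ γ : Dual F V, (∀ k : K, γ (k • w') = 0) → TR M w' γ := fun {w w'} H h0 h γ hγ => by
    obtain ⟨ψ, b1, b2⟩ := exists_dual_one_zero (F := K) (v := w) (w := w' - w) fun e => h (by
      obtain ⟨c, hc⟩ := Submodule.mem_span_singleton.mp e
      have c0 : c ≠ 0 := by rintro rfl; exact h0 (by simpa using hc.symm)
      exact Submodule.mem_span_singleton.mpr ⟨c⁻¹ + 1, by
        rw [add_smul, one_smul, ← eq_sub_iff_add_eq, inv_smul_eq_iff₀ c0, hc]⟩)
    obtain ⟨t, ht, b3⟩ := hM.en₀ b2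
    simpa [b3, b1] using (H (γ ∘ₗ t) fun k => by simpa [b3, b1, smul_sub] using hγ k).conj ht
      (ψ := γ) fun _ => rfl
  have a5 : ∀ w', w' ≠ 0 → ∀ γ : Dual F V, (∀ k : K, γ (k • w') = 0) → TR M w' γ := fun w' h0' => by
    by_cases b1 : w' ∈ K ∙ w
    · obtain ⟨z, b2⟩ := exists_notMem_span hm w
      refine a4 (a4 a3 h0 b2) (fun e => by simp [e] at b2) fun e => b2 ?_
      obtain ⟨c, rfl⟩ := Submodule.mem_span_singleton.mp e
      exact (Submodule.smul_mem_iff _ (left_ne_zero_of_smul h0')).mp b1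
    · exact a4 a3 h0 b1
  refine SLV_le_of_TR fun v β hv => ?_
  by_cases v0 : v = 0
  · rw [v0]; exact TR.zero_left β
  obtain ⟨z, z0, hz⟩ : ∃ z, z ≠ 0 ∧ ∀ k : K, β (k • z) = 0 := by
    let T : V →ₗ[F] Dual F K := LinearMap.mk₂ F (fun z k => β (k • z)) (by simp)
      (fun c z k => by rw [smul_comm, map_smul]) (by simp [add_smul]) (by simp)
    obtain ⟨z, b1, b2⟩ := (LinearMap.ker T).exists_mem_ne_zero_of_ne_bot
      (LinearMap.ker_ne_bot_of_finrank_lt (by
        rw [Subspace.dual_finrank_eq, ← finrank_mul_finrank F K V]; nlinarith))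
    exact ⟨z, b2, LinearMap.congr_fun b1⟩
  by_cases b1 : z ∈ (K ∙ v).restrictScalars F
  · obtain ⟨c, rfl⟩ := Submodule.mem_span_singleton.mp b1
    exact a5 v v0 β fun k => by
      simpa [smul_smul, left_ne_zero_of_smul z0] using hz (k * c⁻¹)
  · obtain ⟨γ, b2, b3⟩ := exists_dual_one b1
    simpa [b2] using (a5 v v0 γ fun k => b3 _ (Submodule.mem_span_singleton.mpr ⟨k, rfl⟩)).comm
      (a5 z z0 β hz) hv

end Cfsg.Agent.H12
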