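import Mathlib
import Cfsg.Agent.H12.FldA

/-!
Overgroups of field extension subgroups in linear groups.
-/

set_option autoImplicit false

namespace Cfsg.Agent.H12

open Module

variable {F V : Type*} [Field F] [AddCommGroup V] [Module F V] {M : Subgroup (V ≃ₗ[F] V)}
  {K : Type*} [Field K] [Algebra F K] [Module K V] [IsScalarTower F K V]

/-- The map `g` is semilinear over the extension field. -/
def NK (K : Type*) [Field K] [Module K V] (g : V ≃ₗ[F] V) : Prop :=
  ∀ k : K, ∃ k' : K, ∀ v, g (k • v) = k' • g v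

omit [Algebra F K] [IsScalarTower F K V] in
theorem NK.of_lines (hm : 2 ≤ finrank K V) {g : V ≃ₗ[F] V}
    (h : ∀ (k : K) v, g (k • v) ∈ K ∙ g v) : NK K g := fun k => by
  choose a ha using fun v => Submodule.mem_span_singleton.mp (h k v)
  have h1 : ∀ x y, x ≠ 0 → g y ∉ K ∙ g x → a x = a y := fun x y hx hy => by
    have h2 := ha (x + y)
    rw [smul_add, map_add, map_add, ← ha, ← ha] at h2
    obtain ⟨φ, b1, b2⟩ := exists_dual_one_zero hy
    have h3 : a (x + y) = a y := by simpa [b1, b2] using congrArg φ h2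
    rw [h3, smul_add, add_left_inj] at h2
    exact (smul_left_injective K (by simpa) h2).symm
  obtain ⟨x, hx⟩ := exists_notMem_span hm (0 : V)
  refine ⟨a x, fun y => ?_⟩
  by_cases y0 : y = 0
  · simp [y0]
  rw [← ha]
  by_cases b1 : g y ∈ K ∙ g x
  · obtain ⟨z, hz⟩ := exists_notMem_span hm (g x)
    obtain ⟨z, rfl⟩ := g.surjective z
    rw [h1 x z (by simpa using hx) hz, h1 y z y0 fun e => hz (Submodule.span_le.mpr (by simpa) e)]
  · rw [h1 x y (by simpa using hx) b1]

theorem mem_of_comm_mem [Finite K] {R : AddSubgroup (End F K)}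
    (h1 : ∀ k : K, ∀ θ ∈ R, θ * Algebra.lmul F K k ∈ R) (h2 : ∀ k : K, Algebra.lmul F K k ∈ R)
    {θ : End F K} (h : ∀ k : K, Algebra.lmul F K k * θ - θ * Algebra.lmul F K k ∈ R) : θ ∈ R := by
  classical
  have := Fintype.ofFinite K
  let S := ∑ e : Kˣ, Algebra.lmul F K e * θ * Algebra.lmul F K (e⁻¹ : Kˣ)
  have a1 : S = Algebra.lmul F K (S 1) := LinearMap.ext fun x => by
    by_cases h0 : x = 0
    · simp [h0]
    simp only [S, LinearMap.sum_apply, Algebra.coe_lmul_eq_mul, LinearMap.mul_apply', Finset.sum_mul]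
    exact Fintype.sum_equiv (Equiv.mulRight (Units.mk0 x h0)⁻¹) _ _ fun e => by
      simp [mul_comm x]; field_simp
  have a2 : S + θ ∈ R := by
    convert sum_mem fun (e : Kˣ) (_ : e ∈ Finset.univ) => h1 (e⁻¹ : Kˣ) _ (h e) using 1
    simp only [sub_mul, mul_assoc θ, ← map_mul, Units.mul_inv, map_one, mul_one,
      Finset.sum_sub_distrib, Finset.sum_const, Finset.card_univ, Fintype.card_units]
    ext x
    have := Fintype.one_lt_card (α := K)
    simp [S, Nat.cast_sub this.le, FiniteField.cast_card_eq_zero]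
  exact (R.add_mem_cancel_left (a1 ▸ h2 _)).mp a2

theorem exists_add_smul_of_two [Finite K] (hr : finrank F K ≤ 2) {o : K}
    (ho : o ∉ (algebraMap F K).range) (k : K) : ∃ c d : F, c • 1 + d • o = k := by
  by_contra H
  obtain ⟨φ, c1, c2⟩ := exists_dual_one (W := Submodule.span F {1, o}) fun e =>
    H (Submodule.mem_span_pair.mp e)
  exact ho ((Submodule.mem_span_singleton.mp (mem_span_of_ker hr (fun e => by simp [e] at c1)
    one_ne_zero (c2 1 (Submodule.subset_span (by simp)))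
    (c2 o (Submodule.subset_span (by simp))))).imp fun c hc => by simpa [Algebra.smul_def] using hc)

theorem two_eq_zero_of_zero_or_one (hq : ∀ c : F, c = 0 ∨ c = 1) : (2 : K) = 0 := by
  rcases hq 2 with h | h
  · rw [← map_ofNat (algebraMap F K), h, map_zero]
  · exact absurd (by linear_combination h) (one_ne_zero (α := F))

variable [FiniteDimensional K V] [Finite K] (hM : KM K M) (hr : (finrank F K).Prime)
include hM hr

theorem KM.SLV_le_of_anticomm (hm : 2 ≤ finrank K V) (hq : ∀ c : F, c = 0 ∨ c = 1) {w v : V}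
    {ψ : Dual K V} (h1 : ψ w = 0) (h2 : ψ v = 1) (h0 : w ≠ 0) {l : Dual F K} {t k : K} (ht : l t ≠ 0)
    (hk : k ∉ (algebraMap F K).range) {Z : End F V} (hZ : EN M Z)
    (H : ∀ x, Z x = l (ψ x) • k • w - l (k * ψ x) • w) : SLV F V ≤ M := by
  let Φ : End F K →+ End F V := AddMonoidHom.mk' (fun θ =>
    (LinearMap.toSpanSingleton K V w).restrictScalars F ∘ₗ θ ∘ₗ ψ.restrictScalars F)
    fun _ _ => by ext; simp [add_smul]
  have a0 : ∀ θ x, Φ θ x = θ (ψ x) • w := fun _ _ => rfl
  let R := (RS M ((K ∙ w).restrictScalars F)).comap Φ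
  have a1 : ∀ θ, θ ∈ R ↔ EN M (Φ θ) := fun θ => ⟨fun h => h.2.2, fun h =>
    ⟨fun x => Submodule.mem_span_singleton.mpr ⟨_, rfl⟩, fun x hx => by
      obtain ⟨c, rfl⟩ := Submodule.mem_span_singleton.mp hx
      simp [a0, h1], h⟩⟩
  have a2 : ∀ {ψ : Dual K V} {y}, 1 + ψ y ≠ 0 → EN M (kt F ψ y) := fun h =>
    hM.en ((hq _).resolve_left (Algebra.norm_ne_zero_iff.mpr h))
  obtain ⟨χ, b1, b2⟩ := exists_dual_one_zero (F := K) (v := w) (w := v) fun e => by
    obtain ⟨c, rfl⟩ := Submodule.mem_span_singleton.mp e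
    simp [h2] at h1; simp [h1] at h0
  have a3 : ∀ k : K, ∀ θ ∈ R, Algebra.lmul F K k * θ ∈ R := fun k θ h => by
    by_cases k0 : k = 0
    · simpa [k0] using zero_mem R
    obtain ⟨s, hs, b3⟩ := a2 (ψ := χ) (y := (k - 1) • w) (by simpa [b1])
    exact (a1 _).mpr (((a1 _).mp h).conj hs fun x => by simp [a0, b3, h1, b1]; module)
  have a4 : ∀ k : K, ∀ θ ∈ R, θ * Algebra.lmul F K k ∈ R := fun k θ h => by
    by_cases k0 : k = 0
    · simpa [k0] using zero_mem R
    obtain ⟨s, hs, b3⟩ := a2 (ψ := ψ) (y := (k⁻¹ - 1) • v) (by simpa [h2])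
    exact (a1 _).mpr (((a1 _).mp h).conj hs fun x => by
      simp [a0, b3, h1, h2, mul_sub, mul_left_comm k, k0])
  let θ : End F K := l.smulRight 1
  let S : Subring K :=
    { carrier := {k | Algebra.lmul F K k * θ - θ * Algebra.lmul F K k ∈ R}
      mul_mem' := fun {a b} ha hb => by
        have := add_mem (a3 a _ hb) (a4 b _ ha)
        simpa only [Set.mem_ofPred_eq, map_mul, mul_sub, sub_mul, mul_assoc, sub_add_sub_cancel] using this
      one_mem' := by simpa only [Set.mem_ofPred_eq, map_one, one_mul, mul_one, sub_self] using zero_mem R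
      add_mem' := fun ha hb => by
        simpa only [Set.mem_ofPred_eq, map_add, add_mul, mul_add, sub_add_sub_comm] using R.add_mem ha hb
      zero_mem' := by simp
      neg_mem' := fun ha => by
        change _ - _ ∈ R
        convert R.neg_mem ha using 1
        ext; simp; ring }
  have a5 := eq_top_of_finrank_prime hr (S := S) (fun c => by
    change _ - _ ∈ R; rw [AlgHom.commutes, Algebra.commutes, sub_self]; exact zero_mem R)
    ((a1 _).mpr (by convert hZ using 1; ext x; simp [a0, H, θ, sub_smul])) hk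
  refine hM.SLV_le_of_EN hr.two_le hm ((a1 θ).mp (mem_of_comm_mem a4 (fun k => (a1 _).mpr ?_)
    fun k => a5.ge (Subring.mem_top k))) (w := w) (x := t • v)
    (fun x => Submodule.mem_span_singleton.mpr ⟨l (ψ x), by simp [a0, θ]⟩) (by simp [a0, h1])
    (by simp [a0, θ, h2, ht, h0])
  convert hM.en₀ (ψ := k • ψ) (y := w) (by simp [h1]) using 1
  ext; simp [a0]

theorem KM.SLV_le_of_four (hm : finrank K V = 2) (hq : ∀ c : F, c = 0 ∨ c = 1)
    (hr2 : finrank F K = 2) {w v : V} {ψ : Dual K V} (h1 : ψ w = 0) (h2 : ψ v = 1) (h0 : w ≠ 0)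
    {o : K} (ho : o ∉ (algebraMap F K).range) {b : End F V} (hb : EN M b) (b1 : b w = 0)
    (b2 : b v = 0) (b3 : b (o • w) = v) (b4 : b (o • v) = w ∨ b (o • v) = w + v) : SLV F V ≤ M := by
  have a1 := exists_add_smul_of_two hr2.le ho
  have a2 : (2 : K) = 0 := two_eq_zero_of_zero_or_one hq
  have o0 : o ≠ 0 := fun e => ho ⟨0, by simp [e]⟩
  have o1 : o ≠ 1 := fun e => ho ⟨1, by simp [e]⟩
  have a3 : o * o = o + 1 := by
    obtain ⟨c, d, h⟩ := a1 (o * o)
    rcases hq c with rfl | rfl <;> rcases hq d with rfl | rfl <;> simp at h <;> grind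
  have a4 : ∀ {ψ : Dual K V} {y}, 1 + ψ y ≠ 0 → EN M (kt F ψ y) := fun h =>
    hM.en ((hq _).resolve_left (Algebra.norm_ne_zero_iff.mpr h))
  obtain ⟨χ, c1, c2⟩ := exists_dual_one_zero (F := K) (v := w) (w := v) fun e => by
    obtain ⟨c, rfl⟩ := Submodule.mem_span_singleton.mp e
    simp [h2] at h1; simp [h1] at h0
  have key : ∀ g ∈ M, ∀ c : V, g c = c → g (o • c) = o • c → g w - w ∈ F ∙ c →
      g (o • w) - o • w ∈ F ∙ c → g v - v ∈ F ∙ c → g (o • v) - o • v ∈ F ∙ c →
      (g v ≠ v ∨ g (o • v) ≠ o • v) → SLV F V ≤ M := fun g hg c d1 d2 d3 d4 d5 d6 d7 => by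
    have d8 : ∀ (k : K) x, g x - x ∈ F ∙ c → g (o • x) - o • x ∈ F ∙ c →
        g (k • x) - k • x ∈ F ∙ c := fun k x e1 e2 => by
      obtain ⟨s, t, rfl⟩ := a1 k
      convert add_mem (Submodule.smul_mem _ s e1) (Submodule.smul_mem _ t e2) using 1
      simp [add_smul, smul_sub]; abel
    obtain ⟨x, hx⟩ : ∃ x, g x ≠ x := d7.elim (⟨_, ·⟩) (⟨_, ·⟩)
    refine hM.SLV_le_of_EN hr.two_le hm.ge (Z := (g : End F V) - 1) ⟨g, hg, by simp⟩ (w := c) (x := x)
      (fun x => ?_) (fun k => ?_) (by simpa [sub_eq_zero])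
    · obtain ⟨k, hk⟩ := Submodule.mem_span_singleton.mp (mem_span_of_ker hm.le
        (fun e => by simp [e] at h2) h0 h1 (x := x - ψ x • v) (by simp [h2]))
      rw [show x = k • w + ψ x • v by rw [hk]; abel]
      convert add_mem (d8 k w d3 d4) (d8 (ψ x) v d5 d6) using 1
      simp; abel
    · obtain ⟨s, t, rfl⟩ := a1 k
      simp [add_smul, d1, d2]
  obtain ⟨s, hs, e0⟩ := hb
  have e1 : s w = w := by simp [e0, b1]
  have e2 : s v = v := by simp [e0, b2]
  have e3 : s (o • w) = o • w + v := by simp [e0, b3]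
  rcases b4 with b4 | b4
  · have e4 : s (o • v) = o • v + w := by simp [e0, b4]
    obtain ⟨U, hU, f0⟩ := a4 (ψ := ψ) (y := w + o • w + v + o • v) (by simp [h1, h2]; clear * - a2 o0; grind)
    have f1 : U w = w := by simp [f0, h1]
    have f2 : U (o • w) = o • w := by simp [f0, h1]
    have f3 : U v = w + o • w + o • v := by simp only [f0, h2, kt_apply]; match_scalars <;> grobner
    have f4 : U (o • v) = w + v + o • v := by
      simp only [f0, h2, kt_apply, map_smul, smul_eq_mul]; match_scalars <;> grobner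
    have g1 : (s * U * s * U) w = w := by simp [e1, f1]
    have g2 : (s * U * s * U) v = v := by
      simp only [LinearEquiv.mul_apply, map_add, e1, e2, e3, e4, f1, f2, f3, f4]
      match_scalars <;> grobner
    have g3 : (s * U * s * U) (o • w) = o • v := by
      simp only [LinearEquiv.mul_apply, map_add, e1, e2, e3, e4, f1, f2, f3, f4]
      match_scalars <;> grobner
    have g4 : (s * U * s * U) (o • v) = o • w := by
      simp only [LinearEquiv.mul_apply, map_add, e1, e2, e3, e4, f1, f2, f3, f4]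
      match_scalars <;> grobner
    refine key _ (mul_mem (mul_mem (mul_mem hs hU) hs) hU) (o • w + o • v)
      (by rw [map_add, g3, g4, add_comm]) ?_ (by simp [g1]) ?_ (by simp [g2]) ?_ (Or.inr ?_)
    · rw [show o • (o • w + o • v) = o • w + o • v + w + v by match_scalars <;> grobner]
      simp only [map_add, g1, g2, g3, g4, add_comm]
    · exact Submodule.mem_span_singleton.mpr ⟨1, by rw [g3, one_smul]; match_scalars <;> grobner⟩
    · exact Submodule.mem_span_singleton.mpr ⟨1, by rw [g4, one_smul]; match_scalars <;> grobner⟩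
    · exact fun e => by simpa [g4, h1, h2, o0.symm] using congrArg ψ e
  · have e4 : s (o • v) = o • v + (w + v) := by simp [e0, b4]
    obtain ⟨U, hU, f0⟩ := a4 (ψ := ψ) (y := o • w) (by simp [h1])
    obtain ⟨U', hU', f0'⟩ := a4 (ψ := ψ) (y := w + o • w) (by simp [h1])
    obtain ⟨L, hL, g0⟩ := a4 (ψ := χ) (y := o • v) (by simp [c2])
    obtain ⟨L', hL', g0'⟩ := a4 (ψ := χ) (y := w + o • w + v + o • v) (by simp [c1, c2]; clear * - a2 o0; grind)
    have f1 : (U * L) w = o • w + o • v := by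
      simp only [LinearEquiv.mul_apply, f0, g0, kt_apply, map_add, map_smul, h1, h2, c1, smul_eq_mul]
      match_scalars <;> grobner
    have f2 : (U * L) (o • w) = w + o • w + v + o • v := by
      simp only [LinearEquiv.mul_apply, f0, g0, kt_apply, map_add, map_smul, h1, h2, c1, smul_eq_mul]
      match_scalars <;> grobner
    have f3 : (U * L) v = o • w + v := by
      simp only [LinearEquiv.mul_apply, f0, g0, kt_apply, map_add, map_smul, h1, h2, c2, smul_eq_mul]
      match_scalars <;> grobner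
    have f4 : (U * L) (o • v) = w + o • w + o • v := by
      simp only [LinearEquiv.mul_apply, f0, g0, kt_apply, map_add, map_smul, h1, h2, c2, smul_eq_mul]
      match_scalars <;> grobner
    have f5 : (U' * L') w = v + o • v := by
      simp only [LinearEquiv.mul_apply, f0', g0', kt_apply, map_add, map_smul, h1, h2, c1, smul_eq_mul]
      match_scalars <;> grobner
    have f6 : (U' * L') (o • w) = v := by
      simp only [LinearEquiv.mul_apply, f0', g0', kt_apply, map_add, map_smul, h1, h2, c1, smul_eq_mul]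
      match_scalars <;> grobner
    have f7 : (U' * L') v = w + o • w + v := by
      simp only [LinearEquiv.mul_apply, f0', g0', kt_apply, map_add, map_smul, h1, h2, c2, smul_eq_mul]
      match_scalars <;> grobner
    have f8 : (U' * L') (o • v) = w + o • v := by
      simp only [LinearEquiv.mul_apply, f0', g0', kt_apply, map_add, map_smul, h1, h2, c2, smul_eq_mul]
      match_scalars <;> grobner
    have h3 := mul_mem (mul_mem (mul_mem hs (mul_mem hU hL)) hs) (mul_mem hU' hL')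
    generalize U * L = A, U' * L' = B at *
    have g1 : (s * A * s * B) w = w ∧ (s * A * s * B) (o • w) = o • w ∧ (s * A * s * B) v = v + w ∧
        (s * A * s * B) (o • v) = o • v := by
      simp only [LinearEquiv.mul_apply, map_add, e1, e2, e3, e4, f1, f2, f3, f4, f5, f6, f7, f8]
      refine ⟨?_, ?_, ?_, ?_⟩ <;> match_scalars <;> grobner
    obtain ⟨g1, g2, g3, g4⟩ := g1
    exact key _ h3 w g1 g2 (by simp [g1]) (by simp [g2]) (by simp [g3]) (by simp [g4])
      (Or.inl (by simpa [g3]))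

theorem KM.map_line (hm : 2 ≤ finrank K V) (H : ¬ SLV F V ≤ M) {g : V ≃ₗ[F] V} (hg : g ∈ M) (k : K)
    (y : V) : g (k • y) ∈ K ∙ g y := by
  have := Module.Finite.of_finite (R := F) (M := K)
  have := Module.Finite.trans (R := F) K V
  let D : (V ≃ₗ[F] V) → V → Submodule F K := fun g y => ((K ∙ g y).restrictScalars F).comap
    (g.toLinearMap ∘ₗ (LinearMap.toSpanSingleton K V y).restrictScalars F)
  have hD : ∀ g y k, k ∈ D g y ↔ g (k • y) ∈ K ∙ g y := fun _ _ _ => Iff.rfl
  by_contra h0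
  obtain ⟨_, ⟨a1, g, hg, y, rfl⟩, a2⟩ := (wellFounded_gt (α := Submodule F K)).has_min
    {E | E ≠ ⊤ ∧ ∃ g ∈ M, ∃ y, E = D g y} ⟨D g y, fun e => h0 (e.ge (Submodule.mem_top (x := k))),
      g, hg, y, rfl⟩
  obtain ⟨k, a3⟩ : ∃ k, g (k • y) ∉ K ∙ g y := by simpa [Submodule.eq_top_iff', hD] using a1
  have y0 : y ≠ 0 := by rintro rfl; simp at a3
  have w0 : g y ≠ 0 := by simpa
  let l : Submodule F V := ((K ∙ y).restrictScalars F).map g.toLinearMap
  have hl : ∀ k : K, g (k • y) ∈ l := fun k => ⟨_, Submodule.mem_span_singleton.mpr ⟨k, rfl⟩, rfl⟩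
  have hw : g y ∈ l := by simpa using hl 1
  obtain ⟨o, a4⟩ : ∃ o : K, o • g y ∉ l := by
    by_contra! a4
    exact a3 ((Submodule.eq_of_le_of_finrank_eq (S₁ := (K ∙ g y).restrictScalars F) (S₂ := l)
      (fun x hx => by obtain ⟨c, rfl⟩ := Submodule.mem_span_singleton.mp hx; exact a4 c)
      (by rw [LinearEquiv.finrank_map_eq, finrank_KL y0, finrank_KL w0])).ge (hl k))
  have a5 : ∀ ψ : Dual K V, ψ (g y) = 0 → ψ (g (k • y)) = 1 → ∀ x ∈ l, ∃ c : F,
      algebraMap F K c = ψ x := fun ψ h1 h2 x hx => by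
    let S : Subring K :=
      { carrier := {c | ∀ d : K, d • g y ∈ l → (c * d) • g y ∈ l}
        mul_mem' := fun ha hb d h => by rw [mul_assoc]; exact ha _ (hb d h)
        one_mem' := fun d h => by rwa [one_mul]
        add_mem' := fun ha hb d h => by rw [add_mul, add_smul]; exact add_mem (ha d h) (hb d h)
        zero_mem' := fun d h => by simp
        neg_mem' := fun ha d h => by rw [neg_mul, neg_smul]; exact neg_mem (ha d h) }
    by_contra b1
    refine a4 (mul_one o ▸ (eq_top_of_finrank_prime hr (S := S) (fun c d h => by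
      rw [mul_smul, algebraMap_smul]; exact l.smul_mem c h) (fun d h => ?_) b1).ge
        (Subring.mem_top o) 1 (by simpa))
    obtain ⟨t, ht, b2⟩ := hM.en₀ (ψ := ψ) (y := d • g y) (by simp [h1])
    have b3 : ∀ x, (g⁻¹ * t * g) x = x + g.symm (ψ (g x) • d • g y) := fun x => by simp [b2]
    have b4 : (g⁻¹ * t * g) y = y := by simp [b3, h1]
    obtain ⟨z, b5, b6⟩ := h
    have b7 : D (g⁻¹ * t * g) y = ⊤ := by
      by_contra b7
      refine a2 _ ⟨b7, _, mul_mem (mul_mem (inv_mem hg) ht) hg, y, rfl⟩ ⟨fun c hc => ?_, fun e => a3 (e ?_)⟩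
      · obtain ⟨e, he⟩ := Submodule.mem_span_singleton.mp ((hD _ _ _).mp hc)
        refine (hD _ _ _).mpr ?_
        rw [b4, b3, ← he]
        simp [h1, Submodule.smul_mem]
      · refine (hD _ _ _).mpr ?_
        rw [b4, b3, h2, one_smul, ← b6]
        simpa using add_mem (Submodule.smul_mem _ k (Submodule.mem_span_singleton_self y)) b5
    obtain ⟨x, b8, rfl⟩ := hx
    obtain ⟨c, rfl⟩ := Submodule.mem_span_singleton.mp b8
    have b9 := (hD _ _ _).mp (b7.ge (Submodule.mem_top (x := c)))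
    rw [b4, b3, Submodule.add_mem_iff_right (K ∙ y) b8] at b9
    exact ⟨_, b9, by simp [smul_smul]⟩
  have a6 : ∀ x ∉ l, ∃ b : End F V, (∀ c : F, c • b ∈ RS M l) ∧ b x = g (k • y) ∧
      (finrank K V ≤ 2 → k ≠ 0 → ∀ z, b z = 0 → z ∈ l) := fun x hx => by
    obtain ⟨χ, b1, b2⟩ := exists_dual_one_zero (F := K) (v := g.symm x) (w := y) fun e =>
      hx ⟨_, e, by simp⟩
    refine ⟨g.toLinearMap ∘ₗ kt F (k • χ) y ∘ₗ g.symm.toLinearMap, fun c => ⟨fun z => ?_, ?_, ?_⟩,
      by simp [b1], fun h k0 z hz => ⟨_, mem_span_of_ker h (χ := χ) (x := g.symm z)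
        (fun e => by simp [e] at b1) y0 b2 (by simpa [k0, y0] using hz), by simp⟩⟩
    · exact l.smul_mem c (hl _)
    · rintro _ ⟨z, hz, rfl⟩
      obtain ⟨d, rfl⟩ := Submodule.mem_span_singleton.mp hz
      simp [b2]
    · exact (hM.en₀ (ψ := (algebraMap F K c * k) • χ) (y := y) (by simp [b2])).conj hg fun z => by
        simp [mul_assoc, mul_smul]
  obtain ⟨ψ, c1, c2⟩ := exists_dual_one_zero a3
  obtain ⟨b, c3, c4, c5⟩ := a6 _ a4
  have c6 := (one_smul F b ▸ c3 1).1
  have Q : ∀ (ψ : Dual K V) (d : K), ψ (g y) = 0 → (∀ x ∈ l, ∃ c : F, algebraMap F K c = ψ x) →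
      d • g y ∈ l → ∀ c : F, kt F ψ (d • g y) * (c • b) - (c • b) * kt F ψ (d • g y) -
        kt F ψ (d • g y) * (c • b) * kt F ψ (d • g y) ∈ RS M l := fun ψ d h1 h2 h3 c =>
    RS.comm_mem (c3 c) (hM.en₀ (by simp [h1])) (by simp [h1]) fun x hx => by
      obtain ⟨c, hc⟩ := h2 x hx
      rw [kt_apply, ← hc, algebraMap_smul]; exact l.smul_mem c h3
  have c7 := a5 ψ c2 c1
  have c8 : ∀ x, ψ (b x) • g y ∈ F ∙ g y := fun x => by
    obtain ⟨c, hc⟩ := c7 _ (c6 x)
    rw [← hc, algebraMap_smul]; exact Submodule.smul_mem _ c (Submodule.mem_span_singleton_self _)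
  by_cases hq : ∀ c : F, c = 0 ∨ c = 1
  swap
  · push Not at hq
    obtain ⟨c, d1, d2⟩ := hq
    have d3 := sub_mem (Q ψ 1 c2 c7 (by simpa) c) (Q ψ (algebraMap F K c) c2 c7
      (by rw [algebraMap_smul]; exact l.smul_mem c hw) 1)
    refine H (hM.SLV_le_of_EN hr.two_le hm (Z := (c * c - c) • (kt F ψ (g y) * b * kt F ψ (g y)))
      (by convert d3.2.2 using 1; ext x; simp [smul_comm (ψ _) c]; module) (w := g y) (x := o • g (k • y))
      (fun x => Submodule.smul_mem _ _ (c8 _)) (by simp [c2]) ?_)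
    simpa [c1, c4, w0, sub_eq_zero, d1] using d2
  by_cases h3 : 3 ≤ finrank K V
  · obtain ⟨χ, d1, d2, d3⟩ := exists_dual_ker₂ h3 (g y) (g (k • y))
    have d4 : ∀ x ∈ l, χ x = 0 := fun x hx => by
      by_contra d4
      obtain ⟨c, hc⟩ := a5 (ψ + ((o - ψ x) / χ x) • χ) (by simp [c2, d2]) (by simp [c1, d3]) x hx
      simp only [LinearMap.add_apply, LinearMap.smul_apply, smul_eq_mul, div_mul_cancel₀ _ d4,
        add_sub_cancel] at hc
      exact a4 (by rw [← hc, algebraMap_smul]; exact l.smul_mem c hw)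
    have d5 := sub_mem (add_mem (Q ψ 1 c2 c7 (by simpa) 1) (Q χ 1 d2
      (fun x hx => ⟨0, by simp [d4 x hx]⟩) (by simpa) 1)) (Q (ψ + χ) 1 (by simp [c2, d2])
      (fun x hx => by simpa [d4 x hx] using c7 x hx) (by simpa) 1)
    obtain ⟨z, hz⟩ := DFunLike.ne_iff.mp d1
    refine H (hM.SLV_le_of_EN hr.two_le hm (Z := kt F ψ (g y) * b * kt F χ (g y))
      (by convert d5.2.2 using 1; ext x; simp [d4 _ (c6 _), add_smul]; module) (w := g y)
      (x := (o / χ z) • z) (fun x => c8 _) (by simp [d2]) ?_)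
    simpa [c1, c4, w0, show χ z ≠ 0 from hz]
  have d1 : ∀ x, ψ x = 0 → x ∈ K ∙ g y := fun x =>
    mem_span_of_ker (by omega) (fun e => by simp [e] at c1) w0 c2
  obtain ⟨π, d2, -⟩ := exists_dual_one_zero (F := F) (v := (1 : K)) (w := 0) (by simp)
  have d3 : ∀ x ∈ l, π (ψ x) • (1 : K) = ψ x := fun x hx => by
    obtain ⟨c, hc⟩ := c7 x hx
    simp [← hc, Algebra.algebraMap_eq_smul_one, d2]
  have d4 : ∀ x ∈ l, ∀ z : V, π (ψ x) • z = ψ x • z := fun x hx z => by
    conv_rhs => rw [← d3 x hx, smul_assoc, one_smul]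
  by_cases h4 : 3 ≤ finrank F K
  · obtain ⟨d, e1, e2, e3⟩ := exists_mem_ker₂ h4 π (π ∘ₗ ψ.restrictScalars F ∘ₗ g.toLinearMap ∘ₗ
      (LinearMap.toSpanSingleton K V y).restrictScalars F)
    obtain ⟨j, e4⟩ := Submodule.mem_span_singleton.mp (d1 (g (d • y)) (by
      rw [← d3 _ (hl d)]; simpa using e3))
    have e5 := sub_mem (add_mem (Q ψ 1 c2 c7 (by simpa) 1) (Q ψ (-j) c2 c7
      (by rw [neg_smul, e4]; exact neg_mem (hl d)) 1)) (Q ψ (1 - j) c2 c7
      (by rw [sub_smul, e4, one_smul]; exact sub_mem hw (hl d)) 1)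
    refine H (hM.SLV_le_of_anticomm hr hm hq c2 c1 w0 (t := o) (k := j) (l := π ∘ₗ ψ.restrictScalars F ∘ₗ
      b ∘ₗ (LinearMap.toSpanSingleton K V (g y)).restrictScalars F) (by simp [c4, c1, d2]) ?_ (neg_mem e5).2.2
      fun x => ?_)
    · rintro ⟨c, rfl⟩
      rw [algebraMap_smul, ← map_smul, g.injective.eq_iff, ← algebraMap_smul K] at e4
      obtain rfl := smul_left_injective K y0 e4
      rw [Algebra.algebraMap_eq_smul_one, map_smul, d2] at e2
      simp [show c = 0 by simpa using e2] at e1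
    · simp [d4 _ (c6 _), sub_smul, smul_sub, smul_smul, mul_comm j]
      have := two_eq_zero_of_zero_or_one (K := K) hq
      match_scalars <;> grobner
  have e1 : o ∉ (algebraMap F K).range := by
    rintro ⟨c, rfl⟩; exact a4 (by rw [algebraMap_smul]; exact l.smul_mem c hw)
  have e2 := c5 (by omega) (by rintro rfl; simp at a3)
  have e3 : ∀ x ∈ l, ψ x ≠ o := fun x hx e => e1 (e ▸ c7 x hx)
  refine H (hM.SLV_le_of_four hr (by omega) hq (by have := hr.two_le; omega) c2 c1 w0 e1
    (one_smul F b ▸ c3 1).2.2 ((one_smul F b ▸ c3 1).2.1 _ hw) ((one_smul F b ▸ c3 1).2.1 _ (hl k)) c4 ?_)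
  obtain ⟨c, e4⟩ := c7 _ (c6 (o • g (k • y)))
  obtain ⟨j, e5⟩ := Submodule.mem_span_singleton.mp (d1 (b (o • g (k • y)) - c • g (k • y)) (by
    rw [map_sub, ← e4, ← algebraMap_smul K c, map_smul, c1, smul_eq_mul, mul_one, sub_self]))
  obtain ⟨j, rfl⟩ : j ∈ (algebraMap F K).range := by
    by_contra e6
    obtain ⟨s, t, rfl⟩ := exists_add_smul_of_two (by omega) e6 o
    rw [add_smul, smul_assoc, smul_assoc, one_smul] at a4
    exact a4 (add_mem (l.smul_mem _ hw) (l.smul_mem _ (e5 ▸ sub_mem (c6 _) (l.smul_mem c (hl k)))))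
  rw [eq_sub_iff_add_eq] at e5
  rcases hq j with rfl | rfl <;> rcases hq c with rfl | rfl
  · exact (e3 _ (e2 (o • g (k • y)) (by simp [← e5])) (by simp [c1])).elim
  · exact (e3 _ (e2 (o • g (k • y) - o • g y) (by simp [← e5, c4])) (by simp [c1, c2])).elim
  · simp [← e5]
  · simp [← e5]

theorem KM.SLV_le (hm : 2 ≤ finrank K V) {g : V ≃ₗ[F] V} (hg : g ∈ M) (hg' : ¬ NK K g) :
    SLV F V ≤ M := by
  by_contra H
  exact hg' (NK.of_lines hm (hM.map_line hr hm H hg))

end Cfsg.Agent.H12
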