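import Mathlib
import Cfsg.Agent.H12.MaxS
import Cfsg.Agent.H18.SuMax
import Cfsg.Agent.H18.SpMax
import Cfsg.Agent.H18.SpStd

/-!
Bridges between forms given as functions and skew-hermitian forms; maximality of subspace
stabilisers and similarity groups in the special linear group.
-/

set_option autoImplicit false

namespace Cfsg.Agent.H12

open Module Cfsg.Geo Matrix

variable {ι : Type} [Fintype ι] [DecidableEq ι] {F : Type*} [Field F] {σ : F →+* F} {ε a : F}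
  {f : (ι → F) → (ι → F) → F}

/-- The skew-hermitian multiple of a form with transvections. -/
def tB (hf : H18.TvF σ ε f a) : (ι → F) →ₛₗ[σ] (ι → F) →ₗ[F] F := a • hf.toSesq.toMap

omit [Fintype ι] [DecidableEq ι] in
theorem tB_apply (hf : H18.TvF σ ε f a) (x y : ι → F) : tB hf x y = a * f y x := rfl

omit [Fintype ι] [DecidableEq ι] in
theorem tB_eq_zero (hf : H18.TvF σ ε f a) {x y : ι → F} : tB hf x y = 0 ↔ f y x = 0 := by
  simp [tB_apply, hf.ne]

omit [Fintype ι] [DecidableEq ι] in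
theorem tB_eq_zero' (hf : H18.TvF σ ε f a) {x y : ι → F} : tB hf x y = 0 ↔ f x y = 0 :=
  (tB_eq_zero hf).trans ⟨hf.eq_zero_comm, hf.eq_zero_comm⟩

omit [Fintype ι] [DecidableEq ι] in
theorem sd_tB (hf : H18.TvF σ ε f a) : SD (tB hf) where
  invol := hf.invol
  skew x y := by
    rw [tB_apply, tB_apply, hf.herm x y, map_mul]; linear_combination σ (f y x) * hf.tr0
  sep x hx := hf.nondeg x fun y => (tB_eq_zero hf).mp (hx y)
  trace x := by
    obtain ⟨d, hd⟩ := hf.tr x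
    exact ⟨a * σ d, by
      rw [tB_apply, ← hd, map_mul, hf.invol]; linear_combination -d * hf.tr0⟩

theorem glEq_mem_UG (hf : H18.TvF σ ε f a) {g : GL ι F} :
    glEq ι F g ∈ UG (tB hf) ↔ g ∈ H18.isoG f := by
  change (∀ x y, a * _ = a * _) ↔ ∀ u v, _
  simp only [mul_right_inj' hf.ne]
  exact forall_comm

/-- Isometries as matrices. -/
noncomputable def toGL (B : (ι → F) →ₛₗ[σ] (ι → F) →ₗ[F] F) : UG B →* GL ι F :=
  ((glEq ι F).symm : _ →* GL ι F).comp (UG B).subtype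

theorem glEq_toGL {B : (ι → F) →ₛₗ[σ] (ι → F) →ₗ[F] F} (g : UG B) : glEq ι F (toGL B g) = g.1 :=
  (glEq ι F).apply_symm_apply _

theorem toGL_mulVec {B : (ι → F) →ₛₗ[σ] (ι → F) →ₗ[F] F} (g : UG B) (v : ι → F) :
    (toGL B g).1 *ᵥ v = g.1 v := glEq_symm_mulVec _ _

theorem map_SUG (hf : H18.TvF σ ε f a) :
    (SUG (tB hf)).map (toGL _) = H18.isoG f ⊓ specialLinear ι F := by
  ext g
  constructor
  · rintro ⟨g, hg, rfl⟩
    exact ⟨(glEq_mem_UG hf).mp (by rw [glEq_toGL]; exact g.2), glEq_mem_SLV.mp (by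
      rw [glEq_toGL]; exact mem_SLV.mpr (mem_SUG.mp hg))⟩
  · rintro ⟨h1, h2⟩
    exact ⟨⟨_, (glEq_mem_UG hf).mpr h1⟩, mem_SUG.mpr (mem_SLV.mp (glEq_mem_SLV.mpr h2)),
      (glEq ι F).symm_apply_apply g⟩

theorem isoG_le_SL (hf : H18.TvF (RingHom.id F) ε f a) : H18.isoG f ≤ specialLinear ι F :=
  fun g hg => glEq_mem_SLV.mp (mem_SLV.mpr (mem_SUG.mp (((sd_tB hf).SUG_eq_top rfl).ge
    (Subgroup.mem_top (⟨_, (glEq_mem_UG hf).mpr hg⟩ : UG _)))))

theorem has_SU (hf : H18.TvF σ ε f a) : hf.Has (H18.isoG f ⊓ specialLinear ι F) :=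
  fun _ hw => hf.ft_mem hf.tr0 hw

/-- Maximality in the special isometry group. -/
theorem isMaximalIn_iso (hf : H18.TvF σ ε f a) {S : Subgroup (GL ι F)}
    (P : ((ι → F) ≃ₗ[F] (ι → F)) → Prop) (hS : ∀ g : GL ι F, g ∈ S ↔ P (glEq ι F g))
    (hne : ¬ H18.isoG f ⊓ specialLinear ι F ≤ S)
    (h : ∀ M : Subgroup (UG (tB hf)), (∀ g ∈ SUG (tB hf), P g.1 → g ∈ M) → M ≤ SUG (tB hf) →
      ∀ g ∈ M, ¬ P g.1 → SUG (tB hf) ≤ M) :
    IsMaximalIn (H18.isoG f ⊓ specialLinear ι F) (S ⊓ (H18.isoG f ⊓ specialLinear ι F)) := by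
  refine isMaximalIn_of_hom _ _ (map_SUG hf) (fun g => P g.1) (fun g _ => by rw [hS, glEq_toGL])
    ?_ h
  rw [← map_SUG hf] at hne
  obtain ⟨_, ⟨g, hg, rfl⟩, h1⟩ := SetLike.not_le_iff_exists.mp hne
  exact ⟨g, hg, by rwa [hS, glEq_toGL] at h1⟩

omit [Fintype ι] [DecidableEq ι] in
theorem tvF_of_symplectic [Nonempty ι] (hf : IsSymplecticForm f) : H18.TvF (RingHom.id F) (-1) f 1 := by
  classical
  exact ⟨H18.hform_of_symplectic hf, one_ne_zero, by simp, fun u => ⟨0, by simp [hf.alternating]⟩,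
    ⟨Pi.single (Classical.arbitrary ι) 1, by simp, hf.alternating _⟩⟩

theorem tvF_sp {m : ℕ} (hm : 0 < m) (F : Type*) [Field F] :
    H18.TvF (RingHom.id F) (-1) (sympForm m F) 1 :=
  have : Nonempty (Fin m ⊕ Fin m) := ⟨.inl ⟨0, hm⟩⟩
  tvF_of_symplectic (H18.symplectic_sympForm m)

theorem spGL_eq_inf {m : ℕ} (hm : 0 < m) (F : Type*) [Field F] :
    spGL m F = H18.isoG (sympForm m F) ⊓ specialLinear _ F :=
  (inf_eq_left.mpr (isoG_le_SL (tvF_sp hm F))).symm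

theorem exists_tvF_su [Fintype F] {n q : ℕ} (hF : Fintype.card F = q ^ 2) (hn : 2 ≤ n) :
    ∃ a, H18.TvF (frobq hF) 1 (hermForm n F q) a :=
  (H18.hform_hermForm (frobq_apply hF) (frobq_frobq hF) n).tvF_herm (frobq_ne_id hF) (by simpa)

theorem sim_iff (hf : H18.TvF σ ε f a) (g : GL ι F) :
    g ∈ similarityGroup f ↔ Sim (tB hf) (glEq ι F g) :=
  ⟨fun ⟨c, hc⟩ => ⟨c, c.ne_zero, fun x y => by
      rw [tB_apply, tB_apply, glEq_apply, glEq_apply, hc]; ring⟩,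
    fun ⟨c, h0, hc⟩ => ⟨Units.mk0 c h0, fun x y => mul_left_cancel₀ hf.ne (by
      have := hc y x
      rw [tB_apply, tB_apply, glEq_apply, glEq_apply] at this
      rw [this, Units.val_mk0]; ring)⟩⟩

theorem max_SL_stab {W : Submodule F (ι → F)} (h0 : W ≠ ⊥) (h1 : W ≠ ⊤) :
    IsMaximalIn (specialLinear ι F) (subspaceStabilizer W ⊓ specialLinear ι F) :=
  isMaximalIn_SL (fun g => ∀ v, v ∈ W ↔ g v ∈ W) (fun _ => Iff.rfl) (H18.SL_not_le_stab h0 h1)
    fun _ hM _ _ hg hg' => SLV_le_of_stab hM hg hg'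

theorem max_SL_sim [Finite F] (hf : H18.TvF σ ε f a) (h3 : 3 ≤ Fintype.card ι)
    (hn : σ = RingHom.id F ∨ 5 ≤ Fintype.card ι) :
    IsMaximalIn (specialLinear ι F) (similarityGroup f ⊓ specialLinear ι F) :=
  isMaximalIn_SL _ (sim_iff hf) (H18.SL_not_le_similarity h3 hf.toHForm) fun _ hM _ _ hg hg' =>
    (sd_tB hf).SLV_le_of_sim (sd_tB hf).ns (by simp; omega) (by simpa)
      (fun k hk => hM _ (mem_SLV.mpr (mem_SUG.mp hk)) ⟨1, one_ne_zero, fun x y => by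
        rw [UG_map, one_mul]⟩) hg hg'

theorem max_SL_symp [Finite F] (hf : IsSymplecticForm f) (h3 : 3 ≤ Fintype.card ι) :
    IsMaximalIn (specialLinear ι F) (similarityGroup f ⊓ specialLinear ι F) :=
  have : Nonempty ι := Fintype.card_pos_iff.mp (by omega)
  max_SL_sim (tvF_of_symplectic hf) h3 (Or.inl rfl)

theorem max_SL_unit [Finite F] {τ : F ≃+* F} (hf : IsUnitaryForm τ f) (h5 : 5 ≤ Fintype.card ι) :
    IsMaximalIn (specialLinear ι F) (similarityGroup f ⊓ specialLinear ι F) := by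
  obtain ⟨a, h⟩ := (H18.hform_of_unitary hf).tvF_herm (H18.coe_ne_id hf.ne_refl) (by omega)
  exact max_SL_sim h (by omega) (Or.inr h5)

theorem exists_between {G : Type*} [Group G] {K S T : Subgroup G} (h1 : S ⊓ K ≤ T)
    (h2 : ¬ K ≤ T) (h3 : ¬ T ⊓ K ≤ S) : ∃ L, S ⊓ K < L ∧ L < K :=
  ⟨T ⊓ K, lt_of_le_of_ne (le_inf h1 inf_le_right) fun h => h3 (h.ge.trans inf_le_left),
    lt_of_le_of_ne inf_le_right fun h => h2 (h.ge.trans inf_le_left)⟩

theorem SL_stab_not_le {W U : Submodule F (ι → F)} (h2 : U ≠ ⊥) (h3 : U ≠ ⊤) (h : W ≠ U) :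
    ¬ subspaceStabilizer W ⊓ specialLinear ι F ≤ subspaceStabilizer U := by
  intro H
  have key : ∀ (v : ι → F) (φ : Dual F (ι → F)), φ v = 0 → (v ∈ W ∨ ∀ w ∈ W, φ w = 0) → ∀ u ∈ U,
      φ u = 1 → v ∈ U := fun v φ h0 h1 u hu h4 => by
    have h5 := H (x := (glEq ι F).symm (LinearEquiv.transvection h0)) ⟨fun x => by
      change _ ↔ (_ : GL ι F).1 *ᵥ x ∈ W
      rw [glEq_symm_mulVec]
      exact h1.elim (fun h1 => stab_of_tr_mem h1 (fun _ => rfl) x)
        fun h1 => stab_of_tr_ann h0 h1 (fun _ => rfl) x, glEq_mem_SLV.mp (by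
      rw [MulEquiv.apply_symm_apply]; exact LinearEquiv.transvection.det_eq_one h0)⟩
    have h6 := U.sub_mem ((H18.mem_subspaceStabilizer.mp h5 u).mp hu) hu
    rw [glEq_symm_mulVec] at h6
    simpa [LinearMap.transvection.apply, h4] using h6
  obtain ⟨u, hu, hu0⟩ := U.ne_bot_iff.mp h2
  have h4 : W ≤ U := fun v hv => by
    by_cases h4 : u ∈ F ∙ v
    · obtain ⟨c, rfl⟩ := Submodule.mem_span_singleton.mp h4
      exact (U.smul_mem_iff (by rintro rfl; simp at hu0)).mp hu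
    · obtain ⟨φ, h5, h6⟩ := exists_dual_one_zero h4
      exact key v φ h6 (Or.inl hv) u hu h5
  obtain ⟨y, hy, h5⟩ := SetLike.exists_of_lt (lt_of_le_of_ne h4 h)
  obtain ⟨v, -, hv⟩ := SetLike.exists_of_lt (lt_top_iff_ne_top.mpr h3)
  obtain ⟨φ, h6, h7⟩ := exists_dual_one (W := W ⊔ F ∙ v) (v := y) fun h6 => by
    obtain ⟨w, hw, z, hz, rfl⟩ := Submodule.mem_sup.mp h6
    obtain ⟨c, rfl⟩ := Submodule.mem_span_singleton.mp hz
    rw [U.add_mem_iff_right (h4 hw), U.smul_mem_iff (by rintro rfl; simp [hw] at h5)] at hy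
    exact hv hy
  exact hv (key v φ (h7 v (Submodule.mem_sup_right (Submodule.mem_span_singleton_self v)))
    (Or.inr fun w hw => h7 w (Submodule.mem_sup_left hw)) y hy h6)

theorem not_max_SL_pair {W U : Submodule F (ι → F)} (h0 : W ≠ ⊥) (h1 : W ≠ ⊤) (h2 : U ≠ ⊥)
    (h3 : U ≠ ⊤) (h : W ≠ U) : ∃ K, subspaceStabilizer W ⊓ subspaceStabilizer U ⊓ specialLinear ι F < K ∧
      K < specialLinear ι F :=
  exists_between (inf_le_left.trans inf_le_left) (H18.SL_not_le_stab h0 h1)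
    fun H => SL_stab_not_le h2 h3 h (H.trans inf_le_right)

end Cfsg.Agent.H12
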