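import Mathlib
import Cfsg.Agent.H12.FldB
import Cfsg.Agent.H12.MaxB

/-!
Normalisers of subfields of the matrix algebra are maximal.
-/

set_option autoImplicit false

namespace Cfsg.Agent.H12

open Module Cfsg.Geo Matrix

variable {ι : Type} [Fintype ι] [DecidableEq ι] {F : Type*} [Field F]
  {K : Subalgebra F (Matrix ι ι F)} {r : ℕ}

theorem fld_smul (k : K) (v : ι → F) : k • v = (k : Matrix ι ι F) *ᵥ v := rfl

instance instTowerSubalg : IsScalarTower F K (ι → F) :=
  ⟨fun c k v => Matrix.smul_mulVec c (k : Matrix ι ι F) v⟩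

theorem mem_normalizer_iff {g : GL ι F} : g ∈ subalgebraNormalizer K ↔
    ∀ k : K, ∃ k' : K, ∀ v, glEq ι F g (k • v) = k' • glEq ι F g v := by
  refine ⟨fun h k => ⟨⟨_, (h k).mp k.2⟩, fun v => (H18.cj_mulVec g k v).symm⟩, fun h => ?_⟩
  have h1 : (Subalgebra.toSubmodule K).map (H18.cj g).toLinearEquiv.toLinearMap =
      Subalgebra.toSubmodule K := Submodule.eq_of_le_of_finrank_eq (by
    rintro _ ⟨k, hk, rfl⟩
    obtain ⟨k', h1⟩ := h ⟨k, hk⟩
    have : H18.cj g k = k' := (H18.cj_eq_iff _ _ _).mpr (mat_ext_mulVec fun v => by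
      simpa [glEq_apply, fld_smul] using h1 v)
    exact this ▸ k'.2) (LinearEquiv.finrank_map_eq _ _)
  refine fun k => ⟨fun hk => h1.le ⟨k, hk, rfl⟩, fun hk => ?_⟩
  obtain ⟨k', h2, h3⟩ := h1.ge hk
  rwa [← (H18.cj g).injective h3]

variable [Fintype F]

theorem SL_le_of_field (hr : r.Prime) (hK : IsFieldSubalgebra r K) (hlt : r < Fintype.card ι)
    {M : Subgroup ((ι → F) ≃ₗ[F] (ι → F))}
    (hM : ∀ g ∈ SLV F (ι → F), (∀ (k : K) v, g (k • v) = k • g v) → g ∈ M)
    {g : (ι → F) ≃ₗ[F] (ι → F)} (hg : g ∈ M) (hg' : ¬ ∀ k : K, ∃ k' : K, ∀ v, g (k • v) = k' • g v) :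
    SLV F (ι → F) ≤ M := by
  have : Nonempty ι := Fintype.card_pos_iff.mp (by omega)
  let := (H18.isField_of_inv K hK.comm hK.inv).toField
  have h1 := finrank_mul_finrank F K (ι → F)
  rw [hK.finrank_eq, finrank_fintype_fun_eq_card] at h1
  refine KM.SLV_le (K := K) (fun k hk => hM _ (mem_SLV.mpr ?_) k.map_smul)
    (hK.finrank_eq ▸ hr) (by by_contra h; nlinarith) hg hg'
  rw [← hk, ← LinearMap.det_restrictScalars]; rfl

theorem exists_SL_field (hK : IsFieldSubalgebra r K) (hlt : r < Fintype.card ι) :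
    ∃ g ∈ subalgebraNormalizer K ⊓ specialLinear ι F, ∃ U : Submodule F (ι → F), finrank F U ≤ r ∧
      (∀ v, (g : Matrix ι ι F) *ᵥ v - v ∈ U) ∧ ∃ v, (g : Matrix ι ι F) *ᵥ v ≠ v := by
  have : Nonempty ι := Fintype.card_pos_iff.mp (by omega)
  let := (H18.isField_of_inv K hK.comm hK.inv).toField
  have h1 := finrank_mul_finrank F K (ι → F)
  rw [hK.finrank_eq, finrank_fintype_fun_eq_card] at h1
  have h2 : 2 ≤ finrank K (ι → F) := by by_contra h; nlinarith
  obtain ⟨y, hy⟩ := exists_notMem_span h2 0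
  obtain ⟨x, hx⟩ := exists_notMem_span h2 y
  obtain ⟨ψ, h3, h4⟩ := exists_dual_one_zero hx
  have h5 : y ≠ 0 := by simpa using hy
  refine ⟨(glEq ι F).symm ((LinearEquiv.transvection h4).restrictScalars F),
    ⟨mem_normalizer_iff.mpr fun k => ⟨k, fun v => ?_⟩, glEq_mem_SLV.mp (mem_SLV.mpr ?_)⟩,
    (K ∙ y).restrictScalars F, by rw [finrank_KL h5, hK.finrank_eq], fun v => ?_, x, ?_⟩
  · rw [MulEquiv.apply_symm_apply]; exact (LinearEquiv.transvection h4).map_smul k v
  · rw [MulEquiv.apply_symm_apply]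
    exact (LinearMap.det_restrictScalars (f := LinearMap.transvection ψ y)).trans (by simp [h4])
  · rw [glEq_symm_mulVec]; exact Submodule.mem_span_singleton.mpr ⟨ψ v, (add_sub_cancel_left _ _).symm⟩
  · rw [glEq_symm_mulVec]; change x + ψ x • y ≠ x; simpa [h3]

omit [Fintype F] in
theorem SL_not_le_field (hr : 2 ≤ r) (hK : IsFieldSubalgebra r K) (h : 3 ≤ Fintype.card ι) :
    ¬ specialLinear ι F ≤ subalgebraNormalizer K := fun H => by
  obtain ⟨g, hg, U, h1, h2, h3⟩ := H18.exists_SL_small (ι := ι) (F := F) (by omega)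
  exact H18.not_mem_normalizer_of_small h h1 h2 h3 hr hK (H hg)

theorem max_SL_field (hr : r.Prime) (hK : IsFieldSubalgebra r K) (hlt : r < Fintype.card ι) :
    IsMaximalIn (specialLinear ι F) (subalgebraNormalizer K ⊓ specialLinear ι F) :=
  isMaximalIn_SL _ (fun _ => mem_normalizer_iff) (SL_not_le_field hr.two_le hK (by
    have := hr.two_le; omega)) fun _ hM _ _ =>
      SL_le_of_field hr hK hlt fun g h1 h2 => hM g h1 fun k => ⟨k, h2 k⟩

theorem isCoatom_field (hr : r.Prime) (hK : IsFieldSubalgebra r K) (hlt : r < Fintype.card ι) :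
    IsCoatom (subalgebraNormalizer K) := by
  refine ⟨fun h => SL_not_le_field hr.two_le hK (by have := hr.two_le; omega) (h ▸ le_top),
    fun M hM => eq_top_iff.mpr fun x _ => ?_⟩
  obtain ⟨g, hg, hg'⟩ := SetLike.exists_of_lt hM
  have h0 : ∀ g, (∀ (k : K) v, g (k • v) = k • g v) → g ∈ M.map (glEq ι F).toMonoidHom := fun g h =>
    ⟨(glEq ι F).symm g, hM.le (mem_normalizer_iff.mpr fun k => ⟨k, by simpa using h k⟩), by simp⟩
  have h1 := SL_le_of_field hr hK hlt (fun g _ => h0 g) ⟨g, hg, rfl⟩ (mt mem_normalizer_iff.mpr hg')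
  have : Nonempty ι := Fintype.card_pos_iff.mp (by omega)
  let := (H18.isField_of_inv K hK.comm hK.inv).toField
  obtain ⟨c, hc⟩ := FiniteField.norm_surjective F K (x : Matrix ι ι F).det
  obtain ⟨y, hy⟩ := exists_ne (0 : ι → F)
  obtain ⟨ψ, h3, -⟩ := exists_dual_one_zero (F := K) (v := y) (w := 0) (by simpa)
  have h4 : 1 + ψ ((c - 1) • y) = c := by simp [h3]
  let s := (LinearEquiv.dilatransvection (f := ψ) (v := (c - 1) • y) (Ne.isUnit fun e => by
    rw [h4] at e; simp [e] at hc; exact x.det_ne_zero hc.symm))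
  have h5 : glEq ι F x * (s.restrictScalars F)⁻¹ ∈ SLV F (ι → F) := by
    rw [SLV, MonoidHom.mem_ker, map_mul, map_inv, mul_inv_eq_one, Units.ext_iff, LinearEquiv.coe_det,
      LinearEquiv.coe_det, det_glEq, ← hc, ← h4, ← LinearMap.transvection.det,
      ← LinearMap.det_restrictScalars]
    rfl
  obtain ⟨z, hz, h6⟩ := (Subgroup.mul_mem_cancel_right _ (inv_mem (h0 _ s.map_smul))).mp (h1 h5)
  rwa [← (glEq ι F).injective h6]

theorem exists_between_field (hr1 : 1 < r) (hr : ¬ r.Prime) (hK : IsFieldSubalgebra r K)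
    (hlt : r < Fintype.card ι) : ∃ T, subalgebraNormalizer K ≤ T ∧ ¬ specialLinear ι F ≤ T ∧
      ¬ T ⊓ specialLinear ι F ≤ subalgebraNormalizer K := by
  have : Nonempty ι := Fintype.card_pos_iff.mp (by omega)
  obtain ⟨s, hs, t, rfl⟩ := Nat.exists_prime_and_dvd hr1.ne'
  obtain ⟨K', h1, h2⟩ := H18.exists_subfield_of_dvd K hK.comm hK.inv
    (hK.finrank_eq ▸ dvd_mul_right s t)
  obtain ⟨m, hm⟩ := H18.dvd_card_of_isFieldSubalgebra hK
  have h3 : 2 ≤ t := by
    by_contra h; interval_cases t <;> simp_all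
  have h4 : 2 ≤ m := by by_contra h; interval_cases m <;> omega
  have h5 := hs.two_le
  refine ⟨_, H18.le_subalgebraNormalizer fun g hg k hk => ?_,
    SL_not_le_field h5 h1 (by omega), fun H => ?_⟩
  · rw [h2] at hk ⊢
    exact ⟨(hg k).mp hk.1, by rw [← map_pow, hk.2]⟩
  · obtain ⟨g, hg, U, a1, a2, v, a3⟩ := exists_SL_field h1 (by nlinarith)
    have := H18.le_finrank_of_centralizes hK (H18.centralizes_of_small hK (H hg) a2 (by nlinarith)) a2 a3
    nlinarith

end Cfsg.Agent.H12
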