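import Mathlib

/-!
Minimal degree of a primitive permutation group.
-/

set_option autoImplicit false

namespace Cfsg.Agent.H12.MinDeg

open MulAction

variable {G Ω : Type*} [Group G] [Finite G] [MulAction G Ω] [Fintype Ω]

theorem conn (hp : IsPreprimitive G Ω) {a b : Ω} (hab : a ≠ b) {O : Set Ω} (hO : ∀ g : G, g • a ∈ O → g • b ∈ O)
    {x : Ω} (hx : x ∈ O) (y : Ω) : y ∈ O := by
  have : Nontrivial Ω := ⟨a, b, hab⟩
  let K₀ : Submonoid G :=
    { carrier := {g | ∀ k : G, k • a ∈ O → (k * g) • a ∈ O}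
      mul_mem' := fun {g g'} h h' k e => by rw [← mul_assoc]; exact h' _ (h k e)
      one_mem' := fun k e => by simpa using e }
  let K : Subgroup G := { K₀ with
    inv_mem' := fun {g} h => by
      have : g⁻¹ = g ^ (orderOf g - 1) := by
        rw [inv_eq_iff_mul_eq_one, ← pow_succ', Nat.sub_add_cancel (orderOf_pos g), pow_orderOf_eq_one]
      rw [this]; exact K₀.pow_mem h _ }
  obtain ⟨h, rfl⟩ := exists_smul_eq G a b
  have : K = ⊤ := ((isCoatom_stabilizer_iff_preprimitive G a).mpr hp).2 K (lt_of_le_of_ne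
    (fun g e k e' => by rwa [mul_smul, mem_stabilizer_iff.mp e]) fun e => hab (mem_stabilizer_iff.mp
      (e ▸ (show h ∈ K from fun k e' => by rw [mul_smul]; exact hO k e'))).symm)
  obtain ⟨k, rfl⟩ := exists_smul_eq G a x
  obtain ⟨k', rfl⟩ := exists_smul_eq G a y
  have e := (this ▸ Subgroup.mem_top (k⁻¹ * k') : _ ∈ K) k hx
  rwa [mul_inv_cancel_left] at e

variable (G) in
/-- The points distinguishing `a` from `b`. -/
def Ps (a b : Ω) : Set Ω := {c | ¬ ∃ h : G, h • c = c ∧ h • a = b}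

variable (G) in
/-- The orbit of `b` under the stabiliser of `a`. -/
def Nb (a b : Ω) : Set Ω := {c | ∃ h : G, h • a = a ∧ h • b = c}

omit [Finite G] [Fintype Ω] in
theorem Ps_comm (a b : Ω) : Ps G a b = Ps G b a := by
  have : ∀ a b : Ω, Ps G a b ⊆ Ps G b a := fun a b c h ⟨g, e, e'⟩ =>
    h ⟨g⁻¹, by rw [inv_smul_eq_iff, e], by rw [inv_smul_eq_iff, e']⟩
  exact (this a b).antisymm (this b a)

omit [Finite G] in
theorem Ps_tri (a b c : Ω) : (Ps G a c).ncard ≤ (Ps G a b).ncard + (Ps G b c).ncard := by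
  refine le_trans (Set.ncard_le_ncard fun x h => ?_) (Set.ncard_union_le _ _)
  by_contra e
  simp only [Ps, Set.mem_union, Set.mem_ofPred_eq, not_or, not_not] at e
  obtain ⟨⟨g, a1, a2⟩, g', a3, a4⟩ := e
  exact h ⟨g' * g, by rw [mul_smul, a1, a3], by rw [mul_smul, a2, a4]⟩

omit [Finite G] in
theorem Ps_smul (g : G) (a b : Ω) : (Ps G (g • a) (g • b)).ncard = (Ps G a b).ncard := by
  have : ∀ (g : G) (a b : Ω), (Ps G a b).ncard ≤ (Ps G (g • a) (g • b)).ncard := fun g a b =>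
    Set.ncard_le_ncard_of_injOn (g • ·) (fun c h ⟨k, e, e'⟩ => h ⟨g⁻¹ * k * g, by simp [mul_smul, e], by
      simp [mul_smul, e']⟩) (MulAction.injective g).injOn
  exact le_antisymm (by simpa using this g⁻¹ (g • a) (g • b)) (this g a b)

theorem le_mul (hp : IsPreprimitive G Ω) {a b : Ω} (hab : a ≠ b) :
    Fintype.card Ω ≤ (Nb G a b).ncard * (Ps G a b).ncard := by
  classical
  have h1 : ∀ c : Ω, ∃ e ∈ Nb G a b, c ∈ Ps G a e := fun c => by
    by_contra! h
    have key : ∀ y, y ∈ Nb G c a := conn hp hab (fun g ⟨k, a1, a2⟩ => by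
      obtain ⟨k', a3, a4⟩ := not_not.mp (h ((k⁻¹ * g) • b) ⟨_, by rw [mul_smul, ← a2, inv_smul_smul], rfl⟩)
      exact ⟨k * k', by rw [mul_smul, a3, a1], by simp [mul_smul, a4]⟩) (x := a) ⟨1, by simp, by simp⟩
    obtain ⟨k, a1, a2⟩ := key c
    obtain ⟨k', a3, a4⟩ := key b
    rw [← (MulAction.injective k).eq_iff.mp (a2.trans a1.symm)] at a3
    exact hab (a3.symm.trans a4)
  calc Fintype.card Ω ≤ ((Nb G a b).toFinset.biUnion fun e => (Ps G a e).toFinset).card :=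
        Finset.card_le_card fun c _ => by simpa using h1 c
    _ ≤ _ := by
      rw [Set.ncard_eq_toFinset_card']
      refine Finset.card_biUnion_le_card_mul _ _ _ fun e he => ?_
      obtain ⟨k, a1, rfl⟩ := Set.mem_toFinset.mp he
      rw [← Ps_smul k a b, a1, Set.ncard_eq_toFinset_card']

omit [Finite G] in
theorem exists_large (a : Ω) : ∃ c b, Fintype.card Ω ≤ (Nb G c a).ncard + (Ps G a b).ncard := by
  classical
  have : Nonempty Ω := ⟨a⟩
  obtain ⟨c, hc⟩ := Finite.exists_max fun c => (Nb G c a).ncard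
  obtain ⟨b, hb⟩ := Finite.exists_max fun b => (Ps G a b).ncard
  refine ⟨c, b, ?_⟩
  have := Finset.card_mul_le_card_mul (s := Finset.univ) (t := Finset.univ) (fun x y : Ω => x ∈ Ps G a y)
    (m := Fintype.card Ω - (Nb G c a).ncard) (n := (Ps G a b).ncard) (fun x _ => by
      refine le_trans (Nat.sub_le_sub_left (hc x) _) (le_of_eq ?_)
      rw [Set.ncard_eq_toFinset_card', ← Finset.card_compl]
      congr 1; ext y; rw [Finset.mem_compl, Set.mem_toFinset]; simp [Ps, Nb]) fun y _ => by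
      refine le_trans (le_of_eq ?_) (hb y)
      rw [Set.ncard_eq_toFinset_card']
      congr 1; ext y; simp
  have := Nat.le_of_mul_le_mul_left this Fintype.card_pos
  omega

theorem exists_sq (hp : IsPreprimitive G Ω) {c a b : Ω} (ha : a ≠ c) (hb : b ≠ c) (h : b ∉ Nb G c a) :
    ∃ x y : Ω, Fintype.card Ω ≤ (Ps G x y).ncard * (Ps G x y).ncard := by
  have : Nonempty Ω := ⟨a⟩
  obtain ⟨⟨x, y⟩, hm⟩ := Finite.exists_max fun p : Ω × Ω => (Ps G p.1 p.2).ncard
  obtain ⟨c', b', h1⟩ := exists_large (G := G) a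
  obtain ⟨e, a1, a2⟩ : ∃ e, e ≠ c' ∧ e ∉ Nb G c' a := by
    by_contra! e
    obtain ⟨g, rfl⟩ := exists_smul_eq G c c'
    obtain ⟨k, a1, a2⟩ := e (g • a) fun e => ha (MulAction.injective g e)
    obtain ⟨k', a3, a4⟩ := e (g • b) fun e => hb (MulAction.injective g e)
    exact h ⟨g⁻¹ * k' * k⁻¹ * g, by simp only [mul_smul]; rw [inv_smul_eq_iff.mpr a1.symm, a3, inv_smul_smul], by
      simp only [mul_smul]; rw [← a2, inv_smul_smul, a4, inv_smul_smul]⟩
  have h2 : (Nb G c' a).ncard + (Nb G c' e).ncard ≤ Fintype.card Ω := by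
    rw [← Set.ncard_union_eq (s := Nb G c' a) (t := Nb G c' e) (Set.disjoint_left.mpr fun z ⟨k, b1, b2⟩ ⟨k', b3, b4⟩ => a2 ⟨k'⁻¹ * k, by
      rw [mul_smul, b1, inv_smul_eq_iff, b3], by rw [mul_smul, b2, inv_smul_eq_iff, b4]⟩), ← Nat.card_eq_fintype_card]
    exact Set.ncard_le_card _
  exact ⟨x, y, (le_mul hp a1.symm).trans (Nat.mul_le_mul (le_trans (show _ ≤ (Ps G a b').ncard by omega) (hm (a, b'))) (hm (c', e)))⟩

theorem uni (hp : IsPreprimitive G Ω) {c a' b' : Ω} (ha : a' ≠ c) (hb : b' ≠ c) (h : b' ∉ Nb G c a') {a b : Ω}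
    (hab : a ≠ b) : Fintype.card Ω ≤ 4 * ((Ps G a b).ncard * (Ps G a b).ncard) := by
  let E : Ω → Ω → Prop := fun x y => x = y ∨ ∃ g : G, (g • a = x ∧ g • b = y) ∨ (g • a = y ∧ g • b = x)
  have h1 : ∀ x y, E x y → (Ps G x y).ncard ≤ (Ps G a b).ncard := by
    rintro x y (rfl | ⟨g, ⟨rfl, rfl⟩ | ⟨rfl, rfl⟩⟩)
    · exact Set.ncard_le_ncard fun z e => (e ⟨1, by simp, by simp⟩).elim
    · rw [Ps_smul]
    · rw [Ps_comm, Ps_smul]
  have h2 : ∀ w, (∃ z, E a z ∧ E z w) → (Ps G a w).ncard ≤ 2 * (Ps G a b).ncard := fun w ⟨z, a1, a2⟩ => by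
    have := Ps_tri (G := G) a z w
    have := h1 _ _ a1
    have := h1 _ _ a2
    omega
  by_cases e : ∀ w, ∃ z, E a z ∧ E z w
  · obtain ⟨x, y, e'⟩ := exists_sq hp ha hb h
    obtain ⟨g, rfl⟩ := exists_smul_eq G a x
    have := h2 _ (e (g⁻¹ • y))
    rw [← Ps_smul g, smul_inv_smul] at this
    nlinarith
  · have : ¬ ∀ g : G, g • a ∈ {w | ∃ z, E a z ∧ E z w} → g • b ∈ {w | ∃ z, E a z ∧ E z w} := fun e' =>
      e (conn hp hab e' (x := a) ⟨a, .inl rfl, .inl rfl⟩)
    push Not at this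
    obtain ⟨g, a1, a2⟩ := this
    have a3 : (Nb G a b).ncard ≤ (Ps G a (g • b)).ncard := Set.ncard_le_ncard fun z ⟨k, b1, b2⟩ ⟨k', b3, b4⟩ =>
      a2 ⟨z, .inr ⟨k, .inl ⟨b1, b2⟩⟩, .inr ⟨k' * k, .inr ⟨by rw [mul_smul, b1, b4], by rw [mul_smul, b2, b3]⟩⟩⟩
    have := Ps_tri (G := G) a (g • a) (g • b)
    have := h2 _ a1
    have := le_mul hp hab
    rw [Ps_smul] at *
    nlinarith

open Equiv Equiv.Perm in
theorem alt_le [DecidableEq Ω] {H : Subgroup (Perm Ω)} (hp : IsPreprimitive H Ω) {x y : Perm Ω} (hx : x ∈ H)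
    (hy : y ∈ H) {a : Ω} (h1 : y a ≠ a) (h2 : x a ≠ a) (h : ∀ w, w ≠ a → x w = w ∨ y w = w) :
    alternatingGroup Ω ≤ H := by
  have hc : x * y * x⁻¹ * y⁻¹ ∈ H := mul_mem (mul_mem (mul_mem hx hy) (inv_mem hx)) (inv_mem hy)
  have a1 : (x * y * x⁻¹ * y⁻¹).support ⊆ {a, x a, y a} := fun w hw => by
    by_contra e
    simp only [Finset.mem_insert, Finset.mem_singleton, not_or] at e
    refine mem_support.mp hw ?_
    obtain ⟨w', rfl⟩ := y.surjective w
    simp only [mul_apply, coe_inv, symm_apply_apply]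
    by_cases e1 : y w' = w'
    · obtain ⟨w'', rfl⟩ := x.surjective w'
      rw [symm_apply_apply]
      rcases h w'' (by rintro rfl; exact e.2.1 e1) with e2 | e2
      · rw [e2] at e1 ⊢; rw [e1, e2]
      · rw [e2, e1]
    · have b1 := (h w' (by rintro rfl; exact e.2.2 rfl)).resolve_right e1
      rw [(symm_apply_eq x).mpr b1.symm]
      exact (h _ e.1).resolve_right fun e2 => e1 (y.injective e2)
  have a2 : x * y * x⁻¹ * y⁻¹ ≠ 1 := fun e => by
    have := congrArg (fun z : Perm Ω => z (y a)) e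
    simp only [mul_apply, coe_inv, symm_apply_apply, one_apply] at this
    rw [(h (x.symm a) fun e => h2 ((symm_apply_eq x).mp e).symm).resolve_left fun e => h2 (by
      rw [apply_symm_apply] at e; exact ((symm_apply_eq x).mp e.symm).symm), apply_symm_apply] at this
    exact h1 this.symm
  have a3 := (Finset.card_le_card a1).trans Finset.card_le_three
  have a4 := two_le_card_support_of_ne_one a2
  rcases (show (x * y * x⁻¹ * y⁻¹).support.card = 2 ∨ (x * y * x⁻¹ * y⁻¹).support.card = 3 by omega) with e | e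
  · rw [subgroup_eq_top_of_isPreprimitive_of_isSwap_mem hp _ (card_support_eq_two.mp e) hc]; exact le_top
  · exact alternatingGroup_le_of_isPreprimitive_of_isThreeCycle_mem hp (card_support_eq_three_iff.mp e) hc

theorem two_tr [DecidableEq Ω] (hp : IsPreprimitive G Ω) (hA : ¬ alternatingGroup Ω ≤ (toPermHom G Ω).range)
    {g : G} {a : Ω} (ha : g • a ≠ a) (h : ∀ b c, b ≠ a → c ≠ a → c ∈ Nb G a b) :
    Fintype.card Ω - 1 ≤ {w : Ω | g • w ≠ w}.ncard * {w : Ω | g • w ≠ w}.ncard := by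
  classical
  have hp' : IsPreprimitive (toPermHom G Ω).range Ω := hp.of_surjective
    (f := ⟨id, fun _ _ => rfl⟩) (φ := (toPermHom G Ω).rangeRestrict) Function.surjective_id
  let s := ({w : Ω | g • w ≠ w} \ {a}).toFinset
  have h1 : ∀ p : Ω × Ω, ∃ k : stabilizer G a, p.1 ≠ a → p.2 ≠ a → k • p.1 = p.2 := fun p => by
    by_cases e : p.1 ≠ a ∧ p.2 ≠ a
    · obtain ⟨k, a1, a2⟩ := h _ _ e.1 e.2
      exact ⟨⟨k, a1⟩, fun _ _ => a2⟩
    · exact ⟨1, fun a b => (e ⟨a, b⟩).elim⟩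
  choose k hk using h1
  obtain ⟨p, a1, -, a2⟩ := Subgroup.exists_index_le_card_of_leftCoset_cover (s := s ×ˢ s) (g := k)
    (H := fun p => stabilizer (stabilizer G a) p.1) (Set.eq_univ_of_forall fun y => by
      by_contra e
      refine hA (alt_le hp' (x := toPermHom G Ω g) (y := toPermHom G Ω (y.1 * g * y.1⁻¹)) ⟨_, rfl⟩ ⟨_, rfl⟩ (a := a)
        ?_ ha fun w hw => ?_)
      · simpa [mul_smul, inv_smul_eq_iff.mpr (mem_stabilizer_iff.mp y.2).symm, smul_eq_iff_eq_inv_smul y.1] using ha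
      · by_contra! e'
        have b1 : y.1⁻¹ • w ≠ a := fun e => hw (by rw [inv_smul_eq_iff.mp e, mem_stabilizer_iff.mp y.2])
        refine e (Set.mem_iUnion₂.mpr ⟨(y.1⁻¹ • w, w), ?_, ?_⟩)
        · simpa [s, b1, hw, mul_smul, smul_eq_iff_eq_inv_smul y.1, and_comm] using e'
        · rw [mem_leftCoset_iff, SetLike.mem_coe, mem_stabilizer_iff, mul_smul, inv_smul_eq_iff, hk _ b1 hw]
          exact smul_inv_smul y.1 w)
  have a3 : p.1 ≠ a := by simpa using (Set.mem_toFinset.mp (Finset.mem_product.mp a1).1).2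
  rw [index_stabilizer, Finset.card_product] at a2
  have a4 : s.card ≤ {w : Ω | g • w ≠ w}.ncard := by
    rw [← Set.ncard_eq_toFinset_card']; exact Set.ncard_le_ncard Set.sdiff_subset
  refine le_trans ?_ (a2.trans (Nat.mul_le_mul a4 a4))
  rw [← Nat.card_eq_fintype_card, ← Set.ncard_singleton a, ← Set.ncard_compl]
  exact Set.ncard_le_ncard fun w hw => let ⟨k, b1, b2⟩ := h _ _ a3 hw; ⟨⟨k, b1⟩, b2⟩

theorem main [DecidableEq Ω] (hp : IsPreprimitive G Ω) (hA : ¬ alternatingGroup Ω ≤ (toPermHom G Ω).range)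
    {g : G} {a : Ω} (ha : g • a ≠ a) : Fintype.card Ω ≤ 4 * ({w : Ω | g • w ≠ w}.ncard * {w : Ω | g • w ≠ w}.ncard) := by
  by_cases h : ∀ b c, b ≠ a → c ≠ a → c ∈ Nb G a b
  · have := two_tr hp hA ha h
    have : 0 < {w : Ω | g • w ≠ w}.ncard := (Set.ncard_pos).mpr ⟨a, ha⟩
    have := Nat.mul_pos this this
    omega
  · push Not at h
    obtain ⟨b, c, a1, a2, a3⟩ := h
    have : (Ps G a (g • a)).ncard ≤ {w : Ω | g • w ≠ w}.ncard := Set.ncard_le_ncard fun w e e' => e ⟨g, e', rfl⟩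
    exact (uni hp a1 a2 a3 ha.symm).trans (Nat.mul_le_mul_left _ (Nat.mul_le_mul this this))

end Cfsg.Agent.H12.MinDeg
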