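import Cfsg.Agent.H12.TrB1
import Cfsg.Agent.H28.Balance

/-! Centralisers of triality automorphisms of order three. -/

set_option autoImplicit false

namespace Cfsg.Agent.H12.Tr

open QuadraticMap Module H13.SemiSim

local notation "Q8" => H13.QPlus 4

variable {F : Type*} [Field F] [Finite F] {X : Type*} [Group X] {π : SS F →* X} {t : X}

theorem normal_K0 (h : H13.TriData π t) : ((H13.TrK F).map π).Normal := by
  have : (H13.TrK F).Normal := Subgroup.normal_of_index_eq_two H13.index_TrK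
  refine Subgroup.normalizer_eq_top_iff.mp (h.eq_top (Subgroup.mem_normalizer_iff.mpr fun x =>
    ⟨?_, ?_⟩) fun s => Subgroup.le_normalizer_map π ⟨s, Subgroup.le_normalizer_of_normal
      (K := ⊤) trivial, rfl⟩)
  · rintro ⟨a, ⟨b, c, H⟩, rfl⟩
    exact ⟨b, ⟨_, _, H.cyc⟩, (h.conj H).symm⟩
  · rintro ⟨a, ⟨b, c, H⟩, h1⟩
    refine ⟨c, ⟨_, _, H.cyc.cyc⟩, ?_⟩
    simpa using (h.conj H.cyc.cyc).trans h1

theorem mem_K0 (h : H13.TriData π t) (ht : t ∉ π.range) {a : SS F} (ha : a ∈ H13.TrK F) {n : X}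
    (hc : Commute n (π a * t)) {k : ℕ} (hk : k.Coprime 3) (hn : n ^ k = 1) :
    n ∈ (H13.TrK F).map π := by
  have := normal_K0 h
  let q := QuotientGroup.mk' ((H13.TrK F).map π)
  have hq : ∀ y, q y = 1 ↔ y ∈ (H13.TrK F).map π := fun y => QuotientGroup.eq_one_iff y
  have h1 : ∀ s ∈ H13.TrK F, q (π s) = 1 := fun s hs => (hq _).2 ⟨s, hs, rfl⟩
  have h2 : q t ≠ 1 := fun e => by
    obtain ⟨s, -, hs⟩ := (hq _).1 e
    exact ht ⟨s, hs⟩
  have h3 : q t ^ 3 = 1 := by rw [← map_pow, h.pow, map_one]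
  have h4 : Commute (q n) (q t) := by simpa [h1 a ha] using hc.map q
  obtain ⟨i, s, rfl⟩ := h.gen n
  rw [← hq]
  rcases H13.mem_TrK_or s with hs | hs
  · have h5 : q (t ^ i * π s) = q t ^ i := by simp [h1 s hs]
    have h6 : (q t ^ i) ^ k = 1 := by rw [← h5, ← map_pow, hn, map_one]
    have h7 : (q t ^ i) ^ 3 = 1 := by
      rw [← zpow_natCast, ← zpow_mul, mul_comm, zpow_mul, zpow_natCast, h3, one_zpow]
    rw [h5]
    simpa [hk.gcd_eq_one] using pow_gcd_eq_one.2 ⟨h6, h7⟩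
  · exfalso
    have h5 : q (π s) = (q (π (H13.pρ F)))⁻¹ := by
      have := h1 _ hs
      rw [map_mul, map_mul] at this
      exact eq_inv_of_mul_eq_one_right this
    rw [map_mul, map_zpow, h5] at h4
    have h6 : Commute (q (π (H13.pρ F))) (q t) := by
      have := ((Commute.refl (q t)).zpow_left i).inv_left.mul_left h4
      rw [inv_mul_cancel_left] at this
      exact Commute.inv_left_iff.1 this
    have h7 := congrArg q h.refl
    rw [map_mul, map_mul, map_inv, h6.eq, mul_inv_cancel_right, map_inv] at h7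
    apply h2
    rw [pow_succ, pow_two] at h3
    nth_rw 1 [h7] at h3
    simpa using h3

variable (hk : π.ker = (scalar (Q8 F)).range)
include hk

omit [Finite F] in
theorem eq_scalar_mul {p q : SS F} (h : π p = π q) : ∃ z, q = scalar _ z * p := by
  obtain ⟨z, hz⟩ : q * p⁻¹ ∈ (scalar (Q8 F)).range := by
    rw [← hk, MonoidHom.mem_ker, map_mul, map_inv, h, mul_inv_cancel]
  exact ⟨z, by rw [hz, inv_mul_cancel_right]⟩

theorem tr_of_comm (h : H13.TriData π t) {a b c g : SS F} (H : H13.Tr a b c)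
    (hg : g ∈ H13.TrK F) (hc : Commute (π g) (π a * t)) :
    H13.Tr g (a⁻¹ * g * a) ((a * b)⁻¹ * g * (a * b)) := by
  obtain ⟨g', g'', G⟩ := hg
  have e1 := h.conj G
  have e2 := h.conj G.cyc
  have e3 := h.conj H
  have h1 : π g' = π (a⁻¹ * g * a) := by
    rw [← e1, map_mul, map_mul, map_inv]
    calc t * π g * t⁻¹ = (π a)⁻¹ * (π a * t * π g) * t⁻¹ := by group
      _ = _ := by rw [← hc.eq]; group
  have h2 : π g'' = π ((a * b)⁻¹ * g * (a * b)) := by
    rw [← e2, h1]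
    simp only [map_mul, map_inv]
    rw [← e3]
    calc t * ((π a)⁻¹ * π g * π a) * t⁻¹
        = (π a * (t * π a * t⁻¹))⁻¹ * (π a * t * π g) * π a * t⁻¹ := by group
      _ = _ := by rw [← hc.eq]; group
  obtain ⟨z, hz⟩ := eq_scalar_mul hk h1
  obtain ⟨w, hw⟩ := eq_scalar_mul hk h2
  have := (H13.Tr.scalar 1 z w).mul G
  rwa [map_one, one_mul, ← hz, ← hw] at this

end Cfsg.Agent.H12.Tr

namespace Cfsg.Agent.H12.Tr

open QuadraticMap Module H13.SemiSim

local notation "Q8" => H13.QPlus 4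

variable {F : Type*} [Field F] [Finite F] {K : Type*} [Group K] [Finite K]
  {π : SS F →* MulAut K} {t : MulAut K}

theorem core_tri (h : H13.TriData π t) (hk : π.ker = (scalar (Q8 F)).range)
    (hI : Inn K = (H28.ZΩ (Q8 F)).map π) (ht : t ∉ π.range)
    (fin : ∀ (σ : F ≃+* F) Q m, TC σ Q m → Fin3 m) {a : SS F} (h3 : (π a * t) ^ 3 = 1)
    (A : Subgroup (MulAut K)) (hA : ∀ k, MulAut.conj k ∈ A) :
    pPrimeCore 3 ↥(A ⊓ Subgroup.centralizer {π a * t}) = ⊥ := by
  have hnt : Nontrivial (V8 F) := inferInstance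
  have ha : a ∈ H13.TrK F := by
    refine (H13.mem_TrK_or a).resolve_right fun ha => ht ?_
    have := normal_K0 h
    let q := QuotientGroup.mk' ((H13.TrK F).map π)
    have hq : ∀ y, q y = 1 ↔ y ∈ (H13.TrK F).map π := fun y => QuotientGroup.eq_one_iff y
    have h1 := (hq _).2 ⟨_, ha, rfl⟩
    have h2 := congrArg q h.refl
    have h4 := congrArg q h3
    simp only [map_mul, map_inv, map_pow, map_one] at h1 h2 h4
    rw [eq_inv_of_mul_eq_one_right h1] at h4
    have h5 : (q (π (H13.pρ F)))⁻¹ * q t = 1 := by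
      rw [← h4]
      calc (q (π (H13.pρ F)))⁻¹ * q t = (q (π (H13.pρ F)))⁻¹ * q t * ((q (π (H13.pρ F)))⁻¹ *
          (q (π (H13.pρ F)))⁻¹ * (q (π (H13.pρ F)) * q t * (q (π (H13.pρ F)))⁻¹) * q t) := by
            rw [h2, ← mul_inv_rev, ← map_mul, ← map_mul, H13.pρ_mul_self]; simp
        _ = _ := by simp only [pow_succ]; group
    obtain ⟨s, -, hs⟩ := (hq ((π (H13.pρ F))⁻¹ * t)).1 (by rw [map_mul, map_inv, h5])
    exact ⟨H13.pρ F * s, by rw [map_mul, hs, mul_inv_cancel_left]⟩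
  obtain ⟨b, c, H⟩ := id ha
  obtain ⟨z, hz⟩ : a * b * c ∈ (scalar (Q8 F)).range := by
    rw [← hk, MonoidHom.mem_ker, map_mul, map_mul, ← h.conj H.cyc, ← h.conj H, ← h3]
    calc π a * (t * π a * t⁻¹) * (t * (t * π a * t⁻¹) * t⁻¹)
        = π a * t * (π a * t) * (π a * t) * (t ^ 3)⁻¹ := by simp only [pow_succ]; group
      _ = _ := by rw [h.pow]; simp [pow_succ]
  obtain ⟨δ, γ, hδ, hγ, T⟩ := exists_tc H hz.symm
  set s := (a * b).σ
  set m : V8 F → V8 F → V8 F := fun x y => δ • m0 a b x y with hm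
  have m1 : m (H13.pe F) (H13.pe F) ≠ 0 := fun e => by
    have := T.norm (H13.pe F) (H13.pe F)
    simp [e, H13.Q_pe, hγ] at this
  let S : Subgroup (SS F) :=
    { carrier := {g | ∀ u w, g.e (m u w) = m (g.e u) (g.e w)}
      mul_mem' := fun {g g'} h1 h2 u w => by rw [mul_e, h2, h1]; rfl
      one_mem' := fun _ _ => rfl
      inv_mem' := fun {g} h1 u w => g.e.injective (by rw [h1]; simp [inv_e]) }
  have S1 : ∀ g ∈ S, π g = 1 → g = 1 := fun g hg e => by
    obtain ⟨y, rfl⟩ : g ∈ (scalar (Q8 F)).range := hk ▸ e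
    have h1 := hg (H13.pe F) (H13.pe F)
    rw [scalar_e, scalar_e, T.smull, T.smulr, smul_smul (s y)] at h1
    rw [show y = 1 from Units.ext (mu_inj s T.s3 y.ne_zero (smul_left_injective F m1 h1).symm),
      map_one]
  have S2 : ∀ g ∈ H13.TrK F, Commute (π g) (π a * t) → ∃ g' ∈ S, π g' = π g := fun g hg hc => by
    obtain ⟨l, hl, h1⟩ := tr_iff.1 (tr_of_comm hk h H hg hc)
    obtain ⟨y, hy⟩ := mu_surj s T.s3 (l := g.σ δ / (δ * l)) (by simp [hδ, hl])
    refine ⟨scalar _ y * g, fun u w => ?_, H28.map_eq_of_scalar hk _ _⟩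
    rw [mul_e, mul_e, mul_e, scalar_e, scalar_e, scalar_e, T.smull, T.smulr, smul_smul, hy]
    simp only [hm]
    rw [h1, g.map_smul, smul_smul, smul_smul, smul_smul]
    congr 1
    field_simp
  have S3 : ∀ g, IsA m 1 g → ∃ g' ∈ S, (∀ v, g'.e v = g v) ∧ π g' ∈ Inn K ∧
      Commute (π g') (π a * t) := fun g ⟨g1, g2, g3⟩ => by
    have g4 : ∀ v, Q8 F (g v) = Q8 F v := fun v => by
      have e1 := congrArg g (T.i1' v (H13.pe F))
      rw [g3, g3, T.i1', g2] at e1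
      have e2 : g (H13.pe F) ≠ 0 := fun e => by
        have e3 : g 0 = 0 := by simpa using g1 0 0
        have := H13.Q_pe (F := F)
        rw [g.injective (e.trans e3.symm)] at this
        simp at this
      have e3 : s (s ((γ • Q8 F) (g v))) = s (s ((γ • Q8 F) v)) := smul_left_injective F e2 e1
      simpa [hγ] using e3
    let u : H13.OG (Q8 F) := ⟨{ g with map_add' := g1, map_smul' := g2 }, g4⟩
    have u1 : H13.Tr (ofOG _ u) (a⁻¹ * ofOG _ u * a) ((a * b)⁻¹ * ofOG _ u * (a * b)) :=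
      tr_iff.2 ⟨1, one_ne_zero, fun x y => smul_right_injective _ hδ (by
        have := g3 x y
        simp only [hm] at this
        rw [g2] at this
        rw [one_smul]
        exact this.symm)⟩
    refine ⟨ofOG _ u, g3, fun _ => rfl, hI ▸ ⟨_, H28.ofOG_mem_ZΩ.2 (.inl (spinor_of_tr u1 ?_)), rfl⟩,
      ?_⟩
    · simp
    · have := h.conj u1
      rw [map_mul, map_mul, map_inv] at this
      change _ * _ = _ * _
      calc π (ofOG _ u) * (π a * t) = π a * ((π a)⁻¹ * π (ofOG _ u) * π a) * t := by group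
        _ = _ := by rw [← this]; group
  let ε : SS F →* Equiv.Perm (V8 F) := MonoidHom.mk' (fun g => g.e.toEquiv) fun _ _ => rfl
  have hε : Function.Injective ε := fun g g' e =>
    H28.ND.semiSim_ext H13.nd_QPlus fun v => DFunLike.congr_fun e v
  refine H28.core_eq_bot_iff.2 fun N hN hc => ?_
  let N1 := N.map (A ⊓ Subgroup.centralizer {π a * t}).subtype
  let U := S ⊓ N1.comap π
  have c1 : Nat.card U ∣ Nat.card N := by
    rw [← Subgroup.card_map_of_injective (K := N) (Subgroup.subtype_injective _)]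
    exact Subgroup.card_dvd_of_injective ((π.comp U.subtype).codRestrict N1 fun g => g.2.2)
      ((injective_iff_map_eq_one _).2 fun g e => Subtype.ext (S1 g g.2.1 (congrArg Subtype.val e)))
  have c2 := fin s _ m T (U.map ε) (by
      rintro _ ⟨g, hg, rfl⟩
      exact ⟨g.σ, g.e.map_add, g.map_smul, hg.1⟩)
    (by rw [Subgroup.card_map_of_injective hε]; exact hc.coprime_dvd_left c1) (by
      rintro g hg _ ⟨n, hn, rfl⟩
      obtain ⟨g', g1, g2, g3, g4⟩ := S3 g hg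
      obtain rfl : ε g' = g := Equiv.ext g2
      refine ⟨g' * n * g'⁻¹, ⟨S.mul_mem (S.mul_mem g1 hn.1) (S.inv_mem g1), ?_⟩, by simp⟩
      obtain ⟨n', hn', e⟩ := hn.2
      obtain ⟨k, hk'⟩ := g3
      exact ⟨_, hN.conj_mem n' hn' ⟨π g', hk' ▸ hA k, Subgroup.mem_centralizer_singleton_iff.2 g4⟩,
        by simp [← show n'.1 = π n from e]⟩)
  rw [Subgroup.map_eq_bot_iff_of_injective _ hε] at c2
  refine eq_bot_iff.2 fun n hn => Subtype.ext ?_
  have n1 : Commute n.1 (π a * t) := Subgroup.mem_centralizer_singleton_iff.1 n.2.2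
  obtain ⟨g, hg, e⟩ := mem_K0 h ht ha n1 hc
    (congrArg (fun x : N => x.1.1) (pow_card_eq_one' (x := (⟨n, hn⟩ : N))))
  obtain ⟨g', g1, g2⟩ := S2 g hg (e ▸ n1)
  have : g' ∈ U := ⟨g1, n, hn, (g2.trans e).symm⟩
  rw [c2, Subgroup.mem_bot] at this
  rw [← e, ← g2, this, map_one]
  rfl

theorem core_tri' (h : H13.TriData π t) (hk : π.ker = (scalar (Q8 F)).range)
    (hI : Inn K = (H28.ZΩ (Q8 F)).map π) (fin : ∀ (σ : F ≃+* F) Q m, TC σ Q m → Fin3 m)
    (x : MulAut K) (h3 : x ^ 3 = 1) (hx : x ∉ π.range) (A : Subgroup (MulAut K))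
    (hA : ∀ k, MulAut.conj k ∈ A) : pPrimeCore 3 ↥(A ⊓ Subgroup.centralizer {x}) = ⊥ := by
  obtain ⟨i, s, e⟩ := h.gen x⁻¹
  have e1 : x = π s⁻¹ * t ^ (-i) := by rw [← inv_inv x, e]; simp
  have ht : t ∉ π.range := fun ht => hx (e1 ▸ mul_mem ⟨_, rfl⟩ (zpow_mem ht _))
  have h4 : t ^ (-i) = t ^ ((-i) % 3) := zpow_eq_zpow_emod' _ h.pow
  have key : ∀ a, (π a * t) ^ 3 = 1 → H28.Bal 3 (π a * t) False :=
    fun a ha A hA => by simp [core_tri h hk hI ht fin ha A hA]
  suffices H : H28.Bal 3 x False by simpa using H A hA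
  rcases (by omega : (-i) % 3 = 0 ∨ (-i) % 3 = 1 ∨ (-i) % 3 = 2) with h5 | h5 | h5 <;>
    rw [h4, h5] at e1
  · exact absurd ⟨s⁻¹, by simpa using e1.symm⟩ hx
  · rw [zpow_one] at e1
    subst e1
    exact key _ h3
  · have e2 : (π (H13.pρ F))⁻¹ * x * (π (H13.pρ F))⁻¹⁻¹ =
        π ((H13.pρ F)⁻¹ * s⁻¹ * H13.pρ F) * t := by
      have e3 : t ^ (2 : ℤ) = t⁻¹ := eq_inv_of_mul_eq_one_left (by
        rw [← h.pow, zpow_two, pow_succ, pow_two])
      rw [e1, e3, ← h.refl, map_mul, map_mul, map_inv π (H13.pρ F)]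
      group
    refine H28.Bal.conj (π (H13.pρ F))⁻¹ ?_
    rw [e2]
    refine key _ ?_
    rw [← e2, conj_pow, h3]
    simp

theorem tri3_of (fin : ∀ (σ : F ≃+* F) Q m, TC σ Q m → Fin3 m)
    (x : MulAut (POmega F ⇑(Q8 F))) (h3 : x ^ 3 = 1)
    (hx : x ∉ (H28.aut (H13.QPlus 4 F)).range) (A : Subgroup (MulAut (POmega F ⇑(Q8 F))))
    (hA : ∀ k, MulAut.conj k ∈ A) : pPrimeCore 3 ↥(A ⊓ Subgroup.centralizer {x}) = ⊥ :=
  core_tri' H13.triData_aut (H28.ker_aut (Q := Q8 F) H13.nd_QPlus (by simp))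
    (H28.inn_eq_ZΩ (Q := Q8 F) H13.nd_QPlus (by simp)) fin x h3 hx A hA

omit [Finite F] in
theorem Fin3.of_equiv {m m' : V8 F → V8 F → V8 F} (φ : V8 F ≃ₗ[F] V8 F)
    (h : ∀ x y, φ (m x y) = m' (φ x) (φ y)) (H : Fin3 m') : Fin3 m := fun N h1 h2 h3 => by
  let e : Equiv.Perm (V8 F) ≃* Equiv.Perm (V8 F) := MulAut.conj φ.toEquiv
  have he : ∀ g v, e g (φ v) = φ (g v) := fun g v => by simp [e, MulAut.conj_apply]
  have k : ∀ ψ g, IsA m' ψ (e g) ↔ IsA m ψ g := fun ψ g => by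
    refine and_congr ⟨fun H x y => φ.injective ?_, fun H x y => ?_⟩ (and_congr
      ⟨fun H a x => φ.injective ?_, fun H a x => ?_⟩ ⟨fun H x y => φ.injective ?_, fun H x y => ?_⟩)
    · rw [← he, map_add, H, he, he, map_add]
    · obtain ⟨x, rfl⟩ := φ.surjective x
      obtain ⟨y, rfl⟩ := φ.surjective y
      rw [← map_add, he, he, he, H, map_add]
    · rw [← he, _root_.map_smul, H, he, _root_.map_smul]
    · obtain ⟨x, rfl⟩ := φ.surjective x
      rw [← _root_.map_smul, he, he, H, _root_.map_smul]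
    · rw [← he, h, H, he, he, h]
    · obtain ⟨x, rfl⟩ := φ.surjective x
      obtain ⟨y, rfl⟩ := φ.surjective y
      rw [← h, he, he, he, H, h]
  refine (Subgroup.map_eq_bot_iff_of_injective (f := e.toMonoidHom) _ e.injective).1 (H _ ?_ ?_ ?_)
  · rintro _ ⟨n, hn, rfl⟩
    exact (h1 n hn).imp fun ψ => (k ψ n).2
  · rwa [Subgroup.card_map_of_injective e.injective]
  · rintro g hg _ ⟨n, hn, rfl⟩
    obtain ⟨g, rfl⟩ := e.surjective g
    exact ⟨_, h3 g ((k 1 g).1 hg) n hn, by simp⟩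

end Cfsg.Agent.H12.Tr
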