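import Cfsg.Agent.H12.TrD
import Cfsg.Agent.H13.Tri3
import Cfsg.Agent.H28.OField

/-! From a triality automorphism of order three to a twisted composition. -/

set_option autoImplicit false

namespace Cfsg.Agent.H12.Tr

open QuadraticMap Module H13.SemiSim

local notation "Q8" => H13.QPlus 4

variable {F : Type*} [Field F]

theorem mu_inj (s : F ≃+* F) (s3 : ∀ a, s (s (s a)) = a) {z : F} (hz : z ≠ 0)
    (h : s z * s (s z) = z) : z = 1 := by
  have h1 : s (s z) * z = s z := by simpa [s3] using congrArg s h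
  have h2 : (s z - z) * (s z + z) = 0 := by linear_combination z * h - s z * h1
  have h3 : s z = z := by
    rcases mul_eq_zero.1 h2 with e | e
    · exact sub_eq_zero.1 e
    · have e1 : s z = -z := eq_neg_of_add_eq_zero_left e
      have e2 := s3 z
      rw [e1, map_neg, e1, neg_neg] at e2
      exact e2
  rw [h3, h3] at h
  exact mul_left_cancel₀ hz (by rw [h, mul_one])

theorem mu_surj [Finite F] (s : F ≃+* F) (s3 : ∀ a, s (s (s a)) = a) {l : F} (hl : l ≠ 0) :
    ∃ z : Fˣ, s z * s (s z) = l * z := by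
  let f : Fˣ →* Fˣ := MonoidHom.mk' (fun z => Units.mk0 (s z * s (s z) * (z : F)⁻¹) (by simp))
    fun z w => Units.ext (by simp; ring)
  have hf : Function.Injective f := (injective_iff_map_eq_one f).2 fun z hz => Units.ext
    (mu_inj s s3 z.ne_zero (by
      have : s z * s (s z) * (z : F)⁻¹ = 1 := congrArg Units.val hz
      rwa [mul_inv_eq_one₀ z.ne_zero] at this))
  obtain ⟨z, hz⟩ := Finite.surjective_of_injective hf (Units.mk0 l hl)
  have : s z * s (s z) * (z : F)⁻¹ = l := congrArg Units.val hz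
  exact ⟨z, by rw [← this, inv_mul_cancel_right₀ z.ne_zero]⟩

theorem TC.i1' {σ : F ≃+* F} {Q : QuadraticForm F (V8 F)} {m : V8 F → V8 F → V8 F}
    (h : TC σ Q m) (u w : V8 F) : m (m u w) u = σ (σ (Q u)) • w := by
  have h1 : ∀ y, polar Q (m u y) (m u w) = σ (Q u) * σ (σ (polar Q y w)) := fun y => by
    simp only [polar, ← h.addr, h.norm, map_sub]; ring
  refine sub_eq_zero.1 (h.nd _ fun y => ?_)
  rw [polar_sub_left, h.cyc, h1, polar_smul_left, map_mul, h.s3, polar_comm, smul_eq_mul, sub_self]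

theorem tc_of_raw {s : F ≃+* F} {Q : QuadraticForm F (V8 F)} {m : V8 F → V8 F → V8 F} (nd : NDq Q)
    {e : V8 F} (he : Q e = 1) (s3 : ∀ a, s (s (s a)) = a)
    (addl : ∀ x y z, m (x + y) z = m x z + m y z) (addr : ∀ x y z, m x (y + z) = m x y + m x z)
    (smull : ∀ (a : F) x y, m (a • x) y = s a • m x y)
    (smulr : ∀ (a : F) x y, m x (a • y) = s (s a) • m x y) {ν κ : F} (hν : ν ≠ 0)
    (norm : ∀ x y, Q (m x y) = ν * (s (Q x) * s (s (Q y))))
    (cyc : ∀ x y z, polar Q (m x y) z = κ * s (polar Q (m y z) x)) :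
    ∃ δ γ : F, δ ≠ 0 ∧ γ ≠ 0 ∧ TC s (γ • Q) fun x y => δ • m x y := by
  have h1 : ∀ u y w, polar Q (m u y) (m u w) = ν * (s (Q u) * s (s (polar Q y w))) :=
    fun u y w => by simp only [polar, ← addr, norm, map_sub]; ring
  have h2 : m (m e e) e = (κ * s ν) • e := sub_eq_zero.1 (nd _ fun y => by
    rw [polar_sub_left, cyc, h1, polar_smul_left, map_mul, map_mul, s3, he, polar_comm]
    simp [mul_assoc])
  have hsν : s ν ≠ 0 := by simpa using hν
  have h3 : κ ^ 2 * s ν = ν := by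
    have := congrArg Q h2
    rw [norm, norm, QuadraticMap.map_smul, he] at this
    simp only [map_one, mul_one, smul_eq_mul] at this
    exact mul_right_cancel₀ hsν (by linear_combination -this)
  have h4 : κ * s κ * s (s κ) = 1 := by
    obtain ⟨y, hy⟩ : ∃ y, polar Q (m e e) y ≠ 0 := by
      by_contra H
      push Not at H
      have := norm e e
      rw [nd _ H, he] at this
      simp [hν.symm] at this
    have := cyc e e y
    rw [cyc e y e, cyc y e e] at this
    simp only [map_mul, s3] at this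
    exact mul_right_cancel₀ hy (by linear_combination -this)
  have hκ : κ ≠ 0 := by rintro rfl; simp at h4
  have hκ1 : s κ ≠ 0 := by simpa using hκ
  have hκ2 : s (s κ) ≠ 0 := by simpa using hκ
  obtain ⟨δ, hδ, d1⟩ : ∃ δ : F, δ ≠ 0 ∧ s δ = κ * δ := ⟨ν * s (s κ) / κ, by simp [hν, hκ], by
    rw [map_div₀, map_mul, s3]
    field_simp
    linear_combination (-(s ν) * κ) * h4 + (s κ * s (s κ)) * h3⟩
  have d2 : s (δ ^ 2 * ν) = δ ^ 2 * ν := by
    rw [map_mul, map_pow, d1]; linear_combination δ ^ 2 * h3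
  have hγ : δ ^ 2 * ν ≠ 0 := by simp [hδ, hν]
  have hp : ∀ x y, polar ((δ ^ 2 * ν) • Q) x y = δ ^ 2 * ν * polar Q x y := fun x y => by
    simp only [polar, _root_.smul_apply, smul_eq_mul]; ring
  refine ⟨δ, δ ^ 2 * ν, hδ, hγ, fun x hx => nd x fun y => ?_, s3, fun x y z => ?_, fun x y z => ?_,
    fun a x y => ?_, fun a x y => ?_, fun x y => ?_, fun x y z => ?_⟩
  · exact (mul_eq_zero.1 ((hp x y).symm.trans (hx y))).resolve_left hγ
  · rw [addl, smul_add]
  · rw [addr, smul_add]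
  · rw [smull, smul_comm]
  · rw [smulr, smul_comm]
  · simp only [_root_.smul_apply, QuadraticMap.map_smul, smul_eq_mul, norm]
    rw [map_mul s _ (Q x), map_mul s _ (Q y), map_mul s _ (s (Q y)), d2, d2]
    ring
  · rw [hp, hp, polar_smul_left, polar_smul_left, cyc, map_mul, d2, smul_eq_mul, smul_eq_mul,
      map_mul, d1]
    ring

/-- semisimilarities of the eight-dimensional form -/
abbrev SS (F : Type*) [Field F] := H13.SemiSim (Q8 F) (Q8 F)

/-- the raw product -/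
def m0 (a b : SS F) (u w : V8 F) : V8 F := (a * b).e (H13.pom u (a⁻¹.e w))

variable {a b c : SS F}

theorem exists_tc (h : H13.Tr a b c) {z : Fˣ} (hz : a * b * c = scalar _ z) :
    ∃ δ γ : F, δ ≠ 0 ∧ γ ≠ 0 ∧ TC (a * b).σ (γ • Q8 F) fun x y => δ • m0 a b x y := by
  have hb : ∀ t, b.σ t = a.σ t := h.cyc.σ_eq
  have hc : ∀ t, c.σ t = a.σ t := fun t => (h.σ_eq t).symm
  have t3 : ∀ t, a.σ (a.σ (a.σ t)) = t := fun t => by
    have : (a * b * c).σ t = t := by rw [hz]; rfl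
    rwa [mul_σ, mul_σ, hc, hb] at this
  have hs : ∀ t, (a * b).σ t = a.σ (a.σ t) := fun t => by rw [mul_σ, hb]
  have hi : ∀ t, a⁻¹.σ t = a.σ (a.σ t) := fun t => a.σ.injective (by
    rw [t3, ← mul_σ, mul_inv_cancel]; rfl)
  obtain ⟨l, hl, h1⟩ := h.inv
  have h2 : ∀ v, c⁻¹.e v = ((z⁻¹ : Fˣ) : F) • (a * b).e v := fun v => by
    have : c⁻¹ = scalar _ z⁻¹ * (a * b) := by
      rw [map_inv, ← hz]; group
    rw [this]; rfl
  refine tc_of_raw (fun x hx => H13.nd_QPlus x hx) H13.Q_pe (fun t => by simp only [hs, t3])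
    (fun x y w => ?_) (fun x y w => ?_) (fun t x y => ?_) (fun t x y => ?_)
    (ν := (a * b).c * (a * b).σ a⁻¹.c) (κ := (a * b).c * (a * b).σ (l * ((z⁻¹ : Fˣ) : F)))
    (mul_ne_zero (a * b).c_ne (by simpa using a⁻¹.c_ne)) (fun x y => ?_) fun x y w => ?_
  · rw [m0, H13.pom_add_left, map_add]; rfl
  · rw [m0, map_add, H13.pom_add_right, map_add]; rfl
  · rw [m0, H13.pom_smul_left, (a * b).map_smul]; rfl
  · rw [m0, a⁻¹.map_smul, H13.pom_smul_right, (a * b).map_smul, hi, ← hs]; rfl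
  · rw [m0, (a * b).map_Q, H13.Q_pom, a⁻¹.map_Q, hi, ← hs, map_mul, map_mul]; ring
  · obtain ⟨w, rfl⟩ := (a * b).e.surjective w
    have h3 : w = b⁻¹.e (a⁻¹.e ((a * b).e w)) := by
      rw [← mul_e, ← mul_e, ← mul_inv_rev, inv_mul_cancel]; rfl
    rw [m0, (a * b).map_polar, H13.polar_pom]
    conv_lhs => rw [h3, h1, h2]
    rw [smul_smul, polar_smul_right, polar_comm, smul_eq_mul, map_mul, ← mul_assoc]
    rfl

theorem tr_iff {g : SS F} : H13.Tr g (a⁻¹ * g * a) ((a * b)⁻¹ * g * (a * b)) ↔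
    ∃ l : F, l ≠ 0 ∧ ∀ u w, m0 a b (g.e u) (g.e w) = l • g.e (m0 a b u w) := by
  constructor
  · rintro ⟨l, hl, h⟩
    refine ⟨(a * b).σ l, by simpa using hl, fun u w => ?_⟩
    have := congrArg (a * b).e (h u (a⁻¹.e w))
    rw [(a * b).map_smul, ← mul_e (a * b) (_ * _ * _), ← mul_e _ a⁻¹, mul_inv_cancel_right,
      show a * b * ((a * b)⁻¹ * g * (a * b)) = g * (a * b) by group] at this
    exact this
  · rintro ⟨l, hl, h⟩
    refine ⟨(a * b)⁻¹.σ l, by simpa using hl, fun u w => ?_⟩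
    have := congrArg (a * b)⁻¹.e (h u (a.e w))
    rw [(a * b)⁻¹.map_smul, m0, m0, ← mul_e (a * b)⁻¹, inv_mul_cancel, one_e, ← mul_e a⁻¹ a,
      inv_mul_cancel, one_e] at this
    exact this

variable [Finite F]

theorem spinor_of_tr {g : H13.OG (Q8 F)} (h : H13.Tr (ofOG _ g) b c) (hb : H28.mu _ b = 1) :
    g ∈ H13.Om (Q8 F) := by
  have hd : H13.ev8.dik g = 1 := (H13.ofOG_mem_TrK g).1 ⟨_, _, h⟩
  have hG := (H13.ev8 (F := F)).good
  refine (H13.nd_QPlus.mem_commutator_iff hG g).2 ⟨hd, ?_⟩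
  by_contra h1
  have h2 : (2 : F) ≠ 0 := fun h2 => h1 (H13.spinor_eq_one_of_two _ hG h2 g)
  replace h1 := (Int.units_eq_one_or _).resolve_left h1
  obtain ⟨t, ht, ht'⟩ := H28.exists_nonsquare h2
  let u : V8 F := Sum.elim ![t, 0, 0, 0] ![1, 0, 0, 0]
  have hu : Q8 F u = t := by simp [u, H13.QPlus_apply, Fin.sum_univ_four]
  have hu' : Q8 F u ≠ 0 := hu ▸ ht
  have h3 := h.mul (H13.Tr.refl hu' H13.Q_pe_ne).cyc.cyc
  rw [← map_mul] at h3
  obtain ⟨b', -, c', -, h4⟩ := H13.exists_tr_of_mem_Om (g := g * (H13.refl _ u * H13.refl _ (H13.pe F)))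
    ((H13.nd_QPlus.mem_commutator_iff hG _).2 ⟨by
      rw [map_mul, map_mul, H13.dickson_refl _ _ hu', H13.dickson_refl _ _ H13.Q_pe_ne]
      simpa using hd, by
      rw [map_mul, map_mul, H13.spinor_refl _ _ hu', H13.spinor_refl _ _ H13.Q_pe_ne, h1, hu, ht',
        H13.Q_pe, H13.sgn_eq_one_iff.2 (IsSquare.one)]
      simp⟩)
  obtain ⟨z, hz⟩ := (h3.mul h4.inv).mem_scalar (by rw [mul_inv_cancel]; exact one_mem _)
  have h5 := congrArg (H28.mu _) hz
  have h6 : H28.mu _ (H13.pR hu' * H13.pL (H13.Q_pe_ne (F := F))) = -1 := by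
    rw [H28.mu_apply, ← ht', ← hu]
    congr 1
    change Q8 F u * Q8 F (H13.pe F) = _
    rw [H13.Q_pe, mul_one]
  rw [map_mul, map_mul, hb, h6, map_inv] at h5
  simp at h5

end Cfsg.Agent.H12.Tr
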