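import Mathlib

/-! Definitions for order-three triality automorphisms (twisted compositions). -/

set_option autoImplicit false

namespace Cfsg.Agent.H12.Tr

open QuadraticMap

variable {F : Type*} [Field F]

/-- The eight-dimensional coordinate space. -/
abbrev V8 (F : Type*) := Fin 4 ⊕ Fin 4 → F

/-- The para-octonion product `x * y = x̄ ȳ` (Zorn model), norm `∑ i, x (inl i) * x (inr i)`. -/
def pm (x y : V8 F) : V8 F := Sum.elim
  ![x (.inr 0) * y (.inr 0) - (x (.inl 1) * y (.inr 1) + x (.inl 2) * y (.inr 2) +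
      x (.inl 3) * y (.inr 3)),
    -(x (.inr 0) * y (.inl 1)) - y (.inl 0) * x (.inl 1) -
      (x (.inr 2) * y (.inr 3) - x (.inr 3) * y (.inr 2)),
    -(x (.inr 0) * y (.inl 2)) - y (.inl 0) * x (.inl 2) -
      (x (.inr 3) * y (.inr 1) - x (.inr 1) * y (.inr 3)),
    -(x (.inr 0) * y (.inl 3)) - y (.inl 0) * x (.inl 3) -
      (x (.inr 1) * y (.inr 2) - x (.inr 2) * y (.inr 1))]
  ![x (.inl 0) * y (.inl 0) - (x (.inr 1) * y (.inl 1) + x (.inr 2) * y (.inl 2) +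
      x (.inr 3) * y (.inl 3)),
    -(y (.inr 0) * x (.inr 1)) - x (.inl 0) * y (.inr 1) -
      (x (.inl 2) * y (.inl 3) - x (.inl 3) * y (.inl 2)),
    -(y (.inr 0) * x (.inr 2)) - x (.inl 0) * y (.inr 2) -
      (x (.inl 3) * y (.inl 1) - x (.inl 1) * y (.inl 3)),
    -(y (.inr 0) * x (.inr 3)) - x (.inl 0) * y (.inr 3) -
      (x (.inl 1) * y (.inl 2) - x (.inl 2) * y (.inl 1))]

theorem V8_ext {x y : V8 F} (h0 : x (.inl 0) = y (.inl 0)) (h1 : x (.inl 1) = y (.inl 1))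
    (h2 : x (.inl 2) = y (.inl 2)) (h3 : x (.inl 3) = y (.inl 3)) (h4 : x (.inr 0) = y (.inr 0))
    (h5 : x (.inr 1) = y (.inr 1)) (h6 : x (.inr 2) = y (.inr 2)) (h7 : x (.inr 3) = y (.inr 3)) :
    x = y := by
  ext (i | i) <;> fin_cases i <;> assumption

/-- The para-unit. -/
def pe (F : Type*) [Field F] : V8 F := Sum.elim ![1, 0, 0, 0] ![1, 0, 0, 0]

/-- The norm. -/
def q8 (x : V8 F) : F := x (.inl 0) * x (.inr 0) + x (.inl 1) * x (.inr 1) +
  x (.inl 2) * x (.inr 2) + x (.inl 3) * x (.inr 3)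

/-- the long root element -/
def zz (s : F) (x : V8 F) : V8 F :=
  x + Pi.single (.inl 1) (s * x (.inl 3)) - Pi.single (.inr 3) (s * x (.inr 1))

/-- the line `ℓ = ⟨inl 1, inr 3⟩` -/
def Ll (x : V8 F) : Prop := ∀ i, i ≠ .inl 1 → i ≠ .inr 3 → x i = 0

/-- `ℓ^⊥` -/
def Lp (x : V8 F) : Prop := x (.inl 3) = 0 ∧ x (.inr 1) = 0

/-- `g` is trivial on the factors of `0 < ℓ < ℓ^⊥ < V` -/
def InQ (g : Equiv.Perm (V8 F)) : Prop :=
  (∀ x, Ll x → g x = x) ∧ (∀ x, Lp x → Ll (g x - x)) ∧ ∀ x, Lp (g x - x)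

/-- nondegeneracy of the polar form -/
def NDq (Q : QuadraticForm F (V8 F)) : Prop := ∀ x, (∀ y, polar Q x y = 0) → x = 0

/-- twisted composition (symmetric composition when `σ = 1`) -/
structure TC (σ : F ≃+* F) (Q : QuadraticForm F (V8 F)) (m : V8 F → V8 F → V8 F) : Prop where
  nd : NDq Q
  s3 : ∀ a, σ (σ (σ a)) = a
  addl : ∀ x y z, m (x + y) z = m x z + m y z
  addr : ∀ x y z, m x (y + z) = m x y + m x z
  smull : ∀ (a : F) x y, m (a • x) y = σ a • m x y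
  smulr : ∀ (a : F) x y, m x (a • y) = σ (σ a) • m x y
  norm : ∀ x y, Q (m x y) = σ (Q x) * σ (σ (Q y))
  cyc : ∀ x y z, polar Q (m x y) z = σ (polar Q (m y z) x)

/-- `g` is a `ψ`-semilinear automorphism of the product `m` -/
def IsA (m : V8 F → V8 F → V8 F) (ψ : F ≃+* F) (g : Equiv.Perm (V8 F)) : Prop :=
  (∀ x y, g (x + y) = g x + g y) ∧ (∀ (a : F) x, g (a • x) = ψ a • g x) ∧
    ∀ x y, g (m x y) = m (g x) (g y)

/-- no nontrivial `3'`-group of semilinear automorphisms is normalised by all linear ones -/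
def Fin3 (m : V8 F → V8 F → V8 F) : Prop :=
  ∀ N : Subgroup (Equiv.Perm (V8 F)), (∀ n ∈ N, ∃ ψ, IsA m ψ n) → (Nat.card N).Coprime 3 →
    (∀ g, IsA m 1 g → ∀ n ∈ N, g * n * g⁻¹ ∈ N) → N = ⊥

/-- standard twisted model (para-Cayley for `σ = 1`) -/
def mS (σ : F ≃+* F) (x y : V8 F) : V8 F := pm (fun i => σ (x i)) (fun i => σ (σ (y i)))

/-- cyclic permutation of the coordinates `1, 2, 3` -/
def pi3 (x : V8 F) : V8 F := fun i => x (i.map ![0, 2, 3, 1] ![0, 2, 3, 1])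

/-- the Okubo model -/
def mO (x y : V8 F) : V8 F := pm (pi3 x) (pi3 (pi3 y))

/-- unital composition algebra with norm `Q` and unit `e` -/
structure CA (Q : QuadraticForm F (V8 F)) (p : V8 F →ₗ[F] V8 F →ₗ[F] V8 F) (e : V8 F) : Prop where
  nd : NDq Q
  norm : ∀ x y, Q (p x y) = Q x * Q y
  one_mul : ∀ x, p e x = x
  mul_one : ∀ x, p x e = x

/-- conjugation in a composition algebra -/
def bar (Q : QuadraticForm F (V8 F)) (e x : V8 F) : V8 F := polar Q e x • e - x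

/-- `ρ` is a `ψ`-semilinear automorphism of order dividing three of the composition algebra -/
structure Rho (Q : QuadraticForm F (V8 F)) (p : V8 F →ₗ[F] V8 F →ₗ[F] V8 F) (ψ : F ≃+* F)
    (ρ : V8 F →+ V8 F) : Prop where
  smul : ∀ (a : F) x, ρ (a • x) = ψ a • ρ x
  mul : ∀ x y, ρ (p x y) = p (ρ x) (ρ y)
  norm : ∀ x, Q (ρ x) = ψ (Q x)
  three : ∀ x, ρ (ρ (ρ x)) = x

/-- normal form at an idempotent `e` (the statement of `nf_at`) -/
def NFat (F : Type*) [Field F] : Prop :=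
  ∀ (σ : F ≃+* F) (Q : QuadraticForm F (V8 F)) (m : V8 F → V8 F → V8 F), TC σ Q m →
    ∀ e, m e e = e → Q e = 1 →
    (σ = 1 → ∃ a b, m e (m e a) = a ∧ m e (m e b) = b ∧ LinearIndependent F ![e, a, b]) →
    ∃ φ : V8 F ≃ₗ[F] V8 F, φ e = pe F ∧
      ((∀ x y, φ (m x y) = mS σ (φ x) (φ y)) ∨ ∀ x y, φ (m x y) = mO (φ x) (φ y))

end Cfsg.Agent.H12.Tr
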