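import Cfsg.Agent.H12.TrD

/-! Existence of a good idempotent in a twisted composition over a finite field. -/

set_option autoImplicit false

namespace Cfsg.Agent.H12.Tr

open QuadraticMap

namespace N2

variable {F : Type*} [Field F] {σ : F ≃+* F} {Q : QuadraticForm F (V8 F)}
  {m : V8 F → V8 F → V8 F}

theorem ext' (h : TC σ Q m) {x y : V8 F} (H : ∀ z, polar Q x z = polar Q y z) : x = y :=
  sub_eq_zero.1 (h.nd _ fun z => by rw [polar_sub_left, H, sub_self])

theorem nl (h : TC σ Q m) (x y y' : V8 F) :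
    polar Q (m x y) (m x y') = σ (Q x) * σ (σ (polar Q y y')) := by
  simp only [polar, ← h.addr, h.norm, map_sub]; ring

theorem nr (h : TC σ Q m) (x x' y : V8 F) :
    polar Q (m x y) (m x' y) = σ (polar Q x x') * σ (σ (Q y)) := by
  simp only [polar, ← h.addl, h.norm, map_sub]; ring

theorem i1 (h : TC σ Q m) (u w : V8 F) : m (m u w) u = σ (σ (Q u)) • w := ext' h fun z => by
  rw [h.cyc, nl h, polar_smul_left, map_mul, h.s3, polar_comm Q z, smul_eq_mul]

theorem i2 (h : TC σ Q m) (u w : V8 F) : m u (m w u) = σ (Q u) • w := ext' h fun z => by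
  rw [h.cyc, h.cyc, nr h, polar_smul_left, map_mul, map_mul, h.s3, h.s3, polar_comm Q z,
    smul_eq_mul, mul_comm]

theorem l1 (h : TC σ Q m) (u w v : V8 F) :
    m (m u w) v + m (m v w) u = σ (σ (polar Q u v)) • w := by
  have := i1 h (u + v) w
  rw [h.addl, h.addl, h.addr, h.addr, i1 h, i1 h] at this
  simp only [polar, map_sub, sub_smul]; rw [← this]; abel

theorem l2 (h : TC σ Q m) (u w v : V8 F) :
    m u (m w v) + m v (m w u) = σ (polar Q u v) • w := by
  have := i2 h (u + v) w
  rw [h.addr, h.addl, h.addr, h.addr, i2 h, i2 h] at this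
  simp only [polar, map_sub, sub_smul]; rw [← this]; abel

theorem zl (h : TC σ Q m) (y : V8 F) : m 0 y = 0 := by simpa using h.smull 0 0 y
theorem zr (h : TC σ Q m) (y : V8 F) : m y 0 = 0 := by simpa using h.smulr 0 y 0
theorem ngl (h : TC σ Q m) (x y : V8 F) : m (-x) y = -m x y := by simpa using h.smull (-1) x y
theorem ngr (h : TC σ Q m) (x y : V8 F) : m x (-y) = -m x y := by simpa using h.smulr (-1) x y
theorem sbl (h : TC σ Q m) (x y z : V8 F) : m (x - y) z = m x z - m y z := by
  rw [sub_eq_add_neg, h.addl, ngl h, ← sub_eq_add_neg]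
theorem sbr (h : TC σ Q m) (x y z : V8 F) : m x (y - z) = m x y - m x z := by
  rw [sub_eq_add_neg, h.addr, ngr h, ← sub_eq_add_neg]

theorem q1 (h : TC σ Q m) {e : V8 F} (he : m e e = e) (h0 : e ≠ 0) : Q e = 1 := by
  have := i1 h e e
  rw [he, he] at this
  have h1 : (σ (σ (Q e)) - 1) • e = 0 := by rw [sub_smul, ← this, one_smul, sub_self]
  rw [smul_eq_zero, sub_eq_zero, map_eq_one_iff _ σ.injective, map_eq_one_iff _ σ.injective] at h1
  exact h1.resolve_right h0

theorem sq (h : TC σ Q m) (u : V8 F) :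
    m (m u u) (m u u) = polar Q (m u u) u • u - Q u • m u u := by
  have := l1 h u u (m u u)
  have hT := h.cyc u u u
  rw [i1 h, h.smull, h.s3, polar_comm Q u, ← hT, ← hT] at this
  rw [← this]; abel

theorem cw {K : Type*} [Field K] [Finite K] (c : Fin 4 → Fin 4 → Fin 4 → K) :
    ∃ t : Fin 4 → K, t ≠ 0 ∧ ∑ i, ∑ j, ∑ k, t i * t j * t k * c i j k = 0 := by
  classical
  have := Fintype.ofFinite K
  obtain ⟨p, hp⟩ := CharP.exists K
  have pp := (CharP.char_is_prime K p)
  let f : MvPolynomial (Fin 4) K :=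
    ∑ i, ∑ j, ∑ k, MvPolynomial.X i * MvPolynomial.X j * MvPolynomial.X k * MvPolynomial.C (c i j k)
  have hd : f.totalDegree ≤ 3 := by
    refine MvPolynomial.totalDegree_finsetSum_le fun i _ =>
      MvPolynomial.totalDegree_finsetSum_le fun j _ =>
      MvPolynomial.totalDegree_finsetSum_le fun k _ => ?_
    refine (MvPolynomial.totalDegree_mul _ _).trans ?_
    rw [MvPolynomial.totalDegree_C, add_zero]
    refine (MvPolynomial.totalDegree_mul _ _).trans ?_
    refine (add_le_add_left (MvPolynomial.totalDegree_mul _ _) _).trans ?_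
    simp
  have := char_dvd_card_solutions p (f := f) (by simp; omega)
  by_contra H
  push Not at H
  have h1 : Fintype.card {x : Fin 4 → K // MvPolynomial.eval x f = 0} = 1 :=
    Fintype.card_eq_one_iff.2 ⟨⟨0, by simp [f]⟩, fun y => Subtype.ext (by
      by_contra hy
      exact H y.1 hy (by simpa [f] using y.2))⟩
  rw [h1] at this
  exact pp.one_lt.ne' (Nat.dvd_one.1 this)

theorem exT [Finite F] (h3 : (3 : F) ≠ 0) (h : TC σ Q m) :
    ∃ u, u ≠ 0 ∧ polar Q (m u u) u = 0 := by
  let K : Subfield F := RingHom.eqLocusField (σ : F →+* F) (RingHom.id F)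
  let v : Fin 4 → V8 F := fun i => Pi.single (.inl i) 1
  let c : Fin 4 → Fin 4 → Fin 4 → F := fun i j k => polar Q (m (v i) (v j)) (v k)
  obtain ⟨t, t0, ht⟩ := cw (K := K) fun i j k =>
    ⟨c i j k + σ (c i j k) + σ (σ (c i j k)), by
      show σ _ = _
      rw [map_add, map_add, h.s3, RingHom.id_apply]; ring⟩
  have tf : ∀ i, σ (t i) = t i := fun i => (t i).2
  have ht' : ∑ i, ∑ j, ∑ k, (t i : F) * t j * t k * (c i j k + σ (c i j k) + σ (σ (c i j k))) = 0 := by
    simpa using congrArg (fun x : K => (x : F)) ht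
  refine ⟨∑ i, (t i : F) • v i, fun e => t0 (funext fun i => Subtype.ext ?_), ?_⟩
  · simpa [v, Finset.sum_apply, Pi.single_apply] using congrFun e (.inl i)
  · have hT := h.cyc (∑ i, (t i : F) • v i) (∑ i, (t i : F) • v i) (∑ i, (t i : F) • v i)
    have e : polar Q (m (∑ i, (t i : F) • v i) (∑ i, (t i : F) • v i)) (∑ i, (t i : F) • v i) =
        ∑ i, ∑ j, ∑ k, (t i : F) * t j * t k * c i j k := by
      simp only [Fin.sum_univ_four, h.addl, h.addr, h.smull, h.smulr, tf, polar_add_left,
        polar_add_right, polar_smul_left, polar_smul_right, smul_eq_mul, c]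
      ring
    rw [e] at hT ⊢
    refine (mul_eq_zero.1 ?_).resolve_left h3
    rw [← ht']
    have h2 := congrArg σ hT
    simp only [map_sum, map_mul, tf] at hT h2
    simp only [mul_add, Finset.sum_add_distrib]
    rw [← h2, ← hT]; ring

theorem exl [Finite F] (hσ : ∀ a, σ (σ (σ a)) = a) (c : F) (hc : c ≠ 0) :
    ∃ l : F, l ≠ 0 ∧ σ l * σ (σ l) * c = l := by
  let f : {x : F // x ≠ 0} → {x : F // x ≠ 0} := fun x =>
    ⟨x / (σ x * σ (σ x)), by simp [x.2]⟩
  have hf : Function.Injective f := fun ⟨x, hx⟩ ⟨y, hy⟩ e => by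
    have e1 : x / (σ x * σ (σ x)) = y / (σ y * σ (σ y)) := congrArg Subtype.val e
    have e2 := congrArg σ e1
    have e3 := congrArg σ e2
    simp only [map_div₀, map_mul, hσ] at e2 e3
    have a1 : σ x ≠ 0 := by simpa
    have a2 : σ (σ x) ≠ 0 := by simpa
    have b1 : σ y ≠ 0 := by simpa
    have b2 : σ (σ y) ≠ 0 := by simpa
    rw [div_eq_div_iff (by simp [*]) (by simp [*])] at e1 e2 e3
    have : (x - y) * (x + y) = 0 := by
      apply mul_left_cancel₀ (mul_ne_zero (mul_ne_zero a1 a2) (mul_ne_zero b1 b2))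
      have := congrArg₂ (· * ·) e2 e3
      linear_combination -this
    rcases mul_eq_zero.1 this with h | h
    · exact Subtype.ext (sub_eq_zero.1 h)
    · obtain rfl : y = -x := by linear_combination h
      refine Subtype.ext (mul_right_cancel₀ (mul_ne_zero a1 a2) ?_)
      simpa using e1
  obtain ⟨⟨l, hl⟩, e⟩ := Finite.surjective_of_injective hf ⟨c, hc⟩
  have e1 : l / (σ l * σ (σ l)) = c := congrArg Subtype.val e
  refine ⟨l, hl, ?_⟩
  rw [← e1, mul_div_cancel₀ _ (by simp [hl])]

theorem nil (h : TC σ Q m) {x : V8 F} (x0 : x ≠ 0) (hx : m x x = 0) :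
    ∃ e, m e e = e ∧ e ≠ 0 := by
  have qx : Q x = 0 := by
    have := i1 h x x
    rw [hx, zl h] at this
    simpa [x0] using this.symm
  obtain ⟨y, qy, b⟩ : ∃ y, Q y = 0 ∧ polar Q x y = -1 := by
    obtain ⟨z, hz⟩ : ∃ z, polar Q x z ≠ 0 := by
      by_contra H
      push Not at H
      exact x0 (h.nd x H)
    obtain ⟨z, hz⟩ : ∃ z, polar Q x z = -1 :=
      ⟨(-(polar Q x z)⁻¹) • z, by rw [polar_smul_right, smul_eq_mul, neg_mul, inv_mul_cancel₀ hz]⟩
    refine ⟨Q z • x + z, ?_, ?_⟩
    · rw [QuadraticMap.map_add (Q : V8 F → F), Q.map_smul, polar_smul_left, hz, qx]; simp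
    · rw [polar_add_right, polar_smul_right, polar_self, qx, hz]; simp
  have b' : polar Q y x = -1 := (polar_comm _ _ _).trans b
  have ax : m (m x y) x = 0 := by simp [i1 h, qx]
  have xc : m x (m y x) = 0 := by simp [i2 h, qx]
  have cx : m (m y x) x = -x := by simpa [hx, zl h, b'] using l1 h y x x
  have xa : m x (m x y) = -x := by simpa [hx, zr h, b] using l2 h x x y
  have p1 : polar Q (m y x) x = 0 := by rw [h.cyc, hx]; simp
  have p2 : polar Q (m x y) x = 0 := by rw [h.cyc, p1]; simp
  have ac : m (m x y) (m y x) = 0 := by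
    simpa [i1 h, qy, zl h, polar_comm Q x, p1] using l1 h x y (m y x)
  have ca : m (m y x) (m x y) = polar Q (m y y) x • x := by
    have := l1 h y x (m x y)
    rwa [ax, zl h, add_zero, polar_comm, h.cyc, h.s3] at this
  have aa : m (m x y) (m x y) = m y x + σ (σ (polar Q (m y y) x)) • x := by
    have e1 := l1 h x y (m x y)
    have e2 : m (m x y) y = -y - m (m y y) x := by
      rw [eq_sub_iff_add_eq, l1 h, b]; simp
    have e3 := l1 h (m y y) x x
    rw [hx, zl h, add_zero] at e3
    rw [e2, sbl h, ngl h, e3, polar_comm Q x (m x y), p2, map_zero, map_zero, zero_smul] at e1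
    rw [← sub_eq_zero, ← e1]; abel
  have cc : m (m y x) (m y x) = m x y + σ (polar Q (m y y) x) • x := by
    have e1 := l2 h (m y x) y x
    have e2 : m y (m y x) = -y - m x (m y y) := by
      rw [eq_sub_iff_add_eq, l2 h, b']; simp
    have e3 := l2 h x x (m y y)
    rw [hx, zr h, add_zero, polar_comm] at e3
    rw [e2, sbr h, ngr h, e3, p1, map_zero, zero_smul] at e1
    rw [← sub_eq_zero, ← e1]; abel
  refine ⟨m x y + m y x + polar Q (m y y) x • x, ?_, fun e => x0 ?_⟩
  · simp only [h.addl, h.addr, h.smull, h.smulr, ax, xc, cx, xa, ac, ca, aa, cc, hx]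
    module
  · have := congrArg (m · x) e
    simpa [h.addl, h.smull, ax, cx, hx, zl h] using this

theorem ex [Finite F] (h3 : (3 : F) ≠ 0) (h : TC σ Q m) : ∃ e, m e e = e ∧ e ≠ 0 := by
  obtain ⟨u, u0, hu⟩ := exT h3 h
  have hs := sq h u
  rw [hu, zero_smul, zero_sub] at hs
  by_cases hq : Q u = 0
  · rw [hq, zero_smul, neg_zero] at hs
    by_cases hw : m u u = 0
    · exact nil h u0 hw
    · exact nil h hw hs
  · obtain ⟨l, l0, hl⟩ := exl h.s3 (-Q u) (neg_ne_zero.2 hq)
    refine ⟨l • m u u, ?_, smul_ne_zero l0 fun e => hq ?_⟩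
    · rw [h.smull, h.smulr, hs, ← neg_smul, smul_smul, smul_smul, hl]
    · simpa [e] using (h.norm u u).symm

theorem good (h3 : (3 : F) ≠ 0) (h : TC 1 Q m) {e : V8 F} (he : m e e = e) (qe : Q e = 1) :
    ∃ f, m f f = f ∧ Q f = 1 ∧
      ∃ a b, m f (m f a) = a ∧ m f (m f b) = b ∧ LinearIndependent F ![f, a, b] := by
  have o : ∀ a : F, (1 : F ≃+* F) a = a := fun _ => rfl
  have cy : ∀ x y z, polar Q (m x y) z = polar Q (m y z) x := h.cyc
  have j1 : ∀ u w, m (m u w) u = Q u • w := i1 h
  have j2 : ∀ u w, m u (m w u) = Q u • w := i2 h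
  have k1 : ∀ u w v, m (m u w) v + m (m v w) u = polar Q u v • w := l1 h
  have k2 : ∀ u w v, m u (m w v) + m v (m w u) = polar Q u v • w := l2 h
  have sl : ∀ (a : F) x y, m (a • x) y = a • m x y := h.smull
  have sr : ∀ (a : F) x y, m x (a • y) = a • m x y := h.smulr
  have LR : ∀ v, m e (m v e) = v := fun v => by rw [j2, qe, one_smul]
  have RL : ∀ v, m (m e v) e = v := fun v => by rw [j1, qe, one_smul]
  have aL : ∀ x y, polar Q (m e x) y = polar Q x (m y e) := fun x y => by
    rw [cy, cy, polar_comm]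
  have aR : ∀ x y, polar Q (m x e) y = polar Q x (m e y) := fun x y => by
    rw [cy, polar_comm]
  have D : ∀ v u, u = m e v - m v e → m e u + m u e = u ∧ polar Q u e = 0 := by
    rintro v u rfl
    refine ⟨?_, by rw [polar_sub_left, aL, aR, he, sub_self]⟩
    have e1 := k1 e e v
    have e2 := k2 e e v
    rw [he] at e1 e2
    rw [sbr h, sbl h, LR, RL, eq_sub_of_add_eq' e1, eq_sub_of_add_eq e2]; abel
  by_cases H : ∀ v, Q (m e v - m v e) = 0
  · have LL : ∀ v, m e (m e v) = v := fun v => by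
      obtain ⟨u, hu⟩ : ∃ u, u = m e v - m v e := ⟨_, rfl⟩
      have e1 : m u e = m e u := ext' h fun w => by
        have : polar Q u (m e w - m w e) = 0 := by
          have a1 := H (v + w)
          rw [h.addr, h.addl, show m e v + m e w - (m v e + m w e) =
            (m e v - m v e) + (m e w - m w e) by abel] at a1
          rw [polar, hu, a1, H, H]; ring
        rw [polar_sub_right, ← aL, ← aR] at this
        exact sub_eq_zero.1 this
      have e2 := (D v u hu).1
      have e3 := LR u
      rw [e1] at e2 e3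
      have e4 := congrArg (m e) e2
      simp only [h.addr, e3] at e4
      have e5 : (3 : F) • u = 0 := by
        rw [← e4] at e2
        linear_combination (norm := module) e2
      have e6 : m e v = m v e := sub_eq_zero.1 (hu ▸ (smul_eq_zero.1 e5).resolve_left h3)
      rw [e6, LR]
    have e0 : e ≠ 0 := by rintro rfl; simp at qe
    obtain ⟨a, ha⟩ := exists_linearIndependent_snoc_of_lt_finrank (R := F) (v := ![e])
      (by simpa using e0) (by simp)
    obtain ⟨b, hb⟩ := exists_linearIndependent_snoc_of_lt_finrank ha (by simp)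
    refine ⟨e, he, qe, a, b, LL a, LL b, ?_⟩
    have : ![e, a, b] = Fin.snoc (α := fun _ => V8 F) (Fin.snoc (α := fun _ => V8 F) ![e] a) b := by
      ext i : 1
      fin_cases i <;> rfl
    rw [this]
    exact hb
  push Not at H
  obtain ⟨v, hq⟩ := H
  obtain ⟨u, hu⟩ : ∃ u, u = m e v - m v e := ⟨_, rfl⟩
  rw [← hu] at hq
  obtain ⟨d1, d2⟩ := D v u hu
  have qr : Q (m u e) = Q u := by rw [h.norm]; simp [o, qe]
  have qp : Q (m e u) = Q u := by rw [h.norm]; simp [o, qe]
  have re : polar Q (m u e) e = 0 := by rw [aR, he, d2]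
  have ur : m u (m u e) = -m e (m u u) := by
    have := k2 u u e
    rw [d2, zero_smul] at this
    exact eq_neg_of_add_eq_zero_left this
  have pu : m (m e u) u = -m (m u u) e := by
    have := k1 e u u
    rw [polar_comm, d2, zero_smul] at this
    exact eq_neg_of_add_eq_zero_left this
  have sL : m e (m u u) = Q u • e - m u u := by
    have := h.addr u (m e u) (m u e)
    rw [d1, j2, ur] at this
    rw [eq_sub_iff_add_eq]; nth_rewrite 2 [this]; abel
  have sR : m (m u u) e = Q u • e - m u u := by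
    have := h.addl (m e u) (m u e) u
    rw [d1, j1, pu] at this
    rw [eq_sub_iff_add_eq]; nth_rewrite 2 [this]; abel
  have rr : m (m u e) (m u e) = m u u := by
    have := k2 (m u e) u e
    rw [re, zero_smul, ur, ngr h, sL, sbr h, sr, he, sL] at this
    rw [← sub_eq_zero, ← this]; abel
  have sr' : polar Q (m u u) (m u e) = -polar Q (m u u) u := by
    rw [← aL, sL, polar_sub_left, polar_smul_left, polar_comm Q e, d2]; simp
  have sp : polar Q (m u u) (m e u) = -polar Q (m u u) u := by
    rw [← aR, sR, polar_sub_left, polar_smul_left, polar_comm Q e, d2]; simp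
  have T : polar Q (m u u) u = 0 := by
    have := polar_add_right Q (m u u) (m e u) (m u e)
    rw [d1, sr', sp] at this
    exact (mul_eq_zero.1 (by linear_combination this)).resolve_left h3
  have ru : polar Q (m u e) u = Q u := by
    have : m e u = u - m u e := eq_sub_of_add_eq d1
    have e1 : polar Q (m u e) (m e u) = -Q u := by rw [polar, add_comm, d1, qr, qp]; ring
    rw [this, polar_sub_right, polar_self, qr] at e1
    rw [two_nsmul] at e1
    linear_combination e1
  have hs := sq h u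
  rw [T, zero_smul, zero_sub] at hs
  have fu : m ((-(Q u)⁻¹) • m u u) u = -u := by
    rw [sl, j1, smul_smul, neg_mul, inv_mul_cancel₀ hq, neg_one_smul]
  have fr : m ((-(Q u)⁻¹) • m u u) (m u e) = -m u e := by
    rw [sl, ← rr, j1, qr, smul_smul, neg_mul, inv_mul_cancel₀ hq, neg_one_smul]
  have ff : m ((-(Q u)⁻¹) • m u u) ((-(Q u)⁻¹) • m u u) = (-(Q u)⁻¹) • m u u := by
    rw [sl, sr, hs, ← neg_smul, smul_smul, smul_smul]
    congr 1
    field_simp
  refine ⟨(-(Q u)⁻¹) • m u u, ff, q1 h ff fun e0 => hq ?_, u, m u e,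
    by rw [fu, ngr h, fu, neg_neg], by rw [fr, ngr h, fr, neg_neg], ?_⟩
  · rw [e0, zl h, eq_comm, neg_eq_zero] at fu
    rw [fu, map_zero]
  · rw [Fintype.linearIndependent_iff]
    intro g hg
    simp only [Fin.sum_univ_three, Matrix.cons_val_zero, Matrix.cons_val_one, Matrix.cons_val] at hg
    have a1 := congrArg (polar Q · e) hg
    have a2 := congrArg (polar Q · u) hg
    have a3 := congrArg (polar Q · (m u e)) hg
    simp only [polar_add_left, polar_smul_left, polar_zero_left, d2, re, T, sr', ru, polar_self,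
      cy u u e, polar_comm Q u (m u e), qr, smul_eq_mul, two_nsmul] at a1 a2 a3
    have g0 : g 0 = 0 := by
      rw [mul_zero, mul_zero, add_zero, add_zero, neg_mul, inv_mul_cancel₀ hq] at a1
      linear_combination -a1
    have g1 : g 1 = 0 := (mul_eq_zero.1 ((mul_eq_zero.1 (show Q u * (3 * g 1) = 0 by
      linear_combination 2 * a2 - a3)).resolve_left hq)).resolve_left h3
    have g2 : g 2 = 0 := (mul_eq_zero.1 ((mul_eq_zero.1 (show Q u * (3 * g 2) = 0 by
      linear_combination 2 * a3 - a2)).resolve_left hq)).resolve_left h3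
    intro i
    fin_cases i <;> assumption

end N2

theorem TC.idem {F : Type*} [Field F] [Finite F] (h3 : (3 : F) ≠ 0) {σ : F ≃+* F}
    {Q : QuadraticForm F (V8 F)} {m : V8 F → V8 F → V8 F} (h : TC σ Q m) :
    ∃ e, m e e = e ∧ Q e = 1 ∧
      (σ = 1 → ∃ a b, m e (m e a) = a ∧ m e (m e b) = b ∧ LinearIndependent F ![e, a, b]) := by
  obtain ⟨e, he, e0⟩ := N2.ex h3 h
  by_cases hσ : σ = 1
  · subst hσ
    obtain ⟨f, a, b, c⟩ := N2.good h3 h he (N2.q1 h he e0)
    exact ⟨f, a, b, fun _ => c⟩
  · exact ⟨e, he, N2.q1 h he e0, fun e => absurd e hσ⟩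

end Cfsg.Agent.H12.Tr
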