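import Cfsg.Agent.H12.TrD

/-! A composition algebra with a proper idempotent is the Zorn vector-matrix algebra. -/

set_option autoImplicit false

namespace Cfsg.Agent.H12.Tr

open QuadraticMap

variable {F : Type*} [Field F] {Q : QuadraticForm F (V8 F)} {p : V8 F →ₗ[F] V8 F →ₗ[F] V8 F}
  {e : V8 F}

namespace CA

theorem ext (h : CA Q p e) {x y : V8 F} (H : ∀ z, polar Q x z = polar Q y z) : x = y :=
  sub_eq_zero.1 (h.nd _ fun z => by rw [polar_sub_left, H, sub_self])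

theorem Qe (h : CA Q p e) : Q e = 1 := by
  have h1 := h.norm e e
  rw [h.one_mul] at h1
  by_contra hc
  have h0 : Q e = 0 := by
    have : Q e * (Q e - 1) = 0 := by linear_combination -h1
    exact (mul_eq_zero.1 this).resolve_right (sub_ne_zero.2 hc)
  have h2 : ∀ x, Q x = 0 := fun x => by rw [← h.one_mul x, h.norm, h0, zero_mul]
  have h3 := h.nd (fun _ => 1) fun y => by simp [polar, h2]
  simpa using congrFun h3 (.inl 0)

theorem l1 (h : CA Q p e) (x y z : V8 F) : polar Q (p x y) (p x z) = Q x * polar Q y z := by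
  simp only [polar, ← map_add, h.norm]; ring

theorem r1 (h : CA Q p e) (x y z : V8 F) : polar Q (p x z) (p y z) = polar Q x y * Q z := by
  simp only [polar, ← LinearMap.add_apply, ← map_add, h.norm]; ring

theorem l2 (h : CA Q p e) (x y z w : V8 F) :
    polar Q (p x y) (p z w) + polar Q (p x w) (p z y) = polar Q x z * polar Q y w := by
  have h1 := h.l1 (x + z) y w
  have h2 := h.l1 x y w
  have h3 := h.l1 z y w
  simp only [map_add, LinearMap.add_apply, polar_add_left, polar_add_right] at h1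
  rw [polar_comm Q (p x w)]
  have h4 : polar Q x z = Q (x + z) - Q x - Q z := rfl
  rw [h4]
  linear_combination h1 - h2 - h3

theorem pbl (h : CA Q p e) (x y : V8 F) : p (bar Q e x) y = polar Q e x • y - p x y := by
  simp [bar, h.one_mul]

theorem pbr (h : CA Q p e) (x y : V8 F) : p y (bar Q e x) = polar Q e x • y - p y x := by
  simp [bar, h.mul_one]

theorem adl (h : CA Q p e) (x y z : V8 F) : polar Q (p x y) z = polar Q y (p (bar Q e x) z) := by
  have := h.l2 x y e z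
  rw [h.one_mul, h.one_mul, polar_comm Q (p x z), polar_comm Q x e] at this
  rw [h.pbl, polar_sub_right, polar_smul_right, smul_eq_mul]
  linear_combination this

theorem adr (h : CA Q p e) (x y z : V8 F) : polar Q (p x y) z = polar Q x (p z (bar Q e y)) := by
  have := h.l2 x y z e
  rw [h.mul_one, h.mul_one, polar_comm Q y e] at this
  rw [h.pbr, polar_sub_right, polar_smul_right, smul_eq_mul]
  linear_combination this

theorem kl (h : CA Q p e) (x y : V8 F) : p (bar Q e x) (p x y) = Q x • y :=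
  h.ext fun z => by
    rw [polar_comm, ← h.adl, h.l1, polar_smul_left, smul_eq_mul, polar_comm]

theorem kr (h : CA Q p e) (x y : V8 F) : p (p y x) (bar Q e x) = Q x • y :=
  h.ext fun z => by
    rw [polar_comm, ← h.adr, h.r1, polar_smul_left, smul_eq_mul, polar_comm, mul_comm]

theorem kl2 (h : CA Q p e) (x y z : V8 F) :
    p (bar Q e x) (p y z) + p (bar Q e y) (p x z) = polar Q x y • z :=
  h.ext fun w => by
    rw [polar_add_left, polar_comm Q _ w, ← h.adl, polar_comm Q _ w, ← h.adl, polar_smul_left,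
      smul_eq_mul, polar_comm Q (p y w), polar_comm Q z w, ← h.l2 x w y z]

theorem kr2 (h : CA Q p e) (x y z : V8 F) :
    p (p z x) (bar Q e y) + p (p z y) (bar Q e x) = polar Q x y • z :=
  h.ext fun w => by
    rw [polar_add_left, polar_comm Q _ w, ← h.adr, polar_comm Q _ w, ← h.adr, polar_smul_left,
      smul_eq_mul, polar_comm Q z w, mul_comm, polar_comm Q x y, ← h.l2 w y z x]

end CA

/-- a pair of complementary idempotents -/
structure Id2 (Q : QuadraticForm F (V8 F)) (p : V8 F →ₗ[F] V8 F →ₗ[F] V8 F) (e f g : V8 F) :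
    Prop where
  ca : CA Q p e
  s : f + g = e
  q : Q f = 0
  q' : Q g = 0
  t : polar Q e f = 1
  t' : polar Q e g = 1

/-- the Peirce space -/
def PU (p : V8 F →ₗ[F] V8 F →ₗ[F] V8 F) (f u : V8 F) : Prop := p f u = u ∧ p u f = 0

namespace Id2

variable {f g u u' v v' : V8 F}

theorem symm (h : Id2 Q p e f g) : Id2 Q p e g f :=
  ⟨h.ca, (add_comm _ _).trans h.s, h.q', h.q, h.t', h.t⟩

theorem bf (h : Id2 Q p e f g) : bar Q e f = g := by
  rw [bar, h.t, one_smul, ← h.s, add_sub_cancel_left]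

theorem ff0 (h : Id2 Q p e f g) : polar Q f f = 0 := by rw [polar_self, h.q, smul_zero]

theorem fg1 (h : Id2 Q p e f g) : polar Q f g = 1 := by
  have := h.t
  rwa [← h.s, polar_add_left, h.ff0, zero_add, polar_comm] at this

theorem gl (h : Id2 Q p e f g) (x : V8 F) : p g (p f x) = 0 := by
  have := h.ca.kl f x
  rwa [h.bf, h.q, zero_smul] at this

theorem gr (h : Id2 Q p e f g) (x : V8 F) : p (p x f) g = 0 := by
  have := h.ca.kr f x
  rwa [h.bf, h.q, zero_smul] at this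

theorem sl (h : Id2 Q p e f g) (x : V8 F) : p f x + p g x = x := by
  rw [← LinearMap.add_apply, ← map_add, h.s, h.ca.one_mul]

theorem sr (h : Id2 Q p e f g) (x : V8 F) : p x f + p x g = x := by
  rw [← map_add, h.s, h.ca.mul_one]

theorem gf (h : Id2 Q p e f g) : p g f = 0 := by
  have := h.gl e
  rwa [h.ca.mul_one] at this

theorem ff (h : Id2 Q p e f g) : p f f = f := by
  have := h.sl f
  rwa [h.gf, add_zero] at this

theorem gu (h : Id2 Q p e f g) (hu : PU p f u) : p g u = 0 := by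
  have := h.sl u
  rwa [hu.1, add_eq_left] at this

theorem ug (h : Id2 Q p e f g) (hu : PU p f u) : p u g = u := by
  have := h.sr u
  rwa [hu.2, zero_add] at this

theorem Qu (h : Id2 Q p e f g) (hu : PU p f u) : Q u = 0 := by
  rw [← hu.1, h.ca.norm, h.q, zero_mul]

theorem uu0 (h : Id2 Q p e f g) (hu : PU p f u) (hu' : PU p f u') : polar Q u u' = 0 := by
  rw [← hu.1, ← hu'.1, h.ca.l1, h.q, zero_mul]

theorem fu0 (h : Id2 Q p e f g) (hu : PU p f u) : polar Q f u = 0 := by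
  have := h.ca.l1 f e u
  rwa [h.ca.mul_one, hu.1, h.q, zero_mul] at this

theorem gu0 (h : Id2 Q p e f g) (hu : PU p f u) : polar Q g u = 0 := by
  have := h.ca.r1 e u g
  rwa [h.ca.one_mul, h.ug hu, h.q', mul_zero] at this

theorem eu0 (h : Id2 Q p e f g) (hu : PU p f u) : polar Q e u = 0 := by
  rw [← h.s, polar_add_left, h.fu0 hu, h.gu0 hu, add_zero]

theorem bu (h : Id2 Q p e f g) (hu : PU p f u) : bar Q e u = -u := by
  rw [bar, h.eu0 hu, zero_smul, zero_sub]

theorem uv (h : Id2 Q p e f g) (hu : PU p f u) (hv : PU p g v) : p u v = -(polar Q u v • f) := by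
  have := h.ca.kl2 u v f
  rw [h.bu hu, h.symm.bu hv, h.symm.ug hv, hu.2, map_zero, add_zero, map_neg,
    LinearMap.neg_apply] at this
  rw [← this, neg_neg]

theorem anti (h : Id2 Q p e f g) (hu : PU p f u) (hu' : PU p f u') : p u u' = -p u' u := by
  have := h.ca.kl2 u u' e
  rw [h.bu hu, h.bu hu', h.uu0 hu hu', zero_smul, h.ca.mul_one, h.ca.mul_one, map_neg, map_neg,
    LinearMap.neg_apply, LinearMap.neg_apply] at this
  linear_combination (exp := 1) -this

theorem sq (h : Id2 Q p e f g) (hu : PU p f u) : p u u = 0 := by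
  have := h.ca.kl u e
  rwa [h.bu hu, h.Qu hu, zero_smul, h.ca.mul_one, map_neg, LinearMap.neg_apply, neg_eq_zero] at this

theorem mem (h : Id2 Q p e f g) (hu : PU p f u) (hu' : PU p f u') : PU p g (p u u') := by
  constructor
  · have := h.ca.kl2 f u u'
    rw [h.bf, h.bu hu, h.fu0 hu, zero_smul, hu'.1, map_neg, LinearMap.neg_apply] at this
    linear_combination (exp := 1) this
  · have := h.ca.kr2 u' f u
    rwa [h.bf, hu.2, map_zero, LinearMap.zero_apply, add_zero, polar_comm, h.fu0 hu',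
      zero_smul] at this

theorem vuu (h : Id2 Q p e f g) (hu : PU p f u) (hu' : PU p f u') (hv : PU p g v) :
    p v (p u u') = polar Q u' v • u - polar Q u v • u' := by
  have := h.ca.kl2 v u u'
  rw [h.bu hu, h.symm.bu hv, h.symm.uv hv hu', map_neg, map_neg, map_neg, map_smul,
    LinearMap.neg_apply, LinearMap.neg_apply, h.ug hu, polar_comm Q v u, polar_comm Q v u', smul_neg, neg_neg] at this
  linear_combination (exp := 1) -this

theorem neg (hu : PU p f u) : PU p f (-u) := ⟨by rw [map_neg, hu.1], by simp [hu.2]⟩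

theorem smul (a : F) (hu : PU p f u) : PU p f (a • u) := ⟨by rw [map_smul, hu.1], by simp [hu.2]⟩

theorem proj (h : Id2 Q p e f g) {x : V8 F} (h1 : polar Q x f = 0) (h2 : polar Q x g = 0) :
    PU p f (p f x) := by
  constructor
  · have := h.sl (p f x)
    rwa [h.gl, add_zero] at this
  · have h3 : bar Q e x = -x := by
      rw [bar, ← h.s, polar_add_left, polar_comm, h1, polar_comm, h2, add_zero, zero_smul, zero_sub]
    have := h.ca.kl2 x g e
    rw [h3, h.symm.bf, h2, zero_smul, h.ca.mul_one, h.ca.mul_one, map_neg,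
      LinearMap.neg_apply] at this
    rw [show p f x = p x g by linear_combination (exp := 1) this, h.symm.gr]

theorem pair (h : Id2 Q p e f g) (hu : PU p f u) (hv : PU p g v)
    (huv : polar Q u v = 1 ∨ (u = 0 ∧ v = 0)) :
    ∃ u' v', PU p f u' ∧ PU p g v' ∧ polar Q u' v' = 1 ∧ polar Q u' v = 0 ∧ polar Q u v' = 0 := by
  let L : V8 F →ₗ[F] (Fin 4 → F) := LinearMap.pi fun i => Q.polarBilin (![f, g, u, v] i)
  have hk : LinearMap.ker L ≠ ⊥ := LinearMap.ker_ne_bot_of_finrank_lt (by simp)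
  obtain ⟨x, hx, x0⟩ := (Submodule.ne_bot_iff _).1 hk
  have xf : polar Q x f = 0 := by rw [polar_comm]; simpa [L] using congrFun hx 0
  have xg : polar Q x g = 0 := by rw [polar_comm]; simpa [L] using congrFun hx 1
  have xu : polar Q x u = 0 := by rw [polar_comm]; simpa [L] using congrFun hx 2
  have xv : polar Q x v = 0 := by rw [polar_comm]; simpa [L] using congrFun hx 3
  obtain ⟨y0, hy0⟩ : ∃ y, polar Q x y ≠ 0 := by
    by_contra hc
    push Not at hc
    exact x0 (h.ca.nd x hc)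
  obtain ⟨y, yf, yg, yu, yv, xy⟩ : ∃ y, polar Q y f = 0 ∧ polar Q y g = 0 ∧ polar Q y u = 0 ∧
      polar Q y v = 0 ∧ polar Q x y ≠ 0 := by
    have a1 := h.fg1
    have a2 := h.symm.fg1
    have a3 := h.fu0 hu
    have a4 := h.gu0 hu
    have a5 := h.symm.fu0 hv
    have a6 := h.symm.gu0 hv
    have a7 := h.uu0 hu hu
    have a8 := h.symm.uu0 hv hv
    refine ⟨y0 - polar Q y0 g • f - polar Q y0 f • g - polar Q y0 v • u - polar Q y0 u • v,
      ?_, ?_, ?_, ?_, ?_⟩ <;>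
      simp only [polar_sub_left, polar_smul_left, polar_sub_right, polar_smul_right, smul_eq_mul]
    · rw [h.ff0, a2, polar_comm Q u, a3, polar_comm Q v, a6]; ring
    · rw [h.symm.ff0, a1, polar_comm Q u, a4, polar_comm Q v, a5]; ring
    · rw [a3, a4, a7, polar_comm Q v]
      rcases huv with e1 | ⟨rfl, rfl⟩
      · rw [e1]; ring
      · simp
    · rw [a5, a6, a8]
      rcases huv with e1 | ⟨rfl, rfl⟩
      · rw [e1]; ring
      · simp
    · rw [xf, xg, xu, xv]; simpa using hy0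
  have key : ∀ x y : V8 F, polar Q x f = 0 → polar Q x g = 0 → polar Q x v = 0 → polar Q y f = 0 →
      polar Q y g = 0 → polar Q y u = 0 → polar Q (p f x) (p g y) ≠ 0 →
      ∃ u' v', PU p f u' ∧ PU p g v' ∧ polar Q u' v' = 1 ∧ polar Q u' v = 0 ∧
        polar Q u v' = 0 := by
    intro x y xf xg xv yf yg yu hc
    refine ⟨(polar Q (p f x) (p g y))⁻¹ • p f x, p g y, smul _ (h.proj xf xg), h.symm.proj yg yf,
      ?_, ?_, ?_⟩
    · rw [polar_smul_left, smul_eq_mul, inv_mul_cancel₀ hc]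
    · rw [polar_smul_left, h.ca.adl f x v, h.bf, hv.1, xv, smul_zero]
    · rw [polar_comm, h.ca.adl, h.symm.bf, hu.1, yu]
  by_cases hc : polar Q (p f x) (p g y) = 0
  · refine key y x yf yg yv xf xg xu fun hc' => xy ?_
    rw [← h.sl x, ← h.sl y, polar_add_left, polar_add_right, polar_add_right, hc, h.ca.l1, h.ca.l1,
      h.q, h.q', polar_comm Q (p g x), hc']
    ring
  · exact key x y xf xg xv yf yg yu hc

theorem triple (h : Id2 Q p e f g) :
    ∃ u1 u2 u3, PU p f u1 ∧ PU p f u2 ∧ PU p f u3 ∧ polar Q (p u1 u2) u3 = -1 := by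
  obtain ⟨u1, v1, a1, b1, c1, -, -⟩ := h.pair (u := 0) (v := 0) ⟨by simp, by simp⟩
    ⟨by simp, by simp⟩ (.inr ⟨rfl, rfl⟩)
  obtain ⟨u2, v2, a2, b2, c2, d2, e2⟩ := h.pair a1 b1 (.inl c1)
  refine ⟨u1, u2, -p v1 v2, a1, a2, neg (h.symm.mem b1 b2), ?_⟩
  have := h.ca.l2 u1 u2 v1 v2
  rw [h.uv a1 b2, e2, zero_smul, neg_zero, polar_zero_left, add_zero, c1, c2, one_mul] at this
  rw [polar_neg_right, this]

end Id2

theorem CA.zorn {e1 : V8 F} (h : CA Q p e) (h0 : Q e1 = 0) (h1 : polar Q e e1 = 1) :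
    ∃ φ : V8 F ≃ₗ[F] V8 F, (∀ x y, φ (p (bar Q e x) (bar Q e y)) = pm (φ x) (φ y)) ∧
      φ e = pe F ∧ φ e1 = Pi.single (.inl 0) 1 := by
  obtain ⟨e2, H⟩ : ∃ e2, Id2 Q p e e1 e2 := by
    refine ⟨e - e1, h, by abel, h0, ?_, h1, ?_⟩
    · have : polar Q (e - e1) e1 = Q (e - e1 + e1) - Q (e - e1) - Q e1 := rfl
      rw [sub_add_cancel, h.Qe, h0, polar_sub_left, h1, polar_self, h0] at this
      linear_combination (exp := 1) this
    · rw [polar_sub_right, h1, polar_self, h.Qe]; norm_num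
  obtain ⟨u1, u2, u3, a1, a2, a3, hd⟩ := H.triple
  obtain ⟨v1, m23⟩ : ∃ v, p u2 u3 = -v := ⟨_, (neg_neg _).symm⟩
  obtain ⟨v2, m31⟩ : ∃ v, p u3 u1 = -v := ⟨_, (neg_neg _).symm⟩
  obtain ⟨v3, m12⟩ : ∃ v, p u1 u2 = -v := ⟨_, (neg_neg _).symm⟩
  have n1 : v1 = -p u2 u3 := by rw [m23, neg_neg]
  have n2 : v2 = -p u3 u1 := by rw [m31, neg_neg]
  have n3 : v3 = -p u1 u2 := by rw [m12, neg_neg]
  have b1 : PU p e2 v1 := n1 ▸ Id2.neg (H.mem a2 a3)
  have b2 : PU p e2 v2 := n2 ▸ Id2.neg (H.mem a3 a1)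
  have b3 : PU p e2 v3 := n3 ▸ Id2.neg (H.mem a1 a2)
  have m32 : p u3 u2 = v1 := by rw [H.anti a3 a2, n1]
  have m13 : p u1 u3 = v2 := by rw [H.anti a1 a3, n2]
  have m21 : p u2 u1 = v3 := by rw [H.anti a2 a1, n3]
  have z1 : ∀ {u u'}, PU p e1 u → polar Q u (p u u') = 0 := fun {u u'} hu => by
    have := h.l1 u e u'
    rwa [h.mul_one, H.Qu hu, zero_mul] at this
  have z2 : ∀ {u u'}, PU p e1 u → polar Q u (p u' u) = 0 := fun {u u'} hu => by
    have := h.r1 e u' u
    rwa [h.one_mul, H.Qu hu, mul_zero] at this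
  have g33 : polar Q u3 v3 = 1 := by rw [n3, polar_neg_right, polar_comm, hd, neg_neg]
  have g11 : polar Q u1 v1 = 1 := by
    rw [← m32, polar_comm, h.adr, H.bu a2, map_neg, ← n3, g33]
  have g22 : polar Q u2 v2 = 1 := by
    rw [← m13, polar_comm, h.adl, H.bu a1, map_neg, LinearMap.neg_apply, ← n3, g33]
  have g12 : polar Q u1 v2 = 0 := by rw [← m13, z1 a1]
  have g13 : polar Q u1 v3 = 0 := by rw [← m21, z2 a1]
  have g21 : polar Q u2 v1 = 0 := by rw [← m32, z2 a2]
  have g23 : polar Q u2 v3 = 0 := by rw [← m21, z1 a2]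
  have g31 : polar Q u3 v1 = 0 := by rw [← m32, z1 a3]
  have g32 : polar Q u3 v2 = 0 := by rw [← m13, z2 a3]
  have w1 : ∀ {v}, PU p e2 v → p v v1 = polar Q u2 v • u3 - polar Q u3 v • u2 := fun hv => by
    rw [← m32, H.vuu a3 a2 hv]
  have w2 : ∀ {v}, PU p e2 v → p v v2 = polar Q u3 v • u1 - polar Q u1 v • u3 := fun hv => by
    rw [← m13, H.vuu a1 a3 hv]
  have w3 : ∀ {v}, PU p e2 v → p v v3 = polar Q u1 v • u2 - polar Q u2 v • u1 := fun hv => by
    rw [← m21, H.vuu a2 a1 hv]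
  let ψ : V8 F →ₗ[F] V8 F :=
    { toFun := fun x => x (.inl 0) • e1 + x (.inl 1) • u1 + x (.inl 2) • u2 + x (.inl 3) • u3 +
        x (.inr 0) • e2 + x (.inr 1) • v1 + x (.inr 2) • v2 + x (.inr 3) • v3
      map_add' := fun x y => by simp only [Pi.add_apply]; module
      map_smul' := fun a x => by simp only [Pi.smul_apply, smul_eq_mul, RingHom.id_apply]; module }
  have hψ : ∀ x, ψ x = x (.inl 0) • e1 + x (.inl 1) • u1 + x (.inl 2) • u2 + x (.inl 3) • u3 +
        x (.inr 0) • e2 + x (.inr 1) • v1 + x (.inr 2) • v2 + x (.inr 3) • v3 := fun _ => rfl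
  have c := polar_comm Q
  have inj : Function.Injective ψ := by
    rw [injective_iff_map_eq_zero]
    intro x hx
    have t : ∀ z, polar Q z (ψ x) = 0 := fun z => by rw [hx, polar_zero_right]
    simp only [hψ, polar_add_right, polar_smul_right, smul_eq_mul] at t
    refine V8_ext ?_ ?_ ?_ ?_ ?_ ?_ ?_ ?_
    · simpa [H.symm.fg1, H.symm.ff0, H.gu0 a1, H.gu0 a2, H.gu0 a3, H.symm.fu0 b1, H.symm.fu0 b2,
        H.symm.fu0 b3] using t e2
    · simpa [c v1 e1, c v1 e2, c v1 u1, c v1 u2, c v1 u3, g11, g21, g31, H.symm.fu0 b1,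
        H.symm.gu0 b1, H.symm.uu0 b1 b1, H.symm.uu0 b1 b2, H.symm.uu0 b1 b3, -polar_self] using t v1
    · simpa [c v2 e1, c v2 e2, c v2 u1, c v2 u2, c v2 u3, g12, g22, g32, H.symm.fu0 b2,
        H.symm.gu0 b2, H.symm.uu0 b2 b1, H.symm.uu0 b2 b2, H.symm.uu0 b2 b3, -polar_self] using t v2
    · simpa [c v3 e1, c v3 e2, c v3 u1, c v3 u2, c v3 u3, g13, g23, g33, H.symm.fu0 b3,
        H.symm.gu0 b3, H.symm.uu0 b3 b1, H.symm.uu0 b3 b2, H.symm.uu0 b3 b3, -polar_self] using t v3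
    · simpa [H.fg1, H.ff0, H.fu0 a1, H.fu0 a2, H.fu0 a3, H.symm.gu0 b1, H.symm.gu0 b2,
        H.symm.gu0 b3] using t e1
    · simpa [c u1 e1, c u1 e2, g11, g12, g13, H.fu0 a1, H.gu0 a1, H.uu0 a1 a1, H.uu0 a1 a2,
        H.uu0 a1 a3, -polar_self] using t u1
    · simpa [c u2 e1, c u2 e2, g21, g22, g23, H.fu0 a2, H.gu0 a2, H.uu0 a2 a1, H.uu0 a2 a2,
        H.uu0 a2 a3, -polar_self] using t u2
    · simpa [c u3 e1, c u3 e2, g31, g32, g33, H.fu0 a3, H.gu0 a3, H.uu0 a3 a1, H.uu0 a3 a2,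
        H.uu0 a3 a3, -polar_self] using t u3
  have hb : ∀ x, bar Q e (ψ x) = x (.inr 0) • e1 - x (.inl 1) • u1 - x (.inl 2) • u2 -
      x (.inl 3) • u3 + x (.inl 0) • e2 - x (.inr 1) • v1 - x (.inr 2) • v2 - x (.inr 3) • v3 := by
    intro x
    simp only [bar, hψ, polar_add_right, polar_smul_right, H.t, H.t', H.eu0 a1, H.eu0 a2, H.eu0 a3,
      H.symm.eu0 b1, H.symm.eu0 b2, H.symm.eu0 b3, smul_eq_mul]
    rw [← H.s]
    module
  have hm : ∀ x y, p (bar Q e (ψ x)) (bar Q e (ψ y)) = ψ (pm x y) := by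
    intro x y
    rw [hb, hb, hψ]
    simp only [map_add, map_sub, map_smul, LinearMap.add_apply, LinearMap.sub_apply,
      LinearMap.smul_apply, H.ff, H.gf, H.symm.ff, H.symm.gf, a1.1, a1.2, a2.1, a2.2, a3.1, a3.2,
      b1.1, b1.2, b2.1, b2.2, b3.1, b3.2, H.gu a1, H.gu a2, H.gu a3, H.ug a1, H.ug a2, H.ug a3,
      H.symm.gu b1, H.symm.gu b2, H.symm.gu b3, H.symm.ug b1, H.symm.ug b2, H.symm.ug b3,
      H.sq a1, H.sq a2, H.sq a3, m12, m13, m21, m23, m31, m32,
      H.uv a1 b1, H.uv a1 b2, H.uv a1 b3, H.uv a2 b1, H.uv a2 b2, H.uv a2 b3, H.uv a3 b1,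
      H.uv a3 b2, H.uv a3 b3, H.symm.uv b1 a1, H.symm.uv b1 a2, H.symm.uv b1 a3, H.symm.uv b2 a1,
      H.symm.uv b2 a2, H.symm.uv b2 a3, H.symm.uv b3 a1, H.symm.uv b3 a2, H.symm.uv b3 a3,
      c v1 u1, c v1 u2, c v1 u3, c v2 u1, c v2 u2, c v2 u3, c v3 u1, c v3 u2, c v3 u3,
      w1 b1, w1 b2, w1 b3, w2 b1, w2 b2, w2 b3, w3 b1, w3 b2, w3 b3,
      g11, g12, g13, g21, g22, g23, g31, g32, g33, pm, Sum.elim_inl, Sum.elim_inr,
      Matrix.cons_val_zero, Matrix.cons_val_one, Matrix.cons_val]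
    module
  let E := LinearEquiv.ofInjectiveEndo ψ inj
  have hE : ∀ x, E x = ψ x := fun _ => rfl
  refine ⟨E.symm, fun x y => ?_, ?_, ?_⟩
  · rw [LinearEquiv.symm_apply_eq, hE, ← hm, ← hE, ← hE, E.apply_symm_apply, E.apply_symm_apply]
  · rw [LinearEquiv.symm_apply_eq, hE, hψ, ← H.s]
    simp [pe]
  · rw [LinearEquiv.symm_apply_eq, hE, hψ]
    simp

end Cfsg.Agent.H12.Tr
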