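import Cfsg.Agent.H12.TrD

/-! Normal form of an order-three semilinear automorphism of the split para-octonions. -/

set_option autoImplicit false

namespace Cfsg.Agent.H12.Tr

variable {F : Type*} [Field F]

namespace N4

def D (a b c : Fin 3 → F) : F :=
  a 0 * (b 1 * c 2 - b 2 * c 1) + a 1 * (b 2 * c 0 - b 0 * c 2) + a 2 * (b 0 * c 1 - b 1 * c 0)

def iU (u : Fin 3 → F) : V8 F := Sum.elim ![0, u 0, u 1, u 2] ![0, 0, 0, 0]

def x0 (F : Type*) [Field F] : V8 F := Sum.elim ![1, 0, 0, 0] ![0, 0, 0, 0]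
def y0 (F : Type*) [Field F] : V8 F := Sum.elim ![0, 0, 0, 0] ![1, 0, 0, 0]

def kap (a b c : Fin 3 → F) : V8 F →ₗ[F] V8 F where
  toFun x := Sum.elim
    ![x (.inl 0), a 0 * x (.inl 1) + b 0 * x (.inl 2) + c 0 * x (.inl 3),
      a 1 * x (.inl 1) + b 1 * x (.inl 2) + c 1 * x (.inl 3),
      a 2 * x (.inl 1) + b 2 * x (.inl 2) + c 2 * x (.inl 3)]
    ![x (.inr 0),
      (b 1 * c 2 - b 2 * c 1) * x (.inr 1) + (c 1 * a 2 - c 2 * a 1) * x (.inr 2) +
        (a 1 * b 2 - a 2 * b 1) * x (.inr 3),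
      (b 2 * c 0 - b 0 * c 2) * x (.inr 1) + (c 2 * a 0 - c 0 * a 2) * x (.inr 2) +
        (a 2 * b 0 - a 0 * b 2) * x (.inr 3),
      (b 0 * c 1 - b 1 * c 0) * x (.inr 1) + (c 0 * a 1 - c 1 * a 0) * x (.inr 2) +
        (a 0 * b 1 - a 1 * b 0) * x (.inr 3)]
  map_add' x y := by apply V8_ext <;> simp <;> ring
  map_smul' t x := by apply V8_ext <;> simp <;> ring

theorem kap_mul {a b c : Fin 3 → F} (h : D a b c = 1) (x y : V8 F) :
    kap a b c (pm x y) = pm (kap a b c x) (kap a b c y) := by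
  unfold D at h
  apply V8_ext <;> simp [kap, pm]
  · linear_combination (-(x (.inl 1) * y (.inr 1) + x (.inl 2) * y (.inr 2) +
      x (.inl 3) * y (.inr 3))) * h
  · linear_combination (a 0 * (x (.inr 2) * y (.inr 3) - x (.inr 3) * y (.inr 2)) +
      b 0 * (x (.inr 3) * y (.inr 1) - x (.inr 1) * y (.inr 3)) +
      c 0 * (x (.inr 1) * y (.inr 2) - x (.inr 2) * y (.inr 1))) * h
  · linear_combination (a 1 * (x (.inr 2) * y (.inr 3) - x (.inr 3) * y (.inr 2)) +
      b 1 * (x (.inr 3) * y (.inr 1) - x (.inr 1) * y (.inr 3)) +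
      c 1 * (x (.inr 1) * y (.inr 2) - x (.inr 2) * y (.inr 1))) * h
  · linear_combination (a 2 * (x (.inr 2) * y (.inr 3) - x (.inr 3) * y (.inr 2)) +
      b 2 * (x (.inr 3) * y (.inr 1) - x (.inr 1) * y (.inr 3)) +
      c 2 * (x (.inr 1) * y (.inr 2) - x (.inr 2) * y (.inr 1))) * h
  · linear_combination (-(x (.inr 1) * y (.inl 1) + x (.inr 2) * y (.inl 2) +
      x (.inr 3) * y (.inl 3))) * h
  · ring
  · ring
  · ring

theorem kap_inj {a b c : Fin 3 → F} (h : D a b c = 1) : Function.Injective (kap a b c) := by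
  rw [injective_iff_map_eq_zero]
  intro x hx
  unfold D at h
  have e0 := congrFun hx (.inl 0)
  have e1 := congrFun hx (.inl 1)
  have e2 := congrFun hx (.inl 2)
  have e3 := congrFun hx (.inl 3)
  have f0 := congrFun hx (.inr 0)
  have f1 := congrFun hx (.inr 1)
  have f2 := congrFun hx (.inr 2)
  have f3 := congrFun hx (.inr 3)
  simp [kap] at e0 e1 e2 e3 f0 f1 f2 f3
  apply V8_ext <;> simp only [Pi.zero_apply]
  · exact e0
  · linear_combination (b 1 * c 2 - b 2 * c 1) * e1 + (b 2 * c 0 - b 0 * c 2) * e2 +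
      (b 0 * c 1 - b 1 * c 0) * e3 - x (.inl 1) * h
  · linear_combination (c 1 * a 2 - c 2 * a 1) * e1 + (c 2 * a 0 - c 0 * a 2) * e2 +
      (c 0 * a 1 - c 1 * a 0) * e3 - x (.inl 2) * h
  · linear_combination (a 1 * b 2 - a 2 * b 1) * e1 + (a 2 * b 0 - a 0 * b 2) * e2 +
      (a 0 * b 1 - a 1 * b 0) * e3 - x (.inl 3) * h
  · exact f0
  · linear_combination a 0 * f1 + a 1 * f2 + a 2 * f3 - x (.inr 1) * h
  · linear_combination b 0 * f1 + b 1 * f2 + b 2 * f3 - x (.inr 2) * h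
  · linear_combination c 0 * f1 + c 1 * f2 + c 2 * f3 - x (.inr 3) * h

theorem agree (ψ : F ≃+* F) (f g : V8 F →+ V8 F) (fs : ∀ a x, f (a • x) = ψ a • f x)
    (gs : ∀ a x, g (a • x) = ψ a • g x) (fm : ∀ x y, f (pm x y) = pm (f x) (f y))
    (gm : ∀ x y, g (pm x y) = pm (g x) (g y)) (h0 : f (x0 F) = g (x0 F))
    (h1 : f (y0 F) = g (y0 F)) (k0 : f (iU ![1, 0, 0]) = g (iU ![1, 0, 0]))
    (k1 : f (iU ![0, 1, 0]) = g (iU ![0, 1, 0])) (k2 : f (iU ![0, 0, 1]) = g (iU ![0, 0, 1]))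
    (x : V8 F) : f x = g x := by
  have e : x = x (.inl 0) • x0 F + x (.inr 0) • y0 F + x (.inl 1) • iU ![1, 0, 0] +
      x (.inl 2) • iU ![0, 1, 0] + x (.inl 3) • iU ![0, 0, 1] +
      x (.inr 1) • pm (iU ![0, 0, 1]) (iU ![0, 1, 0]) +
      x (.inr 2) • pm (iU ![1, 0, 0]) (iU ![0, 0, 1]) +
      x (.inr 3) • pm (iU ![0, 1, 0]) (iU ![1, 0, 0]) := by
    apply V8_ext <;> simp [x0, y0, iU, pm]
  rw [e]
  simp only [map_add, fs, gs, fm, gm, h0, h1, k0, k1, k2]

/-- assembling the conjugating automorphism -/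
theorem fin (ψ : F ≃+* F) (ρ τ : V8 F →+ V8 F) (hs : ∀ a x, ρ (a • x) = ψ a • ρ x)
    (ts : ∀ a x, τ (a • x) = ψ a • τ x) (hm : ∀ x y, ρ (pm x y) = pm (ρ x) (ρ y))
    (tm : ∀ x y, τ (pm x y) = pm (τ x) (τ y)) (h0 : ρ (x0 F) = x0 F) (h1 : ρ (y0 F) = y0 F)
    (t0 : τ (x0 F) = x0 F) (t1 : τ (y0 F) = y0 F) {a b c : Fin 3 → F} (h : D a b c = 1)
    (k0 : ρ (iU a) = kap a b c (τ (iU ![1, 0, 0])))
    (k1 : ρ (iU b) = kap a b c (τ (iU ![0, 1, 0])))
    (k2 : ρ (iU c) = kap a b c (τ (iU ![0, 0, 1]))) :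
    ∃ χ : V8 F ≃ₗ[F] V8 F, (∀ x y, χ (pm x y) = pm (χ x) (χ y)) ∧ χ (pe F) = pe F ∧
      ∀ x, χ (ρ x) = τ (χ x) := by
  let κ := LinearEquiv.ofInjectiveEndo _ (kap_inj h)
  have hκ : ∀ x, κ x = kap a b c x := fun _ => rfl
  have e0 : kap a b c (x0 F) = x0 F := by apply V8_ext <;> simp [kap, x0]
  have e1 : kap a b c (y0 F) = y0 F := by apply V8_ext <;> simp [kap, y0]
  have e2 : kap a b c (pe F) = pe F := by apply V8_ext <;> simp [kap, pe]
  have u0 : kap a b c (iU ![1, 0, 0]) = iU a := by apply V8_ext <;> simp [kap, iU]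
  have u1 : kap a b c (iU ![0, 1, 0]) = iU b := by apply V8_ext <;> simp [kap, iU]
  have u2 : kap a b c (iU ![0, 0, 1]) = iU c := by apply V8_ext <;> simp [kap, iU]
  have key := agree ψ (ρ.comp (kap a b c).toAddMonoidHom) ((kap a b c).toAddMonoidHom.comp τ)
    (fun t x => by simp [hs]) (fun t x => by simp [ts]) (fun x y => by simp [kap_mul h, hm])
    (fun x y => by simp [kap_mul h, tm]) (by simp [e0, h0, t0]) (by simp [e1, h1, t1])
    (by simp [u0, k0]) (by simp [u1, k1]) (by simp [u2, k2])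
  refine ⟨κ.symm, fun x y => κ.injective ?_, κ.injective ?_, fun x => κ.injective ?_⟩
  · rw [κ.apply_symm_apply, hκ, kap_mul h, ← hκ, ← hκ, κ.apply_symm_apply, κ.apply_symm_apply]
  · rw [κ.apply_symm_apply, hκ, e2]
  · have := key (κ.symm x)
    simp only [AddMonoidHom.comp_apply, LinearMap.toAddMonoidHom_coe] at this
    rw [κ.apply_symm_apply, hκ, ← this, ← hκ, κ.apply_symm_apply]

theorem semi (ψ : F ≃+* F) (hψ : ∀ a, ψ (ψ (ψ a)) = a) (h1 : ψ ≠ 1)
    (r : (Fin 3 → F) →+ (Fin 3 → F)) (rs : ∀ a x, r (a • x) = ψ a • r x)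
    (rt : ∀ x, r (r (r x)) = x) (rd : ∀ a b c, D (r a) (r b) (r c) = ψ (D a b c)) :
    ∃ a b c, r a = a ∧ r b = b ∧ r c = c ∧ D a b c = 1 := by
  obtain ⟨t, ht⟩ : ∃ t, ψ t ≠ t := by
    by_contra h; push Not at h; exact h1 (RingEquiv.ext h)
  have ht2 : ψ (ψ t) ≠ t := fun e => ht (by have := congrArg ψ e; rw [hψ] at this; exact this.symm)
  have key : ∀ n v : Fin 3 → F, n 0 * v 0 + n 1 * v 1 + n 2 * v 2 ≠ 0 →
      ∃ m, r m = m ∧ n 0 * m 0 + n 1 * m 1 + n 2 * m 2 ≠ 0 := by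
    intro n v hv
    by_contra h
    push Not at h
    have k : ∀ l : F, _ := fun l => h (l • v + r (l • v) + r (r (l • v))) (by
      rw [map_add, map_add, rt]; abel)
    have k1 := k 1
    have k2 := k t
    have k3 := k (t * t)
    simp only [rs, map_one, map_mul, Pi.add_apply, Pi.smul_apply, smul_eq_mul] at k1 k2 k3
    apply mul_ne_zero (mul_ne_zero (sub_ne_zero.2 ht) (sub_ne_zero.2 ht2)) hv
    linear_combination k3 - (ψ t + ψ (ψ t)) * k2 + ψ t * ψ (ψ t) * k1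
  obtain ⟨a, ha, a0⟩ := key ![1, 0, 0] ![1, 0, 0] (by simp)
  obtain ⟨b, hb, b0⟩ := key ![-a 1, a 0, 0] ![0, 1, 0] (by simpa using a0)
  obtain ⟨c, hc, c0⟩ := key ![a 1 * b 2 - a 2 * b 1, a 2 * b 0 - a 0 * b 2, a 0 * b 1 - a 1 * b 0]
    ![0, 0, 1] (by simp at b0 ⊢; intro e; apply b0; linear_combination e)
  have d0 : D a b c ≠ 0 := fun e => c0 (by simp [D] at e ⊢; linear_combination e)
  have d1 := rd a b c
  rw [ha, hb, hc] at d1
  refine ⟨(D a b c)⁻¹ • a, b, c, by rw [rs, map_inv₀, ← d1, ha], hb, hc, ?_⟩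
  rw [← inv_mul_cancel₀ d0]
  generalize (D a b c)⁻¹ = s
  simp only [D, Pi.smul_apply, smul_eq_mul]; ring

theorem lin (h3 : (3 : F) ≠ 0) (r : (Fin 3 → F) →+ (Fin 3 → F))
    (rs : ∀ (a : F) x, r (a • x) = a • r x) (rt : ∀ x, r (r (r x)) = x)
    (rd : ∀ a b c, D (r a) (r b) (r c) = D a b c) {a : Fin 3 → F} (ha : r a = a) (a0 : a ≠ 0) :
    (∀ u, r u = u) ∨ ∃ c, D c (r (r c)) (r c) = 1 := by
  have co : ∀ {b : Fin 3 → F}, b + r b + r (r b) = 0 → ∀ i, r (r b) i = -b i - r b i :=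
    fun e i => by have := congrFun e i; simp at this; linear_combination this
  by_cases hq : ∃ b, b + r b + r (r b) = 0 ∧ D a b (r b) ≠ 0
  · obtain ⟨b, hb, d0⟩ := hq
    right
    refine ⟨(-(3 * D a b (r b))⁻¹) • a + b, ?_⟩
    rw [← inv_mul_cancel₀ (mul_ne_zero h3 d0)]
    generalize (3 * D a b (r b))⁻¹ = s
    simp only [map_add, rs, ha, D, Pi.add_apply, Pi.smul_apply, smul_eq_mul, co hb]; ring
  push Not at hq
  have W : ∀ {b : Fin 3 → F}, b + r b + r (r b) = 0 → r b + r (r b) + r (r (r b)) = 0 :=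
    fun e => by rw [← map_add, ← map_add, e, map_zero]
  have p1 : ∀ {b c : Fin 3 → F}, b + r b + r (r b) = 0 → c + r c + r (r c) = 0 →
      D a b (r c) = D a (r b) c := fun {b c} hb hc => by
    have e := hq (b + c) (by
      rw [map_add, map_add]; linear_combination (exp := 1) hb + hc)
    have e1 := hq b hb
    have e2 := hq c hc
    simp only [map_add, D, Pi.add_apply] at e e1 e2 ⊢
    linear_combination e - e1 - e2
  have sum : ∀ {b : Fin 3 → F} (c : Fin 3 → F), b + r b + r (r b) = 0 →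
      D a (r b) c = D a b c → D a (r (r b)) c = D a b c → D a b c = 0 := fun {b} c hb e1 e2 => by
    apply mul_left_cancel₀ h3
    simp only [D, co hb] at e1 e2 ⊢
    linear_combination -e1 - e2
  have z : ∀ {b : Fin 3 → F}, b + r b + r (r b) = 0 → ∀ u, D a b u = 0 := fun {b} hb u => by
    have hc : (u + u - r u - r (r u)) + r (u + u - r u - r (r u)) +
        r (r (u + u - r u - r (r u))) = 0 := by
      simp only [map_add, map_sub, rt]; abel
    have hf : r (u + r u + r (r u)) = u + r u + r (r u) := by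
      simp only [map_add, rt]; abel
    set c := u + u - r u - r (r u) with hcd
    set f := u + r u + r (r u) with hfd
    have i1 : ∀ x y, D a (r x) (r y) = D a x y := fun x y => by
      conv_lhs => rw [← ha]
      exact rd _ _ _
    have z1 : D a b c = 0 := by
      have e1 := p1 (W hb) hc
      have e2 := p1 (W (W hb)) hc
      rw [i1] at e1
      rw [i1, rt] at e2
      exact sum c hb e2 e1.symm
    have z2 : D a b f = 0 := by
      have e1 := i1 b f
      have e2 := i1 (r b) f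
      rw [hf] at e1 e2
      exact sum f hb e1 (e2.trans e1)
    apply mul_left_cancel₀ h3
    simp only [D, hcd, hfd, Pi.add_apply, Pi.sub_apply] at z1 z2 ⊢
    linear_combination z1 + z2
  left
  intro u
  have hb : (r u - u) + r (r u - u) + r (r (r u - u)) = 0 := by
    simp only [map_sub, rt]; abel
  set b := r u - u with hbd
  obtain ⟨i, hi⟩ := Function.ne_iff.1 a0
  have z0 := z hb ![1, 0, 0]
  have z1 := z hb ![0, 1, 0]
  have z2 := z hb ![0, 0, 1]
  simp [D] at z0 z1 z2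
  have e : a i • b = b i • a := by
    ext j
    fin_cases i <;> fin_cases j <;> simp <;>
      first | ring1 | linear_combination z0 | linear_combination -z0 | linear_combination z1 |
        linear_combination -z1 | linear_combination z2 | linear_combination -z2
  have e1 := congrArg r e
  have e2 := congrArg r e1
  simp only [rs, ha] at e1 e2
  have e3 : b i * a i * 3 = 0 := by
    have k := congrFun hb i
    have k0 := congrFun e i
    have k1 := congrFun e1 i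
    have k2 := congrFun e2 i
    simp at k k0 k1 k2
    linear_combination a i * k - k1 - k2
  have bi : b i = 0 := by simpa [h3, show a i ≠ 0 from hi] using e3
  rw [bi, zero_smul, smul_eq_zero] at e
  exact sub_eq_zero.1 (e.resolve_left hi)

end N4

open N4 in
theorem rho_nf [Finite F] (h3 : (3 : F) ≠ 0) (ψ : F ≃+* F) (hψ : ∀ a, ψ (ψ (ψ a)) = a)
    (ρ : V8 F →+ V8 F) (hs : ∀ a x, ρ (a • x) = ψ a • ρ x)
    (hm : ∀ x y, ρ (pm x y) = pm (ρ x) (ρ y)) (ht : ∀ x, ρ (ρ (ρ x)) = x)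
    (he : ρ (pe F) = pe F) (h1 : ρ (Pi.single (.inl 0) 1) = Pi.single (.inl 0) 1)
    (hf : ψ = 1 → ∃ w, ρ w = w ∧ ∃ i : Fin 4, i ≠ 0 ∧ (w (.inl i) ≠ 0 ∨ w (.inr i) ≠ 0)) :
    ∃ χ : V8 F ≃ₗ[F] V8 F, (∀ x y, χ (pm x y) = pm (χ x) (χ y)) ∧ χ (pe F) = pe F ∧
      ((∀ x, χ (ρ x) = fun i => ψ (χ x i)) ∨ ∀ x, χ (ρ x) = pi3 (χ x)) := by
  have hx : ρ (x0 F) = x0 F := by
    have : x0 F = Pi.single (.inl 0) 1 := by apply V8_ext <;> simp [x0]
    rw [this, h1]
  have hy : ρ (y0 F) = y0 F := by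
    have : y0 F = pe F - x0 F := by apply V8_ext <;> simp [x0, y0, pe]
    rw [this, map_sub, he, hx]
  have ia : ∀ u v : Fin 3 → F, iU (u + v) = iU u + iU v := fun u v => by
    apply V8_ext <;> simp [iU]
  have is : ∀ (t : F) (u : Fin 3 → F), iU (t • u) = t • iU u := fun t u => by
    apply V8_ext <;> simp [iU]
  have ii : ∀ {u v : Fin 3 → F}, iU u = iU v → u = v := fun e => by
    ext j; fin_cases j
    exacts [congrFun e (.inl 1), congrFun e (.inl 2), congrFun e (.inl 3)]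
  have hU : ∀ u : Fin 3 → F, ∃ v, ρ (iU u) = iU v := fun u => by
    have e : pm (iU u) (x0 F) = -iU u := by apply V8_ext <;> simp [iU, x0, pm]
    have e1 := congrArg ρ e
    rw [hm, hx, map_neg] at e1
    generalize ρ (iU u) = w at e1
    have e0 := congrFun e1 (.inl 0)
    have f0 := congrFun e1 (.inr 0)
    have f1 := congrFun e1 (.inr 1)
    have f2 := congrFun e1 (.inr 2)
    have f3 := congrFun e1 (.inr 3)
    simp [pm, x0] at e0 f0 f1 f2 f3
    refine ⟨![w (.inl 1), w (.inl 2), w (.inl 3)], ?_⟩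
    apply V8_ext <;> simp [iU, *]
    simpa [e0] using f0
  choose r0 hr0 using hU
  let r : (Fin 3 → F) →+ (Fin 3 → F) := AddMonoidHom.mk' r0 fun u v => ii (by
    rw [← hr0, ia, map_add, hr0, hr0, ia])
  have hr : ∀ u, ρ (iU u) = iU (r u) := hr0
  have rs : ∀ a x, r (a • x) = ψ a • r x := fun a x => ii (by rw [← hr, is, hs, hr, is])
  have rt : ∀ x, r (r (r x)) = x := fun x => ii (by rw [← hr, ← hr, ← hr, ht])
  have rd : ∀ a b c, D (r a) (r b) (r c) = ψ (D a b c) := fun a b c => by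
    have e : ∀ a b c : Fin 3 → F, pm (pm (iU a) (iU b)) (iU c) = D a b c • y0 F := fun a b c => by
      apply V8_ext <;> simp [iU, y0, pm, D]
      ring
    have e1 := congrArg ρ (e a b c)
    rw [hm, hm, hr, hr, hr, e, hs, hy] at e1
    simpa [y0] using congrFun e1 (.inr 0)
  let τ : V8 F →+ V8 F := AddMonoidHom.mk' (fun x i => ψ (x i)) fun x y => by ext i; simp
  have first : ∀ a b c, r a = a → r b = b → r c = c → D a b c = 1 →
      ∃ χ : V8 F ≃ₗ[F] V8 F, (∀ x y, χ (pm x y) = pm (χ x) (χ y)) ∧ χ (pe F) = pe F ∧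
      ((∀ x, χ (ρ x) = fun i => ψ (χ x i)) ∨ ∀ x, χ (ρ x) = pi3 (χ x)) := by
    intro a b c ha hb hc h
    obtain ⟨χ, k1, k2, k3⟩ := fin ψ ρ τ hs (fun t x => by ext i; simp [τ]) hm
      (fun x y => by apply V8_ext <;> simp [τ, pm]) hx hy (by apply V8_ext <;> simp [τ, x0])
      (by apply V8_ext <;> simp [τ, y0]) h
      (by rw [hr, ha]; apply V8_ext <;> simp [τ, iU, kap])
      (by rw [hr, hb]; apply V8_ext <;> simp [τ, iU, kap])
      (by rw [hr, hc]; apply V8_ext <;> simp [τ, iU, kap])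
    exact ⟨χ, k1, k2, Or.inl k3⟩
  by_cases hψ1 : ψ = 1
  swap
  · obtain ⟨a, b, c, ha, hb, hc, h⟩ := semi ψ hψ hψ1 r rs rt rd
    exact first a b c ha hb hc h
  obtain ⟨w, hw, i, hi, hwi⟩ := hf hψ1
  have hs' : ∀ (a : F) x, ρ (a • x) = a • ρ x := fun a x => by rw [hs, hψ1]; rfl
  have rs' : ∀ (a : F) x, r (a • x) = a • r x := fun a x => by rw [rs, hψ1]; rfl
  obtain ⟨a, ha, a0⟩ : ∃ a, r a = a ∧ a ≠ 0 := by
    rcases hwi with hwi | hwi
    · have e : iU ![w (.inl 1), w (.inl 2), w (.inl 3)] = w (.inl 0) • y0 F - pm w (x0 F) := by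
        apply V8_ext <;> simp [iU, x0, y0, pm]
      refine ⟨_, ii (by rw [← hr, e, map_sub, hs', hm, hw, hx, hy]), fun k => hwi ?_⟩
      fin_cases i
      exacts [(hi rfl).elim, congrFun k 0, congrFun k 1, congrFun k 2]
    · have e : ∀ u : Fin 3 → F, pm (pm w (y0 F) - w (.inr 0) • x0 F) (iU u) =
          (w (.inr 1) * u 0 + w (.inr 2) * u 1 + w (.inr 3) * u 2) • y0 F := fun u => by
        apply V8_ext <;> simp [iU, x0, y0, pm]
        ring
      have e1 : ∀ u : Fin 3 → F, w (.inr 1) * r u 0 + w (.inr 2) * r u 1 + w (.inr 3) * r u 2 =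
          w (.inr 1) * u 0 + w (.inr 2) * u 1 + w (.inr 3) * u 2 := fun u => by
        have k := congrArg ρ (e u)
        rw [hm, map_sub, hm, hs', hw, hy, hx, hr, e, hs', hy] at k
        simpa [y0] using congrFun k (.inr 0)
      obtain ⟨u, hu⟩ : ∃ u : Fin 3 → F,
          w (.inr 1) * u 0 + w (.inr 2) * u 1 + w (.inr 3) * u 2 ≠ 0 := by
        fin_cases i
        exacts [(hi rfl).elim, ⟨![1, 0, 0], by simpa using hwi⟩, ⟨![0, 1, 0], by simpa using hwi⟩,
          ⟨![0, 0, 1], by simpa using hwi⟩]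
      refine ⟨u + r u + r (r u), by simp only [map_add, rt]; abel, fun k => ?_⟩
      apply mul_ne_zero h3 hu
      have k0 := congrFun k 0
      have k1 := congrFun k 1
      have k2 := congrFun k 2
      simp only [Pi.add_apply, Pi.zero_apply] at k0 k1 k2
      linear_combination w (.inr 1) * k0 + w (.inr 2) * k1 + w (.inr 3) * k2 - 2 * e1 u - e1 (r u)
  rcases lin h3 r rs' rt (fun a b c => by rw [rd, hψ1]; rfl) ha a0 with h | ⟨c, h⟩
  · exact first ![1, 0, 0] ![0, 1, 0] ![0, 0, 1] (h _) (h _) (h _) (by simp [D])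
  · let π : V8 F →+ V8 F := AddMonoidHom.mk' pi3 fun x y => rfl
    have hπ : ∀ x, π x = Sum.elim ![x (.inl 0), x (.inl 2), x (.inl 3), x (.inl 1)]
        ![x (.inr 0), x (.inr 2), x (.inr 3), x (.inr 1)] := fun x => by apply V8_ext <;> rfl
    obtain ⟨χ, k1, k2, k3⟩ := fin ψ ρ π hs
      (fun t x => by rw [hψ1]; rfl) hm
      (fun x y => by apply V8_ext <;> simp [hπ, pm] <;> ring) hx hy
      (by apply V8_ext <;> simp [hπ, x0]) (by apply V8_ext <;> simp [hπ, y0]) h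
      (by rw [hr]; apply V8_ext <;> simp [hπ, iU, kap])
      (by rw [hr, rt]; apply V8_ext <;> simp [hπ, iU, kap])
      (by rw [hr]; apply V8_ext <;> simp [hπ, iU, kap])
    exact ⟨χ, k1, k2, Or.inr k3⟩

end Cfsg.Agent.H12.Tr
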