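import Cfsg.Agent.H12.TrD

/-! Normal form of a twisted composition at an idempotent (assembly of N1, N3, N4). -/

set_option autoImplicit false

namespace Cfsg.Agent.H12.Tr

open QuadraticMap

variable {F : Type*} [Field F]

namespace N5

theorem tern {K : Type*} [Field K] [Finite K] (c1 c2 c3 c4 c5 c6 : K) :
    ∃ x y z : K, ¬ (x = 0 ∧ y = 0 ∧ z = 0) ∧
      c1 * (x * x) + c2 * (y * y) + c3 * (z * z) + c4 * (x * y) + c5 * (x * z) + c6 * (y * z) = 0 := by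
  classical
  letI := Fintype.ofFinite K
  obtain ⟨p, hp⟩ := CharP.exists K
  have hpp : p.Prime := CharP.char_is_prime K p
  let t : K → Fin 3 → Fin 3 → MvPolynomial (Fin 3) K := fun c i j =>
    MvPolynomial.C c * (MvPolynomial.X i * MvPolynomial.X j)
  have ht : ∀ c i j, (t c i j).totalDegree ≤ 2 := fun c i j =>
    (MvPolynomial.totalDegree_mul _ _).trans (by
      rw [MvPolynomial.totalDegree_C, zero_add]
      exact (MvPolynomial.totalDegree_mul _ _).trans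
        (by rw [MvPolynomial.totalDegree_X, MvPolynomial.totalDegree_X]))
  have ha : ∀ f g : MvPolynomial (Fin 3) K, f.totalDegree ≤ 2 → g.totalDegree ≤ 2 →
      (f + g).totalDegree ≤ 2 := fun f g hf hg =>
    (MvPolynomial.totalDegree_add f g).trans (max_le hf hg)
  let f := t c1 0 0 + t c2 1 1 + t c3 2 2 + t c4 0 1 + t c5 0 2 + t c6 1 2
  have hf : f.totalDegree < Fintype.card (Fin 3) :=
    lt_of_le_of_lt (ha _ _ (ha _ _ (ha _ _ (ha _ _ (ha _ _ (ht _ _ _) (ht _ _ _)) (ht _ _ _))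
      (ht _ _ _)) (ht _ _ _)) (ht _ _ _)) (by simp)
  have hd := char_dvd_card_solutions p hf
  by_contra hn
  push Not at hn
  have h1 : Fintype.card {x : Fin 3 → K // MvPolynomial.eval x f = 0} = 1 := by
    rw [Fintype.card_eq_one_iff]
    refine ⟨⟨0, by simp [f, t]⟩, ?_⟩
    rintro ⟨x, hx⟩
    apply Subtype.ext
    by_contra hx0
    refine hn (x 0) (x 1) (x 2) (fun h0 h1 h2 => hx0 ?_) (by simpa [f, t] using hx)
    ext i; fin_cases i <;> assumption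
  rw [h1] at hd
  exact hpp.one_lt.ne' (Nat.dvd_one.1 hd)

/-- three independent vectors -/
def Ind (e a b : V8 F) : Prop := ∀ x y z : F, x • e + y • a + z • b = 0 → x = 0 ∧ y = 0 ∧ z = 0

theorem ind_of {e a b : V8 F} (h : LinearIndependent F ![e, a, b]) : Ind e a b := by
  intro x y z hx
  have := Fintype.linearIndependent_iff.1 h ![x, y, z] (by simpa [Fin.sum_univ_three] using hx)
  exact ⟨this 0, this 1, this 2⟩

variable {Q : QuadraticForm F (V8 F)} {p : V8 F →ₗ[F] V8 F →ₗ[F] V8 F} {σ : F ≃+* F}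
  {ρ : V8 F →+ V8 F} {e : V8 F}

theorem pol (h : Rho Q p σ ρ) (x y : V8 F) : polar Q (ρ x) (ρ y) = σ (polar Q x y) := by
  simp only [polar, ← map_add, h.norm, map_sub]

theorem rbar (h : Rho Q p σ ρ) (he : ρ e = e) (x : V8 F) : ρ (bar Q e x) = bar Q e (ρ x) := by
  rw [bar, bar, map_sub, h.smul, ← pol h, he]

theorem fix_span (h : Rho Q p σ ρ) (h3 : ∀ a, σ (σ (σ a)) = a) (hσ : σ ≠ 1)
    (S : Submodule F (V8 F)) (hS : ∀ v, ρ v = v → v ∈ S) : S = ⊤ := by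
  obtain ⟨l, hl⟩ : ∃ l, σ l ≠ l := by
    by_contra hn; push Not at hn; exact hσ (RingEquiv.ext hn)
  have hl2 : σ (σ l) ≠ l := fun h' => hl (by rw [← h', h3, h'])
  have hT : ∀ v, v + ρ v + ρ (ρ v) ∈ S := fun v => hS _ (by
    rw [map_add, map_add, h.three]; abel)
  rw [eq_top_iff]
  intro v _
  have h1 := S.add_mem (S.sub_mem (hT ((l * l) • v)) (S.smul_mem (σ l + σ (σ l)) (hT (l • v))))
    (S.smul_mem (σ l * σ (σ l)) (hT v))
  have h2 : ((l - σ l) * (l - σ (σ l))) • v ∈ S := by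
    convert h1 using 1
    simp only [h.smul, map_mul]
    module
  exact (S.smul_mem_iff (mul_ne_zero (sub_ne_zero.2 hl.symm) (sub_ne_zero.2 hl2.symm))).1 h2

theorem two_ne_top (a b : V8 F) : Submodule.span F (Set.range ![a, b]) ≠ ⊤ := by
  intro h
  have h1 := finrank_range_le_card (R := F) ![a, b]
  rw [Set.finrank, h, finrank_top] at h1
  simp at h1

theorem ind3 (h : Rho Q p σ ρ) (h3 : ∀ a, σ (σ (σ a)) = a) (hσ : σ ≠ 1) (he : e ≠ 0) :
    ∃ a b, ρ a = a ∧ ρ b = b ∧ Ind e a b := by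
  obtain ⟨a, ha, ha2⟩ : ∃ a, ρ a = a ∧ a ∉ Submodule.span F (Set.range ![e, e]) := by
    by_contra hn; push Not at hn; exact two_ne_top e e (fix_span h h3 hσ _ hn)
  obtain ⟨b, hb, hb2⟩ : ∃ b, ρ b = b ∧ b ∉ Submodule.span F (Set.range ![e, a]) := by
    by_contra hn; push Not at hn; exact two_ne_top e a (fix_span h h3 hσ _ hn)
  refine ⟨a, b, ha, hb, fun x y z hx => ?_⟩
  have hz : z = 0 := by
    by_contra hz
    apply hb2
    rw [← Submodule.smul_mem_iff _ hz, eq_neg_of_add_eq_zero_right hx]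
    exact Submodule.neg_mem _ (Submodule.add_mem _
      (Submodule.smul_mem _ _ (Submodule.subset_span ⟨0, rfl⟩))
      (Submodule.smul_mem _ _ (Submodule.subset_span ⟨1, rfl⟩)))
  rw [hz, zero_smul, add_zero] at hx
  have hy : y = 0 := by
    by_contra hy
    apply ha2
    rw [← Submodule.smul_mem_iff _ hy, eq_neg_of_add_eq_zero_right hx]
    exact Submodule.neg_mem _ (Submodule.smul_mem _ _ (Submodule.subset_span ⟨0, rfl⟩))
  rw [hy, zero_smul, add_zero] at hx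
  exact ⟨(smul_eq_zero.1 hx).resolve_right he, hy, hz⟩

theorem sing [Finite F] (h : Rho Q p σ ρ) {a b : V8 F} (he : ρ e = e) (ha : ρ a = a) (hb : ρ b = b)
    (hi : Ind e a b) : ∃ z, z ≠ 0 ∧ ρ z = z ∧ Q z = 0 := by
  let K : Subfield F := RingHom.eqLocusField (σ : F →+* F) (RingHom.id F)
  have q : ∀ v, ρ v = v → Q v ∈ K := fun v hv => by
    show σ (Q v) = Q v
    rw [← h.norm, hv]
  have r : ∀ v w, ρ v = v → ρ w = w → polar Q v w ∈ K := fun v w hv hw => by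
    show σ (polar Q v w) = polar Q v w
    rw [← pol h, hv, hw]
  obtain ⟨x, y, z, hn, h0⟩ := tern (K := K) ⟨_, q e he⟩ ⟨_, q a ha⟩ ⟨_, q b hb⟩ ⟨_, r e a he ha⟩
    ⟨_, r e b he hb⟩ ⟨_, r a b ha hb⟩
  have hx : σ x = x := x.2
  have hy : σ y = y := y.2
  have hz : σ z = z := z.2
  refine ⟨(x : F) • e + (y : F) • a + (z : F) • b, fun h' => hn ?_, ?_, ?_⟩
  · obtain ⟨h1, h2, h3⟩ := hi _ _ _ h'
    exact ⟨Subtype.ext h1, Subtype.ext h2, Subtype.ext h3⟩
  · rw [map_add, map_add, h.smul, h.smul, h.smul, he, ha, hb, hx, hy, hz]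
  · have h1 := congrArg (Subtype.val : K → F) h0
    simp only [Subfield.coe_add, Subfield.coe_mul, Subfield.coe_zero] at h1
    rw [QuadraticMap.map_add Q, QuadraticMap.map_add Q, polar_add_left]
    simp only [QuadraticMap.map_smul, polar_smul_left, polar_smul_right, smul_eq_mul]
    linear_combination h1

theorem lin (h : CA Q p e) (x y : V8 F) :
    polar Q (p x y) e + polar Q x y = polar Q x e * polar Q y e := by
  have h1 : ∀ x x' y, polar Q (p x y) (p x' y) = polar Q x x' * Q y := fun x x' y => by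
    have := h.norm (x + x') y
    rw [map_add, LinearMap.add_apply] at this
    simp only [polar, this, h.norm]; ring
  have h2 := h1 x e (y + e)
  rw [map_add, map_add, polar_add_left, polar_add_right, polar_add_right, h1, h1,
    QuadraticMap.map_add Q, h.one_mul, h.mul_one, h.one_mul] at h2
  linear_combination h2

theorem ex1 (h3 : (3 : F) ≠ 0) (hc : CA Q p e) (h : Rho Q p σ ρ) (he : ρ e = e) {z : V8 F}
    (hz0 : z ≠ 0) (hz : ρ z = z) (hq : Q z = 0) : ∃ e1, ρ e1 = e1 ∧ Q e1 = 0 ∧ polar Q e e1 = 1 := by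
  have sc : ∀ w, ρ w = w → Q w = 0 → polar Q e w ≠ 0 →
      ∃ e1, ρ e1 = e1 ∧ Q e1 = 0 ∧ polar Q e e1 = 1 := by
    intro w hw hq h0
    refine ⟨(polar Q e w)⁻¹ • w, ?_, ?_, ?_⟩
    · rw [h.smul, map_inv₀, ← pol h, he, hw]
    · rw [QuadraticMap.map_smul, hq, smul_zero]
    · rw [polar_smul_right, smul_eq_mul, inv_mul_cancel₀ h0]
  by_cases h0 : polar Q e z = 0
  swap
  · exact sc z hz hq h0
  obtain ⟨y0, hy0⟩ : ∃ y, polar Q z y ≠ 0 := by
    by_contra hn; push Not at hn; exact hz0 (hc.nd z hn)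
  obtain ⟨y, hy⟩ : ∃ y, polar Q z y = 1 :=
    ⟨(polar Q z y0)⁻¹ • y0, by rw [polar_smul_right, smul_eq_mul, inv_mul_cancel₀ hy0]⟩
  have h1 : ∀ y, polar Q z y = 1 → polar Q z (ρ y) = 1 := fun y hy => by
    rw [← hz, pol h, hy, map_one]
  have h2 : polar Q z (y + ρ y + ρ (ρ y)) = 3 := by
    rw [polar_add_right, polar_add_right, hy, h1 _ hy, h1 _ (h1 _ hy)]; norm_num
  have h4 : ρ (y + ρ y + ρ (ρ y)) = y + ρ y + ρ (ρ y) := by
    rw [map_add, map_add, h.three]; abel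
  refine sc (p z (y + ρ y + ρ (ρ y))) (by rw [h.mul, hz, h4]) (by rw [hc.norm, hq, zero_mul]) ?_
  have h5 := lin hc z (y + ρ y + ρ (ρ y))
  rw [h2, polar_comm Q z e, h0, zero_mul, polar_comm] at h5
  intro h6
  rw [h6, zero_add] at h5
  exact h3 h5

theorem off {a b : V8 F} (hi : Ind (pe F) a b) :
    ∃ w, (w = a ∨ w = b) ∧ ∃ i : Fin 4, i ≠ 0 ∧ (w (.inl i) ≠ 0 ∨ w (.inr i) ≠ 0) := by
  by_contra hn
  push Not at hn
  have ha := hn a (Or.inl rfl)
  have hb := hn b (Or.inr rfl)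
  have key : ∀ x y z : F, x + y * a (.inl 0) + z * b (.inl 0) = 0 →
      x + y * a (.inr 0) + z * b (.inr 0) = 0 → x = 0 ∧ y = 0 ∧ z = 0 := by
    intro x y z h1 h2
    apply hi
    apply V8_ext <;> simp [pe, h1, h2, (ha 1 (by decide)).1, (ha 2 (by decide)).1,
      (ha 3 (by decide)).1, (ha 1 (by decide)).2, (ha 2 (by decide)).2, (ha 3 (by decide)).2,
      (hb 1 (by decide)).1, (hb 2 (by decide)).1, (hb 3 (by decide)).1, (hb 1 (by decide)).2,
      (hb 2 (by decide)).2, (hb 3 (by decide)).2]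
  have h1 := (key (-((b (.inr 0) - b (.inl 0)) * a (.inl 0) + (a (.inl 0) - a (.inr 0)) * b (.inl 0)))
    (b (.inr 0) - b (.inl 0)) (a (.inl 0) - a (.inr 0)) (by ring) (by ring)).2.2
  have h2 := (key (-a (.inl 0)) 1 0 (by ring) (by linear_combination -h1)).2.1
  exact one_ne_zero h2

end N5

open N5 in
theorem nf_at0 [Finite F] (h3 : (3 : F) ≠ 0)
    (n1 : ∀ (σ : F ≃+* F) (Q : QuadraticForm F (V8 F)) (m : V8 F → V8 F → V8 F) (e : V8 F),
      TC σ Q m → m e e = e → Q e = 1 → ∃ p ρ, CA Q p e ∧ Rho Q p σ ρ ∧ (∀ x, ρ x = m e (m e x)) ∧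
        ρ e = e ∧ ∀ x y, m x y = p (ρ (bar Q e x)) (ρ (ρ (bar Q e y))))
    (n3 : ∀ (Q : QuadraticForm F (V8 F)) (p : V8 F →ₗ[F] V8 F →ₗ[F] V8 F) (e e1 : V8 F),
      CA Q p e → Q e1 = 0 → polar Q e e1 = 1 → ∃ φ : V8 F ≃ₗ[F] V8 F,
        (∀ x y, φ (p (bar Q e x) (bar Q e y)) = pm (φ x) (φ y)) ∧ φ e = pe F ∧
          φ e1 = Pi.single (.inl 0) 1)
    (n4 : ∀ (ψ : F ≃+* F), (∀ a, ψ (ψ (ψ a)) = a) → ∀ (ρ : V8 F →+ V8 F),
      (∀ a x, ρ (a • x) = ψ a • ρ x) → (∀ x y, ρ (pm x y) = pm (ρ x) (ρ y)) →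
      (∀ x, ρ (ρ (ρ x)) = x) → ρ (pe F) = pe F →
      ρ (Pi.single (.inl 0) 1) = Pi.single (.inl 0) 1 →
      (ψ = 1 → ∃ w, ρ w = w ∧ ∃ i : Fin 4, i ≠ 0 ∧ (w (.inl i) ≠ 0 ∨ w (.inr i) ≠ 0)) →
      ∃ χ : V8 F ≃ₗ[F] V8 F, (∀ x y, χ (pm x y) = pm (χ x) (χ y)) ∧ χ (pe F) = pe F ∧
        ((∀ x, χ (ρ x) = fun i => ψ (χ x i)) ∨ ∀ x, χ (ρ x) = pi3 (χ x))) : NFat F := by
  intro σ Q m h e he hQ hf
  obtain ⟨p, ρ, hc, hr, hρ, hre, hm⟩ := n1 σ Q m e h he hQ
  have he0 : e ≠ 0 := by rintro rfl; simp at hQ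
  obtain ⟨a, b, ha, hb, hi⟩ : ∃ a b, ρ a = a ∧ ρ b = b ∧ Ind e a b := by
    by_cases hσ : σ = 1
    · obtain ⟨a, b, ha, hb, hi⟩ := hf hσ
      exact ⟨a, b, (hρ a).trans ha, (hρ b).trans hb, ind_of hi⟩
    · exact ind3 hr h.s3 hσ he0
  obtain ⟨z, hz0, hz, hq⟩ := sing hr hre ha hb hi
  obtain ⟨e1, h1, h2, h4⟩ := ex1 h3 hc hr hre hz0 hz hq
  obtain ⟨φ, hφ, hφe, hφ1⟩ := n3 Q p e e1 hc h2 h4
  let ρ' : V8 F →+ V8 F :=
    (φ.toAddEquiv.toAddMonoidHom.comp ρ).comp φ.symm.toAddEquiv.toAddMonoidHom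
  have hρ' : ∀ x, ρ' (φ x) = φ (ρ x) := fun x => by
    show φ (ρ (φ.symm (φ x))) = _
    rw [φ.symm_apply_apply]
  obtain ⟨χ, hχ, hχe, hcase⟩ := n4 σ h.s3 ρ'
    (fun c x => by
      obtain ⟨x, rfl⟩ := φ.surjective x
      rw [← map_smul, hρ', hρ', hr.smul, map_smul])
    (fun x y => by
      obtain ⟨x, rfl⟩ := φ.surjective x
      obtain ⟨y, rfl⟩ := φ.surjective y
      rw [← hφ, hρ', hρ', hρ', hr.mul, rbar hr hre, rbar hr hre, hφ])
    (fun x => by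
      obtain ⟨x, rfl⟩ := φ.surjective x
      rw [hρ', hρ', hρ', hr.three])
    (by rw [← hφe, hρ', hre]) (by rw [← hφ1, hρ', h1])
    (fun _ => by
      obtain ⟨w, hw, hw2⟩ := off (a := φ a) (b := φ b) (fun x y z hx => hi x y z (φ.injective (by
        rw [map_add, map_add, map_smul, map_smul, map_smul, hφe, hx, map_zero])))
      refine ⟨w, ?_, hw2⟩
      rcases hw with rfl | rfl
      · rw [hρ', ha]
      · rw [hρ', hb])
  have key : ∀ x y, χ (φ (m x y)) = pm (χ (ρ' (φ x))) (χ (ρ' (ρ' (φ y)))) := fun x y => by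
    rw [hm, rbar hr hre, rbar hr hre, rbar hr hre, hφ, hχ, hρ', hρ', hρ']
  refine ⟨φ.trans χ, by rw [LinearEquiv.trans_apply, hφe, hχe], ?_⟩
  rcases hcase with hc1 | hc1
  · left
    intro x y
    simp only [LinearEquiv.trans_apply]
    rw [key, hc1, hc1, hc1]; rfl
  · right
    intro x y
    simp only [LinearEquiv.trans_apply]
    rw [key, hc1, hc1, hc1]; rfl

end Cfsg.Agent.H12.Tr
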