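import Cfsg.Agent.H12.TrN1
import Cfsg.Agent.H12.TrN3
import Cfsg.Agent.H12.TrN4
import Cfsg.Agent.H12.TrN5

set_option autoImplicit false

namespace Cfsg.Agent.H12.Tr

theorem nf_at {F : Type*} [Field F] [Finite F] (h3 : (3 : F) ≠ 0) : NFat F :=
  nf_at0 h3 (fun _ _ _ _ h he hQ => h.toCA he hQ) (fun _ _ _ _ h h0 h1 => h.zorn h0 h1)
    (fun ψ hψ ρ hs hm ht he h1 hf => rho_nf h3 ψ hψ ρ hs hm ht he h1 hf)

end Cfsg.Agent.H12.Tr
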