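import Cfsg.Agent.H12.TrD
import Cfsg.Agent.H28.Schur

set_option autoImplicit false

namespace Cfsg.Agent.H12.Tr

open Matrix
open scoped MatrixGroups

variable {F : Type*} [Field F]

namespace O1

abbrev M2 (F : Type*) := Matrix (Fin 2) (Fin 2) F

def jj (a : M2 F) : V8 F :=
  Sum.elim ![a 0 0, a 0 1, a 0 1, a 0 1] ![a 1 1, -(a 1 0) / 3, -(a 1 0) / 3, -(a 1 0) / 3]

def kk (x : V8 F) : M2 F := !![x (.inl 0), x (.inl 1); -3 * x (.inr 1), x (.inr 0)]

theorem kk_jj (h3 : (3 : F) ≠ 0) (a : M2 F) : kk (jj a) = a := by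
  ext i j
  fin_cases i <;> fin_cases j <;> simp [kk, jj]
  field_simp

theorem jj_inj (h3 : (3 : F) ≠ 0) {a b : M2 F} (h : jj a = jj b) : a = b := by
  rw [← kk_jj h3 a, h, kk_jj h3]

theorem pi3_jj (a : M2 F) : pi3 (jj a) = jj a := by
  apply V8_ext <;> rfl

theorem jj_kk (h3 : (3 : F) ≠ 0) {x : V8 F} (hx : pi3 x = x) : jj (kk x) = x := by
  have h1 : x (.inl 2) = x (.inl 1) := congrFun hx (.inl 1)
  have h2 : x (.inl 3) = x (.inl 2) := congrFun hx (.inl 2)
  have h4 : x (.inr 2) = x (.inr 1) := congrFun hx (.inr 1)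
  have h5 : x (.inr 3) = x (.inr 2) := congrFun hx (.inr 2)
  apply V8_ext <;> simp [kk, jj, h1, h2, h4, h5] <;> field_simp

theorem jj_add (a b : M2 F) : jj (a + b) = jj a + jj b := by
  apply V8_ext <;> simp [jj] <;> ring

theorem jj_smul (t : F) (a : M2 F) : jj (t • a) = t • jj a := by
  apply V8_ext <;> simp [jj] <;> ring

theorem mO_jj (h3 : (3 : F) ≠ 0) (a b : M2 F) :
    mO (jj a) (jj b) = jj (adjugate a * adjugate b) := by
  rw [mO, pi3_jj, pi3_jj, pi3_jj]
  apply V8_ext <;> simp [pm, jj, adjugate_fin_two, Matrix.mul_apply, Fin.sum_univ_two] <;>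
    field_simp <;> ring

def fU (t : F) (x : V8 F) : V8 F := Sum.elim
  ![x (.inl 0) - t * (x (.inr 1) + x (.inr 2) + x (.inr 3)),
    x (.inl 1) - (x (.inl 0) - x (.inr 0)) * t + t * (x (.inr 1) + x (.inr 2) + x (.inr 3)) * t,
    x (.inl 2) - (x (.inl 0) - x (.inr 0)) * t + t * (x (.inr 1) + x (.inr 2) + x (.inr 3)) * t,
    x (.inl 3) - (x (.inl 0) - x (.inr 0)) * t + t * (x (.inr 1) + x (.inr 2) + x (.inr 3)) * t]
  ![x (.inr 0) + t * (x (.inr 1) + x (.inr 2) + x (.inr 3)),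
    x (.inr 1) + t * (x (.inl 3) - x (.inl 2)), x (.inr 2) + t * (x (.inl 1) - x (.inl 3)),
    x (.inr 3) + t * (x (.inl 2) - x (.inl 1))]

def fL (t : F) (x : V8 F) : V8 F := Sum.elim
  ![x (.inl 0) - t * (x (.inl 1) + x (.inl 2) + x (.inl 3)),
    x (.inl 1) - t * (x (.inr 3) - x (.inr 2)), x (.inl 2) - t * (x (.inr 1) - x (.inr 3)),
    x (.inl 3) - t * (x (.inr 2) - x (.inr 1))]
  ![x (.inr 0) + t * (x (.inl 1) + x (.inl 2) + x (.inl 3)),
    x (.inr 1) - (x (.inl 0) - x (.inr 0)) * t + t * (x (.inl 1) + x (.inl 2) + x (.inl 3)) * t,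
    x (.inr 2) - (x (.inl 0) - x (.inr 0)) * t + t * (x (.inl 1) + x (.inl 2) + x (.inl 3)) * t,
    x (.inr 3) - (x (.inl 0) - x (.inr 0)) * t + t * (x (.inl 1) + x (.inl 2) + x (.inl 3)) * t]

theorem fU_neg (t : F) (x : V8 F) : fU (-t) (fU t x) = x := by
  apply V8_ext <;> simp [fU] <;> ring

theorem fL_neg (t : F) (x : V8 F) : fL (-t) (fL t x) = x := by
  apply V8_ext <;> simp [fL] <;> ring

def gU (t : F) : Equiv.Perm (V8 F) :=
  ⟨fU t, fU (-t), fU_neg t, fun x => by simpa using fU_neg (-t) x⟩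

def gL (t : F) : Equiv.Perm (V8 F) :=
  ⟨fL t, fL (-t), fL_neg t, fun x => by simpa using fL_neg (-t) x⟩

theorem isA_of (g : Equiv.Perm (V8 F)) (h1 : ∀ x y, g (x + y) = g x + g y)
    (h2 : ∀ (a : F) x, g (a • x) = a • g x) (h3 : ∀ x y, g (pm x y) = pm (g x) (g y))
    (h4 : ∀ x, g (pi3 x) = pi3 (g x)) : IsA mO 1 g :=
  ⟨h1, h2, fun x y => by rw [mO, h3, h4, h4, h4, mO]⟩

theorem pi3_eq (x : V8 F) : pi3 x = Sum.elim ![x (.inl 0), x (.inl 2), x (.inl 3), x (.inl 1)]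
    ![x (.inr 0), x (.inr 2), x (.inr 3), x (.inr 1)] := by
  apply V8_ext <;> rfl

theorem isA_gU (t : F) : IsA mO 1 (gU t) := by
  refine isA_of _ (fun x y => ?_) (fun a x => ?_) (fun x y => ?_) (fun x => ?_)
  · change fU t _ = fU t _ + fU t _
    apply V8_ext <;> simp [fU] <;> ring
  · change fU t _ = a • fU t _
    apply V8_ext <;> simp [fU] <;> ring
  · change fU t _ = pm (fU t _) (fU t _)
    apply V8_ext <;> simp [fU, pm] <;> ring
  · change fU t _ = pi3 (fU t _)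
    rw [pi3_eq, pi3_eq]
    apply V8_ext <;> simp [fU, -mul_eq_mul_left_iff, -sub_right_inj, -add_right_inj] <;> ring

theorem isA_gL (t : F) : IsA mO 1 (gL t) := by
  refine isA_of _ (fun x y => ?_) (fun a x => ?_) (fun x y => ?_) (fun x => ?_)
  · change fL t _ = fL t _ + fL t _
    apply V8_ext <;> simp [fL] <;> ring
  · change fL t _ = a • fL t _
    apply V8_ext <;> simp [fL] <;> ring
  · change fL t _ = pm (fL t _) (fL t _)
    apply V8_ext <;> simp [fL, pm] <;> ring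
  · change fL t _ = pi3 (fL t _)
    rw [pi3_eq, pi3_eq]
    apply V8_ext <;> simp [fL, -mul_eq_mul_left_iff, -sub_right_inj, -add_right_inj] <;> ring

def eU (t : F) : SL(2, F) := ⟨!![1, t; 0, 1], by simp [det_fin_two]⟩
def eL (t : F) : SL(2, F) := ⟨!![1, 0; t, 1], by simp [det_fin_two]⟩

def mt (g : SL(2, F)) : M2 F := g.1

theorem mt_mul (g h : SL(2, F)) : mt (g * h) = mt g * mt h := rfl
theorem mt_one : mt (1 : SL(2, F)) = 1 := rfl
theorem mt_inv (g : SL(2, F)) : mt g⁻¹ = adjugate (mt g) := rfl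
theorem mt_det (g : SL(2, F)) : det (mt g) = 1 := g.2
theorem mt_eU (t : F) : mt (eU t) = !![1, t; 0, 1] := rfl
theorem mt_eL (t : F) : mt (eL t) = !![1, 0; t, 1] := rfl
theorem mt_ext {g h : SL(2, F)} (e : mt g = mt h) : g = h := Subtype.ext e

/-- `G` induces conjugation by `g` -/
def RR (G : Equiv.Perm (V8 F)) (g : SL(2, F)) : Prop :=
  ∀ a : M2 F, G (jj a) = jj (mt g * a * mt g⁻¹)

theorem RR.one : RR (1 : Equiv.Perm (V8 F)) 1 := fun a => by simp [mt_one]

theorem RR.mul {G H : Equiv.Perm (V8 F)} {g h : SL(2, F)} (a : RR G g) (b : RR H h) :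
    RR (G * H) (g * h) := fun x => by
  rw [Equiv.Perm.mul_apply, b, a, _root_.mul_inv_rev]
  simp only [mt_mul, Matrix.mul_assoc]

theorem cancel (g : SL(2, F)) : mt g * mt g⁻¹ = 1 := by
  rw [← mt_mul, mul_inv_cancel, mt_one]

theorem RR.inv {G : Equiv.Perm (V8 F)} {g : SL(2, F)} (a : RR G g) : RR G⁻¹ g⁻¹ := fun x => by
  rw [Equiv.Perm.inv_eq_iff_eq, a, inv_inv]
  simp only [← Matrix.mul_assoc, cancel, Matrix.one_mul]
  rw [Matrix.mul_assoc, cancel, Matrix.mul_one]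

theorem RR.pow {G : Equiv.Perm (V8 F)} {g : SL(2, F)} (a : RR G g) (k : ℕ) :
    RR (G ^ k) (g ^ k) := by
  induction k with
  | zero => simpa using RR.one
  | succ k ih => rw [pow_succ, pow_succ]; exact ih.mul a

theorem rr_U (h3 : (3 : F) ≠ 0) (t : F) : RR (gU t) (eU t) := fun a => by
  change fU t _ = _
  rw [mt_inv, mt_eU]
  apply V8_ext <;> simp [fU, jj, adjugate_fin_two, Matrix.mul_apply, Fin.sum_univ_two,
    vecMul, dotProduct] <;> field_simp <;> ring

theorem rr_L (h3 : (3 : F) ≠ 0) (t : F) : RR (gL (t / 3)) (eL t) := fun a => by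
  change fL _ _ = _
  rw [mt_inv, mt_eL]
  apply V8_ext <;> simp [fL, jj, adjugate_fin_two, Matrix.mul_apply, Fin.sum_univ_two,
    vecMul, dotProduct] <;> field_simp <;> ring

theorem IsA_mul {G H : Equiv.Perm (V8 F)} (a : IsA mO 1 G) (b : IsA mO 1 H) : IsA mO 1 (G * H) :=
  ⟨fun x y => by simp only [Equiv.Perm.mul_apply, b.1, a.1],
    fun s x => by simp only [Equiv.Perm.mul_apply, b.2.1, a.2.1]; rfl,
    fun x y => by simp only [Equiv.Perm.mul_apply, b.2.2, a.2.2]⟩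

theorem lift (h3 : (3 : F) ≠ 0) (g : SL(2, F)) : ∃ G, IsA mO 1 G ∧ RR G g := by
  have key : ∀ g : SL(2, F), mt g 1 0 ≠ 0 → ∃ G, IsA mO 1 G ∧ RR G g := fun g h => by
    have hd := mt_det g
    rw [det_fin_two] at hd
    have e : g = eU ((mt g 0 0 - 1) / mt g 1 0) * eL (mt g 1 0) *
        eU ((mt g 1 1 - 1) / mt g 1 0) := by
      apply mt_ext
      rw [mt_mul, mt_mul, mt_eU, mt_eU, mt_eL]
      generalize mt g = m at h hd
      ext i j
      fin_cases i <;> fin_cases j <;> simp [h]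
      · field_simp
        linear_combination (-1 : F) * hd
      · field_simp
        ring
    rw [e]
    exact ⟨_, IsA_mul (IsA_mul (isA_gU _) (isA_gL _)) (isA_gU _),
      ((rr_U h3 _).mul (rr_L h3 _)).mul (rr_U h3 _)⟩
  by_cases h : mt g 1 0 = 0
  · have hd := mt_det g
    rw [det_fin_two, h] at hd
    obtain ⟨G, a, b⟩ := key (eL 1 * g) (by
      rw [mt_mul, mt_eL, Matrix.mul_apply, Fin.sum_univ_two, h]
      intro q
      simp at q
      simp [q] at hd)
    have e : g = eL (-1) * (eL 1 * g) := by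
      rw [← mul_assoc, show (eL (-1) * eL 1 : SL(2, F)) = 1 by
        apply mt_ext
        rw [mt_mul, mt_eL, mt_eL, mt_one]
        ext i j; fin_cases i <;> fin_cases j <;> simp, one_mul]
    rw [e]
    exact ⟨_, IsA_mul (isA_gL _) a, (rr_L h3 _).mul b⟩
  · exact key g h

theorem RR.cen (h3 : (3 : F) ≠ 0) {g : SL(2, F)} (a : RR 1 g) : g ∈ Subgroup.center SL(2, F) := by
  refine Subgroup.mem_center_iff.2 fun h => mt_ext ?_
  have := jj_inj h3 (a (mt h))
  rw [mt_mul, mt_mul]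
  conv_lhs => rw [this]
  have c := cancel g⁻¹
  rw [inv_inv] at c
  rw [Matrix.mul_assoc, c, Matrix.mul_one]

theorem three_dvd [Finite F] : 3 ∣ Nat.card PSL(2, F) := by
  let w : SL(2, F) := ⟨!![0, -1; 1, -1], by simp [det_fin_two]⟩
  have hw : mt w = !![0, -1; 1, -1] := rfl
  have h1 : w ^ 3 = 1 := by
    apply mt_ext
    rw [pow_three, mt_mul, mt_mul, hw, mt_one]
    ext i j; fin_cases i <;> fin_cases j <;> simp
  have h2 : w ∉ Subgroup.center SL(2, F) := fun h => by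
    have := congrArg (fun g : SL(2, F) => mt g 0 0) (Subgroup.mem_center_iff.1 h (eU 1))
    simp [mt_mul, hw, mt_eU] at this
  have : Fact (Nat.Prime 3) := ⟨Nat.prime_three⟩
  have h3 : orderOf (QuotientGroup.mk w : SL(2, F) ⧸ Subgroup.center SL(2, F)) = 3 :=
    orderOf_eq_prime (by rw [← QuotientGroup.mk_pow, h1, QuotientGroup.mk_one])
      (fun q => h2 ((QuotientGroup.eq_one_iff _).1 q))
  exact h3 ▸ orderOf_dvd_natCard _

theorem central [Finite F] (h3 : (3 : F) ≠ 0) (N : Subgroup (Equiv.Perm (V8 F)))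
    (hc : (Nat.card N).Coprime 3) (hn : ∀ g, IsA mO 1 g → ∀ n ∈ N, g * n * g⁻¹ ∈ N)
    {G : Equiv.Perm (V8 F)} (hG : G ∈ N) {g : SL(2, F)} (h : RR G g) :
    g ∈ Subgroup.center SL(2, F) := by
  have := Fintype.ofFinite F
  have : Fact (Nat.Prime 3) := ⟨Nat.prime_three⟩
  let M : Subgroup SL(2, F) :=
    { carrier := {g | ∃ G ∈ N, RR G g}
      one_mem' := ⟨1, one_mem _, RR.one⟩
      mul_mem' := fun ⟨A, a, b⟩ ⟨B, c, d⟩ => ⟨A * B, mul_mem a c, b.mul d⟩
      inv_mem' := fun ⟨A, a, b⟩ => ⟨A⁻¹, inv_mem a, b.inv⟩ }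
  have hM : M.Normal := ⟨fun k ⟨A, a, b⟩ g => by
    obtain ⟨H, c, d⟩ := lift h3 g
    exact ⟨_, hn H c A a, (d.mul b).mul d.inv⟩⟩
  have hr : (3 : ℕ).Coprime (ringChar F) :=
    (Nat.coprime_primes Nat.prime_three (CharP.char_is_prime F _)).2 fun e => h3 (by
      have := ringChar.Nat.cast_ringChar (R := F)
      rw [← e] at this
      exact_mod_cast this)
  have hb := H28.core_PSL (p := 3) (F := F) (n := 2) le_rfl hr three_dvd
  let π := QuotientGroup.mk' (Subgroup.center SL(2, F))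
  have h1 : M.map π ≤ pPrimeCore 3 (SL(2, F) ⧸ Subgroup.center SL(2, F)) := by
    refine le_sSup ⟨hM.map π (QuotientGroup.mk'_surjective _), ?_⟩
    refine ((Nat.Prime.coprime_iff_not_dvd Nat.prime_three).2 fun q => ?_).symm
    obtain ⟨⟨_, k, ⟨A, a, b⟩, rfl⟩, e⟩ := exists_prime_orderOf_dvd_card' 3 q
    rw [← Subgroup.orderOf_coe] at e
    have h5 : A ^ Nat.card N = 1 :=
      congrArg Subtype.val (pow_card_eq_one' (x := (⟨A, a⟩ : N)))
    have h6 := b.pow (Nat.card N)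
    rw [h5] at h6
    have h7 : (π k) ^ Nat.card N = 1 := by
      rw [← map_pow]; exact (QuotientGroup.eq_one_iff _).2 (h6.cen h3)
    have h8 := orderOf_dvd_of_pow_eq_one h7
    change orderOf (π k) = 3 at e
    rw [e] at h8
    exact absurd (Nat.Coprime.eq_one_of_dvd hc.symm h8) (by decide)
  have h2 : π g ∈ (⊥ : Subgroup PSL(2, F)) := hb ▸ h1 ⟨g, ⟨G, hG, h⟩, rfl⟩
  exact (QuotientGroup.eq_one_iff _).1 (Subgroup.mem_bot.1 h2)

theorem adj2 (a : M2 F) : adjugate (adjugate a) = a := by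
  ext i j; fin_cases i <;> fin_cases j <;> simp [adjugate_fin_two]

theorem ringAut {θ : M2 F → M2 F} {ψ : F ≃+* F} (hb : Function.Bijective θ)
    (h2 : ∀ t a, θ (t • a) = ψ t • θ a)
    (h4 : ∀ a b, θ (adjugate a * adjugate b) = adjugate (θ a) * adjugate (θ b)) :
    θ 1 = 1 ∧ (∀ a, θ (adjugate a) = adjugate (θ a)) ∧ (∀ a b, θ (a * b) = θ a * θ b) ∧
      ∀ a, det (θ a) = ψ (det a) := by
  have h0 : θ 0 = 0 := by simpa using h2 0 0
  have e1 : θ 1 = 1 := by
    have c : ∀ b, adjugate (θ 1) * b = b * adjugate (θ 1) := fun b => by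
      obtain ⟨a, ha⟩ := hb.2 (adjugate b)
      have p := h4 1 a
      have q := h4 a 1
      rw [adjugate_one, ha, adj2] at p q
      rw [← p, ← q, Matrix.one_mul, Matrix.mul_one]
    have p := h4 1 1
    rw [adjugate_one, Matrix.mul_one] at p
    have n : θ 1 ≠ 0 := fun q => one_ne_zero (hb.1 (q.trans h0.symm))
    generalize θ 1 = e at c p n
    have c1 := congrFun (congrFun (c !![0, 1; 0, 0]) 0) 1
    have c2 := congrFun (congrFun (c !![0, 1; 0, 0]) 0) 0
    have c3 := congrFun (congrFun (c !![0, 0; 1, 0]) 0) 0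
    have p1 := congrFun (congrFun p 0) 0
    simp [adjugate_fin_two, Matrix.mul_apply, Fin.sum_univ_two] at c1 c2 c3 p1
    have n0 : e 0 0 ≠ 0 := fun q => n (by
      ext i j; fin_cases i <;> fin_cases j <;> simp [c1, c2, c3, q])
    have e0 : e 0 0 = 1 := mul_left_cancel₀ n0 (by
      rw [c1, c3] at p1; linear_combination (-1 : F) * p1)
    ext i j; fin_cases i <;> fin_cases j <;> simp [c1, c2, c3, e0]
  have e2 : ∀ a, θ (adjugate a) = adjugate (θ a) := fun a => by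
    simpa [e1] using h4 a 1
  have e3 : ∀ a b, θ (a * b) = θ a * θ b := fun a b => by
    have := h4 (adjugate a) (adjugate b)
    rwa [adj2, adj2, e2, e2, adj2, adj2] at this
  refine ⟨e1, e2, e3, fun a => ?_⟩
  have := e3 a (adjugate a)
  rw [e2, mul_adjugate, mul_adjugate, h2, e1] at this
  simpa using (congrFun (congrFun this 0) 0).symm

theorem unip {n m : M2 F} (hn : n * n = 0) (hm : m * m = 0) {z : SL(2, F)}
    (hz : z ∈ Subgroup.center SL(2, F)) (e : 1 + m = mt z * (1 + n)) : m = n := by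
  obtain ⟨r, hr, h⟩ := Matrix.SpecialLinearGroup.mem_center_iff.1 hz
  change _ = mt z at h
  rw [← h] at e
  have h1 : r = 1 ∨ r = -1 := by simpa using hr
  rcases h1 with rfl | rfl
  · simpa using e
  · have e2 : m = -(1 + 1) - n := by
      rw [map_neg, map_one] at e
      rw [← add_left_cancel_iff (a := (1 : M2 F)), e]; noncomm_ring
    have e3 : (1 + 1 + 1 + 1 : M2 F) * (1 + n) = 0 := by
      rw [← hm, e2, ← sub_eq_zero, ← neg_zero, ← hn]; noncomm_ring
    have e4 : (1 + 1 + 1 + 1 : M2 F) = 0 := by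
      have : (1 + 1 + 1 + 1 : M2 F) * (1 + n) * (1 - n) = (1 + 1 + 1 + 1 : M2 F) * (1 - n * n) := by
        noncomm_ring
      rw [e3, hn, Matrix.zero_mul, sub_zero, Matrix.mul_one] at this
      exact this.symm
    have e5 : (2 : F) = 0 := by
      have := congrFun (congrFun e4 0) 0
      simp at this
      exact pow_eq_zero_iff (n := 2) (by norm_num) |>.1 (by linear_combination this)
    rw [e2]
    ext i j
    fin_cases i <;> fin_cases j <;> simp
    · linear_combination (-1 - n 0 0) * e5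
    · linear_combination (-n 0 1) * e5
    · linear_combination (-n 1 0) * e5
    · linear_combination (-1 - n 1 1) * e5

end O1

open O1 in
theorem okA [Finite F] (h3 : (3 : F) ≠ 0) (N : Subgroup (Equiv.Perm (V8 F)))
    (hN : ∀ n ∈ N, ∃ ψ, IsA mO ψ n) (hc : (Nat.card N).Coprime 3)
    (hn : ∀ g, IsA mO 1 g → ∀ n ∈ N, g * n * g⁻¹ ∈ N) (d : Equiv.Perm (V8 F)) (hd : d ∈ N)
    (hπ : ∀ x, d (pi3 x) = pi3 (d x)) (x : V8 F) (hx : pi3 x = x) : d x = x := by
  obtain ⟨ψ, a1, a2, a3⟩ := hN d hd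
  let θ : M2 F → M2 F := fun a => kk (d (jj a))
  have hθ : ∀ a, d (jj a) = jj (θ a) := fun a => (jj_kk h3 (by rw [← hπ, pi3_jj])).symm
  have hb : Function.Bijective θ := Finite.injective_iff_bijective.1 fun a b e =>
    jj_inj h3 (d.injective (by rw [hθ, hθ, e]))
  have h1 : ∀ a b, θ (a + b) = θ a + θ b := fun a b =>
    jj_inj h3 (by rw [← hθ, jj_add, a1, hθ, hθ, jj_add])
  obtain ⟨e1, e2, e3, e4⟩ := ringAut (ψ := ψ) hb
    (fun t a => jj_inj h3 (by rw [← hθ, jj_smul, a2, hθ, jj_smul]))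
    (fun a b => jj_inj h3 (by rw [← hθ, ← mO_jj h3, a3, hθ, hθ, mO_jj h3]))
  have key : ∀ n : M2 F, n * n = 0 → det (1 + n) = 1 → θ n = n := fun n hn0 hdet => by
    let g : SL(2, F) := ⟨1 + n, hdet⟩
    let g' : SL(2, F) := ⟨θ (O1.mt g), by rw [e4, mt_det, map_one]⟩
    obtain ⟨G, b1, b2⟩ := lift h3 g
    have r1 : RR (d * G * d⁻¹) g' := fun a => by
      obtain ⟨b, rfl⟩ := hb.2 a
      rw [← hθ, Equiv.Perm.mul_apply, Equiv.Perm.mul_apply, Equiv.Perm.inv_def, Equiv.symm_apply_apply, b2, hθ,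
        e3, e3, mt_inv, mt_inv, e2]
      rfl
    have r2 := central h3 N hc hn (G := d * G * d⁻¹ * G⁻¹) (by
      have := mul_mem hd (hn G b1 _ (inv_mem hd))
      simpa only [mul_assoc] using this) (r1.mul b2.inv)
    have h0 : θ 0 = 0 := by simpa using h1 0 0
    refine unip hn0 (by rw [← e3, hn0, h0]) r2 ?_
    have : O1.mt g' = O1.mt (g' * g⁻¹) * O1.mt g := by rw [← mt_mul, inv_mul_cancel_right]
    change θ (1 + n) = _ at this
    rw [h1, e1] at this
    exact this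
  have kU : ∀ t : F, θ !![0, t; 0, 0] = !![0, t; 0, 0] := fun t => key _
    (by ext i j; fin_cases i <;> fin_cases j <;> simp) (by simp [det_fin_two])
  have kL : ∀ t : F, θ !![0, 0; t, 0] = !![0, 0; t, 0] := fun t => key _
    (by ext i j; fin_cases i <;> fin_cases j <;> simp) (by simp [det_fin_two])
  have all : ∀ a, θ a = a := fun a => by
    have e : a = !![0, a 0 0; 0, 0] * !![0, 0; 1, 0] + !![0, a 0 1; 0, 0] + !![0, 0; a 1 0, 0] +
        !![0, 0; a 1 1, 0] * !![0, 1; 0, 0] := by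
      ext i j; fin_cases i <;> fin_cases j <;> simp
    rw [e, h1, h1, h1, e3, e3, kU, kU, kU, kL, kL, kL]
  rw [← jj_kk h3 hx, hθ, all]

end Cfsg.Agent.H12.Tr
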