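import Cfsg.Agent.H12.TrO2a
import Cfsg.Agent.S0058

/-! The Okubo model: no normalised `3'`-group of semilinear automorphisms. -/

set_option autoImplicit false

namespace Cfsg.Agent.H12.Tr

namespace O2

theorem gen {G : Type*} [Group G] [Finite G] (N : Subgroup G) (a b : G) (hab : Commute a b)
    (ha : a ^ 3 = 1) (hb : b ^ 3 = 1) (na : ∀ n ∈ N, a * n * a⁻¹ ∈ N)
    (nb : ∀ n ∈ N, b * n * b⁻¹ ∈ N) (hc : (Nat.card N).Coprime 3)
    (h1 : ∀ d ∈ N, Commute d a → d = 1) (h2 : ∀ d ∈ N, Commute d b → d = 1)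
    (h3 : ∀ d ∈ N, Commute d (a * b) → d = 1) (h4 : ∀ d ∈ N, Commute d (a * b ^ 2) → d = 1) :
    N = ⊥ := by
  by_contra hN
  obtain ⟨⟨d0, hd0⟩, hd1⟩ := Subgroup.ne_bot_iff_exists_ne_one.1 hN
  have hd1' : d0 ≠ 1 := fun h => hd1 (Subtype.ext h)
  have red : ∀ i j : ℕ, a ^ i * b ^ j = a ^ (i % 3) * b ^ (j % 3) := fun i j => by
    rw [← pow_eq_pow_mod i ha, ← pow_eq_pow_mod j hb]
  have mul : ∀ i j k l : ℕ, (a ^ i * b ^ j) * (a ^ k * b ^ l) = a ^ (i + k) * b ^ (j + l) :=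
    fun i j k l => by
      rw [pow_add, pow_add]
      exact ((hab.symm.pow_pow j k).mul_mul_mul_comm _ _)
  let A : Subgroup G :=
    { carrier := {g | ∃ i j : ℕ, g = a ^ i * b ^ j}
      one_mem' := ⟨0, 0, by simp⟩
      mul_mem' := by
        rintro _ _ ⟨i, j, rfl⟩ ⟨k, l, rfl⟩
        exact ⟨_, _, mul i j k l⟩
      inv_mem' := by
        rintro _ ⟨i, j, rfl⟩
        refine ⟨2 * i, 2 * j, ?_⟩
        rw [inv_eq_iff_mul_eq_one, mul, red, show (i + 2 * i) % 3 = 0 by omega,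
          show (j + 2 * j) % 3 = 0 by omega]
        simp }
  have cube : ∀ g ∈ A, g ^ 3 = 1 := by
    rintro _ ⟨i, j, rfl⟩
    rw [(hab.pow_pow i j).mul_pow, ← pow_mul, ← pow_mul, mul_comm i, mul_comm j, pow_mul, pow_mul,
      ha, hb]
    simp
  have sq : ∀ g d : G, g ^ 3 = 1 → Commute d (g * g) → Commute d g := fun g d hg h => by
    have : g = (g * g) * (g * g) := by
      calc g = g ^ 3 * g := by rw [hg, one_mul]
        _ = _ := by simp [pow_succ, mul_assoc]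
    rw [this]; exact h.mul_right h
  have key : ∀ g ∈ A, g ≠ 1 → ∀ d ∈ N, Commute d g → d = 1 := by
    rintro _ ⟨i, j, rfl⟩ hg d hd h
    rw [red] at h hg
    have hi : i % 3 = 0 ∨ i % 3 = 1 ∨ i % 3 = 2 := by omega
    have hj : j % 3 = 0 ∨ j % 3 = 1 ∨ j % 3 = 2 := by omega
    have c11 : (a * b) ^ 3 = 1 := cube _ ⟨1, 1, by simp⟩
    have c12 : (a * b ^ 2) ^ 3 = 1 := cube _ ⟨1, 2, by simp⟩
    rcases hi with hi | hi | hi <;> rcases hj with hj | hj | hj <;> rw [hi, hj] at h hg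
    · simp at hg
    · exact h2 d hd (by simpa using h)
    · exact h2 d hd (sq _ _ hb (by simpa [pow_two] using h))
    · exact h1 d hd (by simpa using h)
    · exact h3 d hd (by simpa using h)
    · exact h4 d hd (by simpa using h)
    · exact h1 d hd (sq _ _ ha (by simpa [pow_two] using h))
    · refine h4 d hd (sq _ _ c12 ?_)
      have := mul 1 2 1 2
      rw [red (1 + 1)] at this
      simp only [pow_one] at this
      rw [this]; simpa using h
    · refine h3 d hd (sq _ _ c11 ?_)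
      have := mul 1 1 1 1
      simp only [pow_one] at this
      rw [this]; exact h
  have ne : ∀ g ∈ A, (∀ d ∈ N, Commute d g → d = 1) → g ≠ 1 := fun g _ h hg =>
    hd1' (h d0 hd0 (by rw [hg]; exact Commute.one_right _))
  have aA : a ∈ A := ⟨1, 0, by simp⟩
  have bA : b ∈ A := ⟨0, 1, by simp⟩
  have a1 := ne a aA h1
  have b1 := ne b bA h2
  have ab1 := ne _ (A.mul_mem aA bA) h3
  have ab2 := ne _ (A.mul_mem aA (A.pow_mem bA 2)) h4
  haveI : IsMulCommutative A := ⟨⟨by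
    rintro ⟨_, i, j, rfl⟩ ⟨_, k, l, rfl⟩
    apply Subtype.ext
    show (a ^ i * b ^ j) * (a ^ k * b ^ l) = (a ^ k * b ^ l) * (a ^ i * b ^ j)
    rw [mul, mul, add_comm i, add_comm j]⟩⟩
  haveI : Fact (Nat.Prime 3) := ⟨Nat.prime_three⟩
  have hnc : ¬ IsCyclic A := by
    intro hcy
    obtain ⟨g, hg⟩ := IsCyclic.exists_monoid_generator (α := A)
    obtain ⟨i, hi⟩ := hg ⟨a, aA⟩
    obtain ⟨j, hj⟩ := hg ⟨b, bA⟩
    have g3 := cube g g.2
    have hi' : (g : G) ^ (i % 3) = a := by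
      rw [← pow_eq_pow_mod i g3]; exact congrArg Subtype.val hi
    have hj' : (g : G) ^ (j % 3) = b := by
      rw [← pow_eq_pow_mod j g3]; exact congrArg Subtype.val hj
    have hi : i % 3 = 0 ∨ i % 3 = 1 ∨ i % 3 = 2 := by omega
    have hj : j % 3 = 0 ∨ j % 3 = 1 ∨ j % 3 = 2 := by omega
    rcases hi with hi | hi | hi <;> rcases hj with hj | hj | hj <;> rw [hi] at hi' <;>
      rw [hj] at hj'
    all_goals first
      | exact a1 (by rw [← hi', pow_zero])
      | exact b1 (by rw [← hj', pow_zero])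
      | exact ab1 (by rw [← hi', ← hj', ← pow_add]; exact g3)
      | exact ab2 (by rw [← hi', ← hj', ← pow_mul, ← pow_add]; exact g3)
      | exact ab2 (by
          rw [← hi', ← hj', ← pow_mul, ← pow_add, show 2 + 2 * 2 = 3 * 2 by rfl, pow_mul, g3,
            one_pow])
  have npow : ∀ g : G, (∀ n ∈ N, g * n * g⁻¹ ∈ N) → g ∈ Subgroup.normalizer (N : Set G) :=
    fun g hg => Subgroup.mem_normalizer_fintype hg
  have hAN : A ≤ Subgroup.normalizer (N : Set G) := by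
    rintro _ ⟨i, j, rfl⟩
    exact Subgroup.mul_mem _ (Subgroup.pow_mem _ (npow a na) i) (Subgroup.pow_mem _ (npow b nb) j)
  have hp : IsPGroup 3 A := fun g => ⟨1, Subtype.ext (by simpa using cube g g.2)⟩
  obtain ⟨n, hn⟩ := hp.exists_card_eq
  have := Cfsg.Agent.S0058.result A N hnc hAN (by rw [hn]; exact (hc.symm.pow_left n))
  apply hN
  rw [← this, eq_bot_iff]
  refine iSup₂_le fun g hg => ?_
  rintro d ⟨hd, hd'⟩
  have : Commute d g := (Subgroup.mem_centralizer_singleton_iff.1 hd')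
  exact key g hg.1 hg.2 d hd this

variable {F : Type*} [Field F]

/-- `pi3` as a permutation -/
def P3 (F : Type*) [Field F] : Equiv.Perm (V8 F) :=
  ⟨pi3, fun x => pi3 (pi3 x), fun x => pi3_three x, fun x => pi3_three x⟩

theorem ais {X : Type*} (f : Equiv.Perm X) (x : X) : f (f⁻¹ x) = x := f.apply_symm_apply x

theorem ias {X : Type*} (f : Equiv.Perm X) (x : X) : f⁻¹ (f x) = x := f.symm_apply_apply x

theorem isA_P3 : IsA mO 1 (P3 F) :=
  ⟨fun _ _ => rfl, fun _ _ => rfl, pi3_mO⟩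

theorem isA_mul {m : V8 F → V8 F → V8 F} {g h : Equiv.Perm (V8 F)} (hg : IsA m 1 g)
    (hh : IsA m 1 h) : IsA m 1 (g * h) :=
  ⟨fun x y => by rw [Equiv.Perm.mul_apply, hh.1, hg.1]; rfl,
    fun a x => by rw [Equiv.Perm.mul_apply, hh.2.1, hg.2.1]; rfl,
    fun x y => by rw [Equiv.Perm.mul_apply, hh.2.2, hg.2.2]; rfl⟩

theorem isA_inv {m : V8 F → V8 F → V8 F} {g : Equiv.Perm (V8 F)} (hg : IsA m 1 g) :
    IsA m 1 g⁻¹ :=
  ⟨fun x y => g.injective (by rw [hg.1]; simp),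
    fun a x => g.injective (by rw [hg.2.1]; simp),
    fun x y => g.injective (by rw [hg.2.2]; simp)⟩

theorem nat {ψ : F ≃+* F} {d : Equiv.Perm (V8 F)} (hd : IsA mO ψ d) (e x : V8 F) :
    d (rh e x) = rh (d e) (d x) := by
  rw [rh, hd.2.2, hd.2.2, rh]

theorem exR {e : V8 F} {φ : Equiv.Perm (V8 F)} (h : IsA mO 1 φ) (he : φ e = pe F) :
    ∃ R : Equiv.Perm (V8 F), IsA mO 1 R ∧ R ^ 3 = 1 ∧ ∀ x, R x = rh e x := by
  refine ⟨φ⁻¹ * P3 F * φ, isA_mul (isA_mul (isA_inv h) isA_P3) h, ?_, fun x => ?_⟩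
  · ext1 x
    simp only [pow_succ, pow_zero, one_mul, Equiv.Perm.mul_apply, ais,
      Equiv.Perm.one_apply]
    apply φ.injective
    rw [ais]
    exact pi3_three _
  · apply φ.injective
    rw [nat h, he, rh_pe]
    simp only [Equiv.Perm.mul_apply, ais]
    rfl

end O2

open O2

variable {F : Type*} [Field F]

theorem fin3_mO [Finite F] (h3 : (3 : F) ≠ 0) (nf : NFat F)
    (ok : ∀ N : Subgroup (Equiv.Perm (V8 F)), (∀ n ∈ N, ∃ ψ, IsA mO ψ n) →
      (Nat.card N).Coprime 3 → (∀ g, IsA mO 1 g → ∀ n ∈ N, g * n * g⁻¹ ∈ N) →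
      ∀ d, d ∈ N → (∀ x, d (pi3 x) = pi3 (d x)) → ∀ x, pi3 x = x → d x = x) :
    Fin3 (mO (F := F)) := by
  intro N hN hc hn
  have okE : ∀ (e : V8 F) (φ : Equiv.Perm (V8 F)), IsA mO 1 φ → φ e = pe F → ∀ d ∈ N,
      (∀ x, d (rh e x) = rh e (d x)) → ∀ x, rh e x = x → d x = x := by
    intro e φ hφ he d hd hcm x hx
    have t : ∀ y, pi3 (φ y) = φ (rh e y) := fun y => by rw [nat hφ, he, rh_pe]
    have := ok N hN hc hn _ (hn φ hφ d hd) (fun y => by
      obtain ⟨y, rfl⟩ := φ.surjective y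
      rw [t]
      simp only [Equiv.Perm.mul_apply, ias]
      rw [t, hcm]) (φ x) (by rw [t, hx])
    simp only [Equiv.Perm.mul_apply, ias] at this
    exact φ.injective this
  obtain ⟨φ1, hφ1, he1⟩ := good1 nf
  obtain ⟨φ2, hφ2, he2⟩ := good2 nf
  have hφ0 : IsA mO 1 (1 : Equiv.Perm (V8 F)) := ⟨fun _ _ => rfl, fun _ _ => rfl, fun _ _ => rfl⟩
  obtain ⟨R1, a1, c1, r1⟩ := exR hφ1 he1
  obtain ⟨R2, a2, c2, r2⟩ := exR hφ2 he2
  have c0 : P3 F ^ 3 = 1 := by
    ext1 x; exact pi3_three x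
  have all : ∀ d ∈ N, d (pe F) = pe F → d (e1 F) = e1 F → d (e2 F) = e2 F → d = 1 := by
    intro d hd h0 h1 h2
    obtain ⟨ψ, hψ⟩ := hN d hd
    ext1 x
    obtain ⟨a, b, c, ha, hb, hc', hx⟩ := dec ((3 : F)⁻¹ • x)
    rw [smul_smul, mul_inv_cancel₀ h3, one_smul] at hx
    rw [hx, hψ.1, hψ.1, okE (pe F) 1 hφ0 rfl d hd (fun y => by rw [nat hψ, h0]) a (by rw [rh_pe, ha]),
      okE _ φ1 hφ1 he1 d hd (fun y => by rw [nat hψ, h1]) b hb,
      okE _ φ2 hφ2 he2 d hd (fun y => by rw [nat hψ, h2]) c hc']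
    rfl
  have K0 : ∀ d ∈ N, Commute d (P3 F) → d = 1 := fun d hd h => by
    have k := okE (pe F) 1 hφ0 rfl d hd (fun y => by
      rw [rh_pe, rh_pe]; exact congrArg (fun g : Equiv.Perm (V8 F) => g y) h.eq)
    exact all d hd (k _ (by rw [rh_pe, f00])) (k _ (by rw [rh_pe, f01])) (k _ (by rw [rh_pe, f02]))
  have K1 : ∀ d ∈ N, Commute d R1 → d = 1 := fun d hd h => by
    have k := okE _ φ1 hφ1 he1 d hd (fun y => by
      rw [← r1, ← r1]; exact congrArg (fun g : Equiv.Perm (V8 F) => g y) h.eq)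
    exact all d hd (k _ f10) (k _ f11) (k _ f12)
  have K2 : ∀ d ∈ N, Commute d R2 → d = 1 := fun d hd h => by
    have k := okE _ φ2 hφ2 he2 d hd (fun y => by
      rw [← r2, ← r2]; exact congrArg (fun g : Equiv.Perm (V8 F) => g y) h.eq)
    exact all d hd (k _ f20) (k _ f21) (k _ f22)
  have m1 : Commute (P3 F) R1 := by
    ext1 x
    rw [Equiv.Perm.mul_apply, Equiv.Perm.mul_apply, r1, r1, nat isA_P3]
    congr 1
    exact f01
  have m2 : Commute (P3 F) R2 := by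
    ext1 x
    rw [Equiv.Perm.mul_apply, Equiv.Perm.mul_apply, r2, r2, nat isA_P3]
    congr 1
    exact f02
  have rl : P3 F * R1 = R2⁻¹ := by
    rw [eq_inv_iff_mul_eq_one]
    ext1 x
    rw [Equiv.Perm.mul_apply, Equiv.Perm.mul_apply, r2, r1]
    exact rel x
  refine gen N (P3 F) R1 m1 c0 c1 (hn _ isA_P3) (hn _ a1) hc K0 K1
    (fun d hd h => K2 d hd (by rw [rl] at h; exact Commute.inv_right_iff.1 h)) ?_
  intro d hd h
  obtain ⟨ψ, hψ⟩ := hN d hd
  have fin : ∀ R : Equiv.Perm (V8 F), R ^ 3 = 1 → Commute (P3 F) R →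
      (∀ x, R x = rh (d (pe F)) x) → d = 1 := by
    intro R hR hm hr
    have e : d * P3 F = R * d := by
      ext1 x
      rw [Equiv.Perm.mul_apply, Equiv.Perm.mul_apply, hr, ← nat hψ, rh_pe]
      rfl
    have hmem : R * (P3 F)⁻¹ ∈ N := by
      have := N.mul_mem hd (hn _ isA_P3 _ (N.inv_mem hd))
      rw [← mul_assoc, ← mul_assoc, e] at this
      simpa using this
    have h3' : (R * (P3 F)⁻¹) ^ 3 = 1 := by
      rw [hm.symm.inv_right.mul_pow, inv_pow, hR, c0]; simp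
    have hN' : (R * (P3 F)⁻¹) ^ Nat.card N = 1 := by
      have := pow_card_eq_one' (G := N) (x := ⟨_, hmem⟩)
      exact congrArg Subtype.val this
    have h1 : R * (P3 F)⁻¹ = 1 := by
      have := (pow_gcd_eq_one (a := R * (P3 F)⁻¹) (m := Nat.card N) (n := 3)).2 ⟨hN', h3'⟩
      rwa [hc.gcd_eq_one, pow_one] at this
    rw [mul_inv_eq_one] at h1
    rw [h1] at e
    exact K0 d hd e
  have hz : d (pe F) ≠ 0 := by
    intro h0
    have d0 : d 0 = 0 := by
      have := hψ.1 0 0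
      rw [add_zero] at this
      exact left_eq_add.1 this
    have := congrFun (d.injective (h0.trans d0.symm)) (.inl 0)
    simp [pe] at this
  have hi : mO (d (pe F)) (d (pe F)) = d (pe F) := by rw [← hψ.2.2, id0]
  have hy : (P3 F * R1 ^ 2) (d (pe F)) = d (pe F) := by
    have := congrArg (fun g : Equiv.Perm (V8 F) => g (pe F)) h.eq
    simp only [Equiv.Perm.mul_apply] at this
    rw [Equiv.Perm.mul_apply, ← this, pow_two, Equiv.Perm.mul_apply, r1, r1, f10, f10]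
    exact congrArg d f00
  have hf : pi3 (d (pe F)) = rh (e1 F) (d (pe F)) := by
    have : R1 * (P3 F * R1 ^ 2) = P3 F := by
      rw [← mul_assoc, ← m1.eq, mul_assoc, ← pow_succ', c1, mul_one]
    rw [← r1]
    conv_rhs => rw [← hy, ← Equiv.Perm.mul_apply, this]
    rfl
  rcases idem h3 _ hz hi hf with k | k | k
  · exact fin (P3 F) c0 (Commute.refl _) (fun x => by rw [k, rh_pe]; rfl)
  · exact fin R1 c1 m1 (fun x => by rw [k, r1])
  · exact fin R2 c2 m2 (fun x => by rw [k, r2])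

end Cfsg.Agent.H12.Tr
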