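import Cfsg.Agent.H12.TrP1
import Cfsg.Agent.H11.Syl
import Cfsg.Agent.S0058

set_option autoImplicit false
set_option linter.unusedSectionVars false

namespace Cfsg.Agent.H12.Tr

open Subgroup

namespace P2

variable {F : Type*} [Field F]

/-- block action of a pair of `3 × 3` matrices -/
def act (A B : Fin 3 → Fin 3 → F) (x : V8 F) : V8 F := Sum.elim
  ![x (.inl 0), A 0 0 * x (.inl 1) + A 0 1 * x (.inl 2) + A 0 2 * x (.inl 3),
    A 1 0 * x (.inl 1) + A 1 1 * x (.inl 2) + A 1 2 * x (.inl 3),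
    A 2 0 * x (.inl 1) + A 2 1 * x (.inl 2) + A 2 2 * x (.inl 3)]
  ![x (.inr 0), B 0 0 * x (.inr 1) + B 0 1 * x (.inr 2) + B 0 2 * x (.inr 3),
    B 1 0 * x (.inr 1) + B 1 1 * x (.inr 2) + B 1 2 * x (.inr 3),
    B 2 0 * x (.inr 1) + B 2 1 * x (.inr 2) + B 2 2 * x (.inr 3)]

/-- cofactor matrix -/
def cof (A : Fin 3 → Fin 3 → F) : Fin 3 → Fin 3 → F :=
  ![![A 1 1 * A 2 2 - A 1 2 * A 2 1, A 1 2 * A 2 0 - A 1 0 * A 2 2, A 1 0 * A 2 1 - A 1 1 * A 2 0],
    ![A 2 1 * A 0 2 - A 2 2 * A 0 1, A 2 2 * A 0 0 - A 2 0 * A 0 2, A 2 0 * A 0 1 - A 2 1 * A 0 0],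
    ![A 0 1 * A 1 2 - A 0 2 * A 1 1, A 0 2 * A 1 0 - A 0 0 * A 1 2, A 0 0 * A 1 1 - A 0 1 * A 1 0]]

/-- determinant -/
def dt (A : Fin 3 → Fin 3 → F) : F := A 0 0 * (A 1 1 * A 2 2 - A 1 2 * A 2 1) +
  A 0 1 * (A 1 2 * A 2 0 - A 1 0 * A 2 2) + A 0 2 * (A 1 0 * A 2 1 - A 1 1 * A 2 0)

/-- the permutation given by a matrix of determinant one -/
def gA (A : Fin 3 → Fin 3 → F) (h : dt A = 1) : Equiv.Perm (V8 F) where
  toFun := act A (cof A)
  invFun := act (fun i j => cof A j i) (fun i j => A j i)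
  left_inv x := by
    unfold dt at h
    apply V8_ext <;> simp [act, cof]
    · linear_combination x (.inl 1) * h
    · linear_combination x (.inl 2) * h
    · linear_combination x (.inl 3) * h
    · linear_combination x (.inr 1) * h
    · linear_combination x (.inr 2) * h
    · linear_combination x (.inr 3) * h
  right_inv x := by
    unfold dt at h
    apply V8_ext <;> simp [act, cof]
    · linear_combination x (.inl 1) * h
    · linear_combination x (.inl 2) * h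
    · linear_combination x (.inl 3) * h
    · linear_combination x (.inr 1) * h
    · linear_combination x (.inr 2) * h
    · linear_combination x (.inr 3) * h

theorem gA_apply (A : Fin 3 → Fin 3 → F) (h : dt A = 1) (x : V8 F) :
    gA A h x = act A (cof A) x := rfl

theorem act_pm (A : Fin 3 → Fin 3 → F) (h : dt A = 1) (x y : V8 F) :
    act A (cof A) (pm x y) = pm (act A (cof A) x) (act A (cof A) y) := by
  unfold dt at h
  apply V8_ext <;> simp [act, cof, pm]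
  · linear_combination -(x (.inl 1) * y (.inr 1) + x (.inl 2) * y (.inr 2) +
      x (.inl 3) * y (.inr 3)) * h
  · linear_combination (A 0 0 * (x (.inr 2) * y (.inr 3) - x (.inr 3) * y (.inr 2)) +
      A 0 1 * (x (.inr 3) * y (.inr 1) - x (.inr 1) * y (.inr 3)) +
      A 0 2 * (x (.inr 1) * y (.inr 2) - x (.inr 2) * y (.inr 1))) * h
  · linear_combination (A 1 0 * (x (.inr 2) * y (.inr 3) - x (.inr 3) * y (.inr 2)) +
      A 1 1 * (x (.inr 3) * y (.inr 1) - x (.inr 1) * y (.inr 3)) +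
      A 1 2 * (x (.inr 1) * y (.inr 2) - x (.inr 2) * y (.inr 1))) * h
  · linear_combination (A 2 0 * (x (.inr 2) * y (.inr 3) - x (.inr 3) * y (.inr 2)) +
      A 2 1 * (x (.inr 3) * y (.inr 1) - x (.inr 1) * y (.inr 3)) +
      A 2 2 * (x (.inr 1) * y (.inr 2) - x (.inr 2) * y (.inr 1))) * h
  · linear_combination -(x (.inr 1) * y (.inl 1) + x (.inr 2) * y (.inl 2) +
      x (.inr 3) * y (.inl 3)) * h
  · ring
  · ring
  · ring

theorem isA_gA (σ : F ≃+* F) (A : Fin 3 → Fin 3 → F) (h : dt A = 1) (hA : ∀ i j, σ (A i j) = A i j) :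
    IsA (mS σ) 1 (gA A h) := by
  have e : ∀ x : V8 F, act A (cof A) (fun i => σ (x i)) = fun i => σ (act A (cof A) x i) := by
    intro x
    apply V8_ext <;> simp [act, cof, hA]
  refine ⟨fun x y => ?_, fun a x => ?_, fun x y => ?_⟩
  · simp only [gA_apply]
    apply V8_ext <;> simp [act] <;> ring
  · simp only [gA_apply]
    apply V8_ext <;> simp [act] <;> ring
  · simp only [gA_apply, mS]
    rw [act_pm A h, e, e (fun i => σ (y i)), e]

theorem isA_one (m : V8 F → V8 F → V8 F) : IsA m 1 1 :=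
  ⟨fun _ _ => rfl, fun _ _ => rfl, fun _ _ => rfl⟩

theorem isA_mul {m : V8 F → V8 F → V8 F} {ψ φ : F ≃+* F} {g h : Equiv.Perm (V8 F)}
    (hg : IsA m ψ g) (hh : IsA m φ h) : IsA m (ψ * φ) (g * h) :=
  ⟨fun x y => by simp only [Equiv.Perm.mul_apply, hh.1, hg.1],
    fun a x => by simp only [Equiv.Perm.mul_apply, hh.2.1, hg.2.1]; rfl,
    fun x y => by simp only [Equiv.Perm.mul_apply, hh.2.2, hg.2.2]⟩

theorem isA_inv {m : V8 F → V8 F → V8 F} {ψ : F ≃+* F} {g : Equiv.Perm (V8 F)}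
    (hg : IsA m ψ g) : IsA m ψ⁻¹ g⁻¹ :=
  ⟨fun x y => g.injective (by simp [hg.1]),
    fun a x => g.injective (by
      have e : ψ (ψ⁻¹ a) = a := ψ.apply_symm_apply a
      rw [hg.2.1, e]; simp),
    fun x y => g.injective (by simp [hg.2.2])⟩

theorem isA_pow {m : V8 F → V8 F → V8 F} {ψ : F ≃+* F} {g : Equiv.Perm (V8 F)}
    (hg : IsA m ψ g) (k : ℕ) : IsA m (ψ ^ k) (g ^ k) := by
  induction k with
  | zero => exact isA_one m
  | succ k ih => rw [pow_succ, pow_succ]; exact isA_mul ih hg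

theorem isA_sub {m : V8 F → V8 F → V8 F} {ψ : F ≃+* F} {g : Equiv.Perm (V8 F)}
    (hg : IsA m ψ g) (x y : V8 F) : g (x - y) = g x - g y := by
  rw [eq_sub_iff_add_eq, ← hg.1, sub_add_cancel]

theorem Ll_add {x y : V8 F} (hx : Ll x) (hy : Ll y) : Ll (x + y) := fun i h1 h2 => by
  rw [Pi.add_apply, hx i h1 h2, hy i h1 h2, add_zero]
theorem Ll_neg {x : V8 F} (hx : Ll x) : Ll (-x) := fun i h1 h2 => by
  rw [Pi.neg_apply, hx i h1 h2, neg_zero]
theorem Lp_add {x y : V8 F} (hx : Lp x) (hy : Lp y) : Lp (x + y) :=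
  ⟨by rw [Pi.add_apply, hx.1, hy.1, add_zero], by rw [Pi.add_apply, hx.2, hy.2, add_zero]⟩
theorem Lp_neg {x : V8 F} (hx : Lp x) : Lp (-x) :=
  ⟨by rw [Pi.neg_apply, hx.1, neg_zero], by rw [Pi.neg_apply, hx.2, neg_zero]⟩
theorem Lp_of {x : V8 F} (hx : Ll x) : Lp x := ⟨hx _ (by simp) (by simp), hx _ (by simp) (by simp)⟩

/-- the unipotent group -/
def Qg (m : V8 F → V8 F → V8 F) : Subgroup (Equiv.Perm (V8 F)) where
  carrier := {g | IsA m 1 g ∧ InQ g}
  one_mem' := ⟨isA_one m, fun _ _ => rfl, fun x _ i _ _ => by simp, fun x => ⟨by simp, by simp⟩⟩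
  mul_mem' := fun {g h} hg hh => ⟨by simpa using isA_mul hg.1 hh.1,
    fun x hx => by rw [Equiv.Perm.mul_apply, hh.2.1 x hx, hg.2.1 x hx],
    fun x hx => by
      have h1 := hh.2.2.1 x hx
      have h2 := hg.2.2.1 (h x) (by simpa using Lp_add (Lp_of h1) hx)
      simpa using Ll_add h2 h1,
    fun x => by simpa using Lp_add (hg.2.2.2 (h x)) (hh.2.2.2 x)⟩
  inv_mem' := fun {g} hg => ⟨by simpa using isA_inv hg.1,
    fun x hx => by rw [Equiv.Perm.inv_eq_iff_eq, hg.2.1 x hx],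
    fun x hx => by
      have h1 := Lp_neg (hg.2.2.2 (g⁻¹ x))
      have h2 := hg.2.2.1 (g⁻¹ x) (by simpa using Lp_add h1 hx)
      simpa using Ll_neg h2,
    fun x => by simpa using Lp_neg (hg.2.2.2 (g⁻¹ x))⟩

theorem pw {m : V8 F → V8 F → V8 F} {g : Equiv.Perm (V8 F)} (hg : IsA m 1 g) {x : V8 F}
    (hy : g (g x - x) = g x - x) (k : ℕ) : (g ^ k) x = x + (k : F) • (g x - x) := by
  induction k with
  | zero => simp
  | succ k ih =>
    rw [pow_succ', Equiv.Perm.mul_apply, ih, hg.1, hg.2.1, hy]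
    push_cast
    show g x + (k : F) • (g x - x) = _
    module

theorem Qg_pg (m : V8 F → V8 F → V8 F) {r : ℕ} (hr : (r : F) = 0) : IsPGroup r (Qg m) := by
  rintro ⟨g, hg⟩
  refine ⟨2, Subtype.ext ?_⟩
  have hh := pow_mem hg r
  have h1 : ∀ x, Lp x → (g ^ r) x = x := fun x hx => by
    rw [pw hg.1 (hg.2.1 _ (hg.2.2.1 x hx)), hr, zero_smul, add_zero]
  ext1 x
  show (g ^ (r ^ 2)) x = x
  rw [pow_two, pow_mul, pw hh.1 (h1 _ (hh.2.2.2 x)), hr, zero_smul, add_zero]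

/-- transvection type elements -/
def T (a b : F) : Equiv.Perm (V8 F) := gA ![![1, a, b], ![0, 1, 0], ![0, 0, 1]] (by simp [dt])

theorem T_isA (σ : F ≃+* F) {a b : F} (ha : σ a = a) (hb : σ b = b) : IsA (mS σ) 1 (T a b) :=
  isA_gA σ _ _ fun i j => by fin_cases i <;> fin_cases j <;> simp [ha, hb]

theorem T_mul (a b c d : F) : T a b * T c d = T (a + c) (b + d) := by
  ext1 x
  apply V8_ext <;> simp [T, gA_apply, act, cof] <;> ring

theorem T_zero : T (0 : F) 0 = 1 := by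
  ext1 x
  apply V8_ext <;> simp [T, gA_apply, act, cof]

theorem T_inj {a b c d : F} (h : T a b = T c d) : a = c ∧ b = d := by
  have h1 := congrArg (fun g : Equiv.Perm (V8 F) => g (Pi.single (.inl 2) 1) (.inl 1)) h
  have h2 := congrArg (fun g : Equiv.Perm (V8 F) => g (Pi.single (.inl 3) 1) (.inl 1)) h
  simp [T, gA_apply, act] at h1 h2
  exact ⟨h1, h2⟩

theorem T_pow (a b : F) (k : ℕ) : T a b ^ k = T (k * a) (k * b) := by
  induction k with
  | zero => simp [T_zero]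
  | succ k ih => rw [pow_succ, ih, T_mul]; push_cast; congr 1 <;> ring

theorem T_zz (s : F) (x : V8 F) : T 0 s x = zz s x := by
  apply V8_ext <;> simp [T, gA_apply, act, cof, zz] <;> ring

theorem T_Qg (σ : F ≃+* F) {s : F} (hs : σ s = s) : T 0 s ∈ Qg (mS σ) := by
  refine ⟨T_isA σ (map_zero σ) hs, fun x hx => ?_, fun x hx => ?_, fun x => ?_⟩
  · rw [T_zz, zz, (Lp_of hx).1, (Lp_of hx).2]; simp
  · rw [T_zz, zz, hx.1, hx.2]; intro i _ _; simp
  · rw [T_zz]; constructor <;> simp [zz]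

theorem T_sub (s : F) (x : V8 F) : T 0 s x - x = s • (T 0 1 x - x) := by
  apply V8_ext <;> simp [T_zz, zz]

theorem Lp_iff {x : V8 F} : Lp x ↔ T 0 1 x = x := by
  constructor
  · intro hx; rw [T_zz, zz, hx.1, hx.2]; simp
  · intro h
    have h1 := congrFun h (.inl 1)
    have h2 := congrFun h (.inr 3)
    simp [T_zz, zz] at h1 h2
    exact ⟨h1, h2⟩

theorem Ll_iff {x : V8 F} : Ll x ↔ ∃ y, x = T 0 1 y - y := by
  constructor
  · intro hx
    refine ⟨Pi.single (.inl 3) (x (.inl 1)) - Pi.single (.inr 1) (x (.inr 3)), ?_⟩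
    apply V8_ext <;> simp [T_zz, zz] <;> exact hx _ (by simp) (by simp)
  · rintro ⟨y, rfl⟩ i h1 h2
    simp [T_zz, zz, h1, h2]

theorem conjT (σ : F ≃+* F) {a b : F} (ha : σ a = a) (hb : σ b = b) (h : T a b ≠ 1) :
    ∃ g, IsA (mS σ) 1 g ∧ g * T 0 1 = T a b * g := by
  by_cases hb0 : b = 0
  · subst hb0
    have ha0 : a ≠ 0 := fun e => h (by rw [e, T_zero])
    refine ⟨gA ![![a, 0, 0], ![0, 0, 1], ![0, -a⁻¹, 0]] (by simp [dt, ha0]),
      isA_gA σ _ _ fun i j => by fin_cases i <;> fin_cases j <;> simp [ha], ?_⟩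
    ext1 x
    apply V8_ext <;> simp [T, gA_apply, act, cof] <;> field_simp <;> ring
  · refine ⟨gA ![![b, 0, 0], ![0, b⁻¹, 0], ![0, -(a * b⁻¹ * b⁻¹), 1]] (by simp [dt, hb0]),
      isA_gA σ _ _ fun i j => by fin_cases i <;> fin_cases j <;> simp [ha, hb], ?_⟩
    ext1 x
    apply V8_ext <;> simp [T, gA_apply, act, cof] <;> field_simp <;> ring

theorem ord3 (h3 : (3 : F) ≠ 0) (σ : F ≃+* F) {s : F} (hs : σ s = s) (h0 : s ≠ 0) :
    ∃ g, IsA (mS σ) 1 g ∧ (T 0 s * (g * T 0 s * g⁻¹)) ^ 3 = 1 ∧ T 0 s * (g * T 0 s * g⁻¹) ≠ 1 := by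
  let g : Equiv.Perm (V8 F) := gA ![![0, 0, 1], ![0, s * s * 3⁻¹, 0], ![-(3 * s⁻¹ * s⁻¹), 0, 0]]
    (by simp [dt]; field_simp)
  let l : Equiv.Perm (V8 F) := gA ![![1, 0, 0], ![0, 1, 0], ![-(3 * s⁻¹), 0, 1]] (by simp [dt])
  have e : g * T 0 s * g⁻¹ = l := by
    rw [mul_inv_eq_iff_eq_mul]
    ext1 x
    apply V8_ext <;> simp [g, l, T, gA_apply, act, cof] <;> field_simp <;> ring
  refine ⟨g, isA_gA σ _ _ fun i j => by
    fin_cases i <;> fin_cases j <;> simp [hs, map_ofNat], ?_, ?_⟩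
  · rw [e]
    ext1 x
    apply V8_ext <;> simp [l, T, gA_apply, act, cof, pow_succ] <;> field_simp <;> ring
  · rw [e]
    intro h
    have h2 := congrArg (fun g : Equiv.Perm (V8 F) => g (Pi.single (.inl 3) 1) (.inl 1)) h
    simp [l, T, gA_apply, act] at h2
    exact h0 h2

theorem pm_pe : pm (pe F) (pe F) = pe F := by
  apply V8_ext <;> simp [pm, pe]

theorem psi_one {σ ψ : F ≃+* F} (hσ : ∀ a, σ (σ (σ a)) = a) {d : Equiv.Perm (V8 F)}
    (hd : IsA (mS σ) ψ d) {n : ℕ} (hn : n.Coprime 3) (h1 : d ^ n = 1)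
    (hfix : ∀ s, σ s = s → ψ s = s) : ψ = 1 := by
  have pe1 : ∀ τ : F ≃+* F, (fun i => τ (pe F i)) = pe F := fun τ => by
    apply V8_ext <;> simp [pe]
  have mpe : mS σ (pe F) (pe F) = pe F := by
    have := pe1 (σ * σ)
    rw [mS, pe1]; exact (congrArg _ this).trans pm_pe
  have sm : ∀ (a : F) x y, mS σ (a • x) y = σ a • mS σ x y := fun a x y => by
    apply V8_ext <;> simp [mS, pm] <;> ring
  have d0 : d 0 = 0 := by simpa using isA_sub hd 0 0
  have dpe : d (pe F) ≠ 0 := fun e => by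
    have := congrFun (d.injective (e.trans d0.symm)) (.inl 0)
    simp [pe] at this
  have cm : ∀ a, ψ (σ a) = σ (ψ a) := fun a => by
    have := hd.2.2 (a • pe F) (pe F)
    rw [sm, hd.2.1, hd.2.1, sm, ← hd.2.2, mpe] at this
    exact smul_left_injective F dpe this
  have p3 : ψ ^ 3 = 1 := by
    ext x
    have e1 := hfix (x + σ x + σ (σ x)) (by simp only [map_add, hσ]; ring)
    have e2 := hfix (x * σ x + σ x * σ (σ x) + σ (σ x) * x) (by simp only [map_add, map_mul, hσ]; ring)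
    have e3 := hfix (x * σ x * σ (σ x)) (by simp only [map_mul, hσ]; ring)
    have z : ψ (x * x * x - (x + σ x + σ (σ x)) * (x * x) +
        (x * σ x + σ x * σ (σ x) + σ (σ x) * x) * x - x * σ x * σ (σ x)) = 0 := by
      rw [← map_zero ψ]; congr 1; ring
    rw [map_sub, map_add, map_sub, map_mul ψ _ (x * x), map_mul ψ _ x, map_mul ψ _ x, map_mul ψ _ x,
      e1, e2, e3] at z
    have z2 : (ψ x - x) * (ψ x - σ x) * (ψ x - σ (σ x)) = 0 := by linear_combination z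
    show ψ (ψ (ψ x)) = x
    rcases mul_eq_zero.1 z2 with z3 | z3
    · rcases mul_eq_zero.1 z3 with z4 | z4
      · rw [sub_eq_zero] at z4; rw [z4, z4, z4]
      · rw [sub_eq_zero] at z4; simp only [z4, cm, hσ]
    · rw [sub_eq_zero] at z3; simp only [z3, cm, hσ]
  have pn : ψ ^ n = 1 := by
    ext a
    have := congrFun ((isA_pow hd n).2.1 a (pe F)) (.inl 0)
    rw [h1] at this
    simpa [pe] using this.symm
  have := Nat.dvd_gcd (orderOf_dvd_of_pow_eq_one pn) (orderOf_dvd_of_pow_eq_one p3)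
  rw [hn.gcd_eq_one, Nat.dvd_one, orderOf_eq_one_iff] at this
  exact this

end P2

open P2 in
theorem fin3_mS_of {F : Type*} [Field F] [Finite F] (h3 : (3 : F) ≠ 0) (σ : F ≃+* F)
    (hσ : ∀ a, σ (σ (σ a)) = a)
    (pt : ∀ d, IsA (mS σ) 1 d → (∀ g, IsA (mS σ) 1 g → InQ g → g * d = d * g) →
      ∃ s, σ s = s ∧ ∀ x, d x = zz s x) : Fin3 (mS σ) := by
  classical
  intro N hN hc hn
  obtain ⟨r, hr⟩ := CharP.exists F
  have rp : r.Prime := CharP.char_is_prime F r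
  haveI : Fact r.Prime := ⟨rp⟩
  have r0 : (r : F) = 0 := CharP.cast_eq_zero F r
  have nrm : ∀ g, IsA (mS σ) 1 g → g ∈ normalizer (N : Set (Equiv.Perm (V8 F))) := fun g hg =>
    H11.mem_normalizer_of_forall (hn g hg)
  have s1 : N ⊓ Qg (mS σ) = ⊥ := by
    by_contra hne
    obtain ⟨d, hd, d1, hdc⟩ := H11.exists_mem_centralizer_of_normalized (P := Qg (mS σ))
      (Qg_pg _ r0) ((Qg_pg _ r0).to_le inf_le_right) hne (fun g hg =>
        H11.mem_normalizer_of_forall fun x hx => mem_inf.2 ⟨hn g hg.1 x (mem_inf.1 hx).1,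
          mul_mem (mul_mem hg (mem_inf.1 hx).2) (inv_mem hg)⟩)
    obtain ⟨s, hs, hds⟩ := pt d (mem_inf.1 hd).2.1 fun g h1 h2 => hdc g ⟨h1, h2⟩
    have e : d = T 0 s := Equiv.ext fun x => by rw [hds, T_zz]
    subst e
    obtain ⟨g, hg, o3, n1⟩ := ord3 h3 σ hs (fun e => d1 (by rw [e, T_zero]))
    haveI : Fact (Nat.Prime 3) := ⟨Nat.prime_three⟩
    have := orderOf_dvd_natCard N (mul_mem (mem_inf.1 hd).1 (hn g hg _ (mem_inf.1 hd).1))
    rw [orderOf_eq_prime o3 n1] at this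
    exact absurd (Nat.Coprime.eq_one_of_dvd hc.symm this) (by norm_num)
  have s2 : ∀ d ∈ N, d * T 0 1 = T 0 1 * d → d = 1 := by
    intro d hd hdu
    obtain ⟨ψ, hψ⟩ := hN d hd
    have key : ∀ d : Equiv.Perm (V8 F), (∀ x y, d (x - y) = d x - d y) → d * T 0 1 = T 0 1 * d →
        (∀ x, Ll x → Ll (d x)) ∧ ∀ x, Lp x → Lp (d x) := by
      intro d hs hu
      have hu' : ∀ x, d (T 0 1 x) = T 0 1 (d x) := fun x => congrArg (fun g => g x) hu
      refine ⟨fun x hx => ?_, fun x hx => ?_⟩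
      · obtain ⟨y, rfl⟩ := Ll_iff.1 hx
        exact Ll_iff.2 ⟨d y, by rw [hs, hu']⟩
      · rw [Lp_iff] at hx ⊢
        rw [← hu', hx]
    have k1 := key d (isA_sub hψ) hdu
    have k2 := key d⁻¹ (isA_sub (isA_inv hψ)) (Commute.inv_left hdu)
    have cen : ∀ g ∈ Qg (mS σ), g * d = d * g := by
      intro g hg
      have q1 : d * g * d⁻¹ ∈ Qg (mS σ) := by
        refine ⟨by simpa using isA_mul (isA_mul hψ hg.1) (isA_inv hψ), fun x hx => ?_,
          fun x hx => ?_, fun x => ?_⟩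
        · rw [Equiv.Perm.mul_apply, Equiv.Perm.mul_apply, hg.2.1 _ (k2.1 x hx)]; simp
        · have := k1.1 _ (hg.2.2.1 _ (k2.2 x hx))
          rw [isA_sub hψ] at this
          simpa using this
        · have := k1.2 _ (hg.2.2.2 (d⁻¹ x))
          rw [isA_sub hψ] at this
          simpa using this
      have q2 : d * g * d⁻¹ * g⁻¹ ∈ N ⊓ Qg (mS σ) := mem_inf.2 ⟨by
        have := mul_mem hd (hn g hg.1 _ (inv_mem hd))
        simpa [mul_assoc] using this, mul_mem q1 (inv_mem hg)⟩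
      rw [s1, mem_bot, mul_inv_eq_one, mul_inv_eq_iff_eq_mul] at q2
      exact q2.symm
    have hfix : ∀ s, σ s = s → ψ s = s := by
      intro s hs
      have c1 : ∀ x, T 0 s (d x) = d (T 0 s x) := fun x =>
        congrArg (fun g => g x) (cen _ (T_Qg σ hs))
      have c2 : ∀ x, d (T 0 1 x) = T 0 1 (d x) := fun x => congrArg (fun g => g x) hdu
      let x : V8 F := Pi.single (.inl 3) 1
      have e1 : d (T 0 s x - x) = T 0 s (d x) - d x := by rw [isA_sub hψ, c1]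
      rw [T_sub, T_sub s, hψ.2.1, ← c2, ← isA_sub hψ] at e1
      refine smul_left_injective F (fun e => ?_) e1
      have d0 : d 0 = 0 := by simpa using isA_sub hψ 0 0
      have := congrFun (d.injective (e.trans d0.symm)) (.inl 1)
      simp [x, T_zz, zz] at this
    have p1 : ψ = 1 := psi_one hσ hψ hc (n := Nat.card N)
      (orderOf_dvd_iff_pow_eq_one.1 (orderOf_dvd_natCard N hd)) hfix
    subst p1
    obtain ⟨s, hs, hds⟩ := pt d hψ fun g h1 h2 => cen g ⟨h1, h2⟩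
    have e : d = T 0 s := Equiv.ext fun x => by rw [hds, T_zz]
    have : d ∈ N ⊓ Qg (mS σ) := mem_inf.2 ⟨hd, e ▸ T_Qg σ hs⟩
    rwa [s1, mem_bot] at this
  have s3 : ¬ r ∣ Nat.card N := by
    intro hd
    let u : normalizer (N : Set (Equiv.Perm (V8 F))) := ⟨T 0 1, nrm _ (T_Qg σ (map_one σ)).1⟩
    have hp : IsPGroup r (zpowers u) := by
      refine IsPGroup.of_card_dvd_pow (n := 1) ?_
      rw [Nat.card_zpowers, pow_one]
      exact orderOf_dvd_of_pow_eq_one (Subtype.ext (by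
        show T 0 1 ^ r = 1
        rw [T_pow, r0, zero_mul, zero_mul, T_zero]))
    obtain ⟨b, hb, hb1⟩ := hp.exists_fixed_point_of_prime_dvd_card_of_fixed_point N hd (a := 1)
      (fun g => smul_one g)
    have := congrArg Subtype.val (hb ⟨u, mem_zpowers u⟩)
    exact hb1 (Subtype.ext (s2 b b.2 (mul_inv_eq_iff_eq_mul.1 this).symm).symm)
  let E : Subgroup (Equiv.Perm (V8 F)) :=
    { carrier := {g | ∃ a b, σ a = a ∧ σ b = b ∧ g = T a b}
      one_mem' := ⟨0, 0, map_zero σ, map_zero σ, T_zero.symm⟩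
      mul_mem' := by
        rintro _ _ ⟨a, b, ha, hb, rfl⟩ ⟨c, d, hc, hd, rfl⟩
        exact ⟨a + c, b + d, by rw [map_add, ha, hc], by rw [map_add, hb, hd], T_mul _ _ _ _⟩
      inv_mem' := by
        rintro _ ⟨a, b, ha, hb, rfl⟩
        exact ⟨-a, -b, by rw [map_neg, ha], by rw [map_neg, hb], by
          rw [inv_eq_iff_mul_eq_one, T_mul, add_neg_cancel, add_neg_cancel, T_zero]⟩ }
  have pE : IsPGroup r E := by
    rintro ⟨_, a, b, -, -, rfl⟩
    exact ⟨1, Subtype.ext (by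
      show T a b ^ (r ^ 1) = 1
      rw [pow_one, T_pow, r0, zero_mul, zero_mul, T_zero])⟩
  haveI : IsMulCommutative E := ⟨⟨by
    rintro ⟨_, a, b, -, -, rfl⟩ ⟨_, c, d, -, -, rfl⟩
    exact Subtype.ext (by
      show T a b * T c d = T c d * T a b
      rw [T_mul, T_mul, add_comm a, add_comm b])⟩⟩
  have nc : ¬ IsCyclic E := by
    intro hcy
    obtain ⟨g0, hg⟩ := IsCyclic.exists_monoid_generator (α := E)
    obtain ⟨_, a, b, ha, hb, rfl⟩ := g0
    obtain ⟨k, hk⟩ := hg ⟨T 1 0, 1, 0, map_one σ, map_zero σ, rfl⟩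
    obtain ⟨l, hl⟩ := hg ⟨T 0 1, 0, 1, map_zero σ, map_one σ, rfl⟩
    have e1 := T_inj ((T_pow a b k).symm.trans (congrArg Subtype.val hk))
    have e2 := T_inj ((T_pow a b l).symm.trans (congrArg Subtype.val hl))
    have : (1 : F) = 0 := by
      linear_combination (-1 : F) * e1.1 - (k * a : F) * e2.2 + (l * a : F) * e1.2
    exact one_ne_zero this
  have gen := S0058.result E N nc (by
    rintro _ ⟨a, b, ha, hb, rfl⟩
    exact nrm _ (T_isA σ ha hb)) (by
    obtain ⟨k, hk⟩ := IsPGroup.iff_card.1 pE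
    rw [hk]
    exact Nat.Coprime.pow_left k ((Nat.Prime.coprime_iff_not_dvd rp).2 s3))
  rw [← gen, eq_bot_iff]
  refine iSup₂_le ?_
  rintro _ ⟨⟨a, b, ha, hb, rfl⟩, h1⟩ d hd
  obtain ⟨g, hg, hgT⟩ := conjT σ ha hb h1
  have hdc := H11.mem_cent1.1 (mem_inf.1 hd).2
  have := s2 (g⁻¹ * d * g⁻¹⁻¹) (hn _ (by simpa using isA_inv hg) d (mem_inf.1 hd).1) (by
    have e : T 0 1 = g⁻¹ * T a b * g := by rw [mul_assoc, ← hgT, inv_mul_cancel_left]
    rw [e, inv_inv]
    calc g⁻¹ * d * g * (g⁻¹ * T a b * g) = g⁻¹ * (d * T a b) * g := by group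
      _ = _ := by rw [hdc]; group)
  rw [mem_bot]
  simpa [mul_eq_one_iff_eq_inv] using this

theorem fin3_mS {F : Type*} [Field F] [Finite F] (h3 : (3 : F) ≠ 0) (σ : F ≃+* F)
    (hσ : ∀ a, σ (σ (σ a)) = a) : Fin3 (mS σ) :=
  fin3_mS_of h3 σ hσ fun d hd hc => pt1 h3 σ hσ d hd hc

end Cfsg.Agent.H12.Tr
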