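import Cfsg.Agent.H12.TrB
import Cfsg.Agent.H12.TrN2
import Cfsg.Agent.H12.TrN5b
import Cfsg.Agent.H12.TrP2
import Cfsg.Agent.H12.TrO2
import Cfsg.Agent.H12.TrO1

/-! Triality automorphisms of order three have trivial `3'`-core in their centralisers. -/

set_option autoImplicit false

namespace Cfsg.Agent.H12.Tr

variable {F : Type*} [Field F] [Finite F]

theorem fin3 (h3 : (3 : F) ≠ 0) (σ : F ≃+* F) (Q : QuadraticForm F (V8 F))
    (m : V8 F → V8 F → V8 F) (h : TC σ Q m) : Fin3 m := by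
  obtain ⟨e, e1, e2, e3⟩ := h.idem h3
  obtain ⟨φ, -, H | H⟩ := nf_at h3 σ Q m h e e1 e2 e3
  · exact Fin3.of_equiv φ H (fin3_mS h3 σ h.s3)
  · exact Fin3.of_equiv φ H (fin3_mO h3 (nf_at h3) fun N a b c d e f x g => okA h3 N a b c d e f x g)

theorem tri3 (x : MulAut (POmega F ⇑(H13.QPlus 4 F))) (hx3 : x ^ 3 = 1)
    (hx : x ∉ (H28.aut (H13.QPlus 4 F)).range) (h3 : (3 : F) ≠ 0)
    (A : Subgroup (MulAut (POmega F ⇑(H13.QPlus 4 F)))) (hA : ∀ k, MulAut.conj k ∈ A) :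
    pPrimeCore 3 ↥(A ⊓ Subgroup.centralizer {x}) = ⊥ :=
  tri3_of (fin3 h3) x hx3 hx A hA

end Cfsg.Agent.H12.Tr
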