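import Cfsg.Agent.H12.TrGA0
import Cfsg.Agent.H13.Tri3

/-! Local balance for `PΩ⁺`, reduced to the order three triality automorphisms. -/

set_option autoImplicit false

namespace Cfsg.Agent.H12.Tr

open Cfsg Module QuadraticMap Cfsg.Agent.H13 Cfsg.Agent.H13.SemiSim

namespace GA

variable {F : Type*} [Field F] [Finite F]

theorem T_not : autEquiv _ (tri F) ∉ (H28.aut (QPlus 4 F)).range := fun ⟨s, hs⟩ =>
  tri_notMem ⟨s, (autEquiv _).injective hs⟩

theorem normal_TrK : (TrK F).Normal := Subgroup.normal_of_index_eq_two index_TrK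

section
variable {X : Type*} [Group X] {A : H13.SemiSim (QPlus 4 F) (QPlus 4 F) →* X} {T : X}
  (H : TriData A T)
include H

theorem T3 : T * T * T = 1 := by
  have := H.pow
  rwa [pow_succ, pow_two] at this

theorem tri_cases (α : X) :
    α ∈ A.range ∨ (∃ g, α = T * A g) ∨ ∃ g, α = T⁻¹ * A g := by
  obtain ⟨i, s, rfl⟩ := H.gen α
  have h3 : T ^ (3 : ℤ) = 1 := by exact_mod_cast H.pow
  have h : ∀ j : ℤ, T ^ (3 * j) = 1 := fun j => by rw [zpow_mul, h3, one_zpow]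
  obtain ⟨j, rfl | rfl | rfl⟩ : ∃ j, i = 3 * j ∨ i = 3 * j + 1 ∨ i = 3 * j - 1 :=
    ⟨(i + 1) / 3, by omega⟩
  · exact .inl ⟨s, by rw [h, one_mul]⟩
  · exact .inr (.inl ⟨s, by rw [zpow_add_one, h, one_mul]⟩)
  · exact .inr (.inr ⟨s, by rw [zpow_sub_one, h, one_mul]⟩)

theorem conjT {k : H13.SemiSim (QPlus 4 F) (QPlus 4 F)} (hk : k ∈ TrK F) :
    (∃ b ∈ TrK F, T * A k * T⁻¹ = A b) ∧
      ∃ b ∈ TrK F, T⁻¹ * A k * T = A b := by
  obtain ⟨b, c, h⟩ := hk
  refine ⟨⟨b, ⟨_, _, h.cyc⟩, H.conj h⟩, c, ⟨_, _, h.cyc.cyc⟩, ?_⟩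
  rw [← H.conj h.cyc.cyc]; group

theorem normalN : ((TrK F).map A).Normal := ⟨by
  have h1 : ∀ g, ∀ n ∈ (TrK F).map A, A g * n * (A g)⁻¹ ∈ (TrK F).map A := by
    rintro g _ ⟨k, hk, rfl⟩
    exact ⟨_, normal_TrK.conj_mem k hk g, by simp⟩
  intro n hn α
  rcases tri_cases H α with ⟨g, rfl⟩ | ⟨g, rfl⟩ | ⟨g, rfl⟩
  · exact h1 g n hn
  · obtain ⟨k, hk, e⟩ := h1 g n hn
    obtain ⟨b, hb, e'⟩ := (conjT H hk).1
    exact ⟨b, hb, by rw [← e', e]; group⟩
  · obtain ⟨k, hk, e⟩ := h1 g n hn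
    obtain ⟨b, hb, e'⟩ := (conjT H hk).2
    exact ⟨b, hb, by rw [← e', e]; group⟩⟩

/-- conjugating a semisimilarity outside `TrK` by the triality -/
theorem conjS {s : H13.SemiSim (QPlus 4 F) (QPlus 4 F)} (hs : s ∉ TrK F) :
    (∃ b, T * A s * T⁻¹ = T⁻¹ * A b) ∧
      ∃ b, T⁻¹ * A s * T = T * A b := by
  have hk := (mem_TrK_or s).resolve_left hs
  have e : A s = A (pρ F) * A (pρ F * s) := by
    rw [← map_mul, ← mul_assoc, pρ_mul_self, one_mul]
  obtain ⟨⟨b, -, hb⟩, c, -, hc⟩ := conjT H hk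
  have h1 : A (pρ F) * T * (A (pρ F))⁻¹ = T⁻¹ := H.refl
  have h2 : T * T = T⁻¹ := eq_inv_of_mul_eq_one_left (T3 H)
  have h3 : T⁻¹ * T⁻¹ = T := by rw [← mul_inv_rev, h2, inv_inv]
  refine ⟨⟨pρ F * b, ?_⟩, pρ F * c, ?_⟩
  · rw [e, map_mul _ _ b, ← hb]
    generalize A (pρ F * s) = k at *
    generalize A (pρ F) = r at *
    generalize T = t at *
    calc t * (r * k) * t⁻¹ = t * (r * t * r⁻¹)⁻¹ * (r * (t * k * t⁻¹)) := by group
      _ = _ := by rw [h1, inv_inv, h2]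
  · rw [e, map_mul _ _ c, ← hc]
    generalize A (pρ F * s) = k at *
    generalize A (pρ F) = r at *
    generalize T = t at *
    calc t⁻¹ * (r * k) * t = t⁻¹ * (r * t * r⁻¹) * (r * (t⁻¹ * k * t)) := by group
      _ = _ := by rw [h1, h3]

theorem hS_graph (hT : T ∉ A.range) {s : H13.SemiSim (QPlus 4 F) (QPlus 4 F)} (hs : s ∉ TrK F)
    (α : X) (h : Commute α (A s)) : α ∈ A.range := by
  have h1 : ∀ g, g * s * g⁻¹ ∉ TrK F := fun g hg => hs (by
    simpa [mul_assoc] using normal_TrK.conj_mem _ hg g⁻¹)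
  have h2 : α * A s * α⁻¹ = A s := by rw [h.eq, mul_inv_cancel_right]
  rcases tri_cases H α with h0 | ⟨g, rfl⟩ | ⟨g, rfl⟩
  · exact h0
  · obtain ⟨b, hb⟩ := (conjS H (h1 g)).1
    refine absurd ⟨b * s⁻¹, ?_⟩ hT
    rw [map_mul, map_inv, ← h2, mul_inv_eq_iff_eq_mul, ← inv_mul_eq_iff_eq_mul, ← hb]
    simp only [map_mul, map_inv]; group
  · obtain ⟨b, hb⟩ := (conjS H (h1 g)).2
    refine absurd ⟨s * b⁻¹, ?_⟩ hT
    rw [map_mul, map_inv, ← h2, mul_inv_eq_iff_eq_mul, ← hb]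
    simp only [map_mul, map_inv]; group

theorem notri (hk : A.ker = (scalar _).range) {u v u' v' : H13.V8 F} (hu : QPlus 4 F u ≠ 0) (hv : QPlus 4 F v ≠ 0)
    (h : T * A (ofOG _ (refl _ u * refl _ v)) * T⁻¹ =
      A (ofOG _ (refl _ u' * refl _ v'))) : refl (QPlus 4 F) u * refl _ v = 1 := by
  rw [H.conj (H13.Tr.refl hu hv).cyc.cyc, eq_comm, ← mul_inv_eq_one, ← inv_inj, inv_one,
    mul_inv_rev, inv_inv, mul_inv_eq_one, eq_comm, ← inv_mul_eq_one, ← map_inv, ← map_mul, ← MonoidHom.mem_ker,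
    hk] at h
  obtain ⟨z, hz⟩ := h
  rw [eq_inv_mul_iff_mul_eq] at hz
  obtain ⟨x, hx, h1⟩ := (nd_QPlus (m := 4) (F := F)).exists_nonsingular_perp
    (Submodule.span F {u', v'}) (by
      have := finrank_span_pair_le (F := F) u' v'
      exact lt_of_le_of_lt (Nat.mul_le_mul_left 2 this) (by simp))
  obtain ⟨h2, h3⟩ := mem_perp_pair.mp hx
  have h4 : (z : F) • x = pom (pom v x) u := by
    rw [← show _ = pom (pom v x) u from congrArg (fun t => t.e x) hz]
    simp [mul_e, ofOG_e, scalar_e, OG_mul_apply, refl_apply_of_perp h2, refl_apply_of_perp h3]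
  have h5 : pom (pom (pom v x) (QPlus 4 F v • u - (z : F) • v)) (pom v x) = 0 := by
    rw [pom_sub_right, pom_smul_right, pom_smul_right, pom_pom_self, ← h4, smul_comm, sub_self]
    simpa using pom_smul_left 0 0 (pom v x)
  rw [pom_pom_self, Q_pom, smul_eq_zero_iff_right (mul_ne_zero hv h1), sub_eq_zero] at h5
  rw [← refl_smul hv u, h5, refl_smul z.ne_zero, refl_mul_self]

end

theorem hS_field {K : Type*} [Group K] {A : H13.SemiSim (QPlus 4 F) (QPlus 4 F) →* MulAut K}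
    {T : MulAut K} (H : TriData A T) (hk : A.ker = (scalar _).range) {F' V' : Type*} [Field F'] [Finite F'] [AddCommGroup V'] [Module F' V']
    [FiniteDimensional F' V'] {Q' : QuadraticForm F' V'} (D : H28.Desc Q' (QPlus 4 F))
    (α : MulAut K)
    (h : ∀ y ∈ (H28.omA A D.EO).range, Commute α y) : α ∈ A.range := by
  by_contra hα
  have h' := (ev8 (F := F)).desc D
  have hι : Function.Injective D.EO := fun g h e => OG_ext fun v => D.J_injective (by
    rw [← D.EO_J, e, D.EO_J])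
  have hJ : ∀ w, Q' w ≠ 0 → QPlus 4 F (D.J w) ≠ 0 := fun w hw => by
    rw [D.map_Q]; exact mul_ne_zero D.b_ne ((map_ne_zero _).2 hw)
  have he : ∀ (g : H13.SemiSim (QPlus 4 F) (QPlus 4 F)) w, QPlus 4 F w ≠ 0 →
      QPlus 4 F (g.e w) ≠ 0 := fun g w hw => by
    rw [g.map_Q]; exact mul_ne_zero g.c_ne ((map_ne_zero _).2 hw)
  have k1 : ∀ w, Q' w ≠ 0 → ∀ k : OG Q', refl Q' w * k = k * refl Q' w := by
    intro w hw k
    have hn : refl Q' w * refl Q' (k.1 w) ∈ Om Q' := by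
      have := Subgroup.commutator_mem_commutator (Subgroup.mem_top (refl Q' w))
        (Subgroup.mem_top k)
      rw [commutatorElement_def, inv_eq_of_mul_eq_one_right (refl_mul_self (Q := Q') w)] at this
      rw [← H13.conj_refl]
      simpa only [mul_assoc, ← commutator_def] using this
    have h1 := (h _ ⟨⟨_, hn⟩, rfl⟩).eq
    rw [H28.omA_apply] at h1
    simp only [map_mul D.EO, D.EO_refl] at h1
    have hu := hJ w hw
    have hv := hJ (k.1 w) (by rwa [OG_map])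
    have h2 : refl (QPlus 4 F) (D.J w) * refl _ (D.J (k.1 w)) = 1 := by
      generalize D.J (k.1 w) = v at *
      generalize D.J w = u at *
      have h3 : ∀ g : H13.SemiSim (QPlus 4 F) (QPlus 4 F),
          A g * A (ofOG _ (refl _ u * refl _ v)) * (A g)⁻¹ =
            A (ofOG _ (refl _ (g.e u) * refl _ (g.e v))) := fun g => by
        rw [← map_inv, ← map_mul, ← map_mul, H28.conj_ofOG, map_mul g.conj, g.conj_refl,
          g.conj_refl]
      rcases tri_cases H α with h0 | ⟨g, rfl⟩ | ⟨g, rfl⟩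
      · exact absurd h0 hα
      · have h4 := notri H hk (he g u hu) (he g v hv) (u' := u) (v' := v) (by
          rw [← h3]
          conv_rhs => rw [← mul_inv_eq_iff_eq_mul.2 h1]
          group)
        rw [← g.conj_refl, ← g.conj_refl, ← map_mul] at h4
        exact (map_eq_one_iff _ g.conj.injective).1 h4
      · refine notri H hk hu hv (u' := g.e u) (v' := g.e v) ?_
        rw [← h3]
        conv_lhs => rw [← mul_inv_eq_iff_eq_mul.2 h1]
        group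
    rw [← D.EO_refl, ← D.EO_refl, ← map_mul, map_eq_one_iff _ hι, ← H13.conj_refl] at h2
    have h5 := refl_mul_self (Q := Q') w
    rw [← mul_inv_eq_iff_eq_mul.1 (mul_left_cancel (h2.trans h5.symm))]
  have k2 : ∀ g k : OG Q', g * k = k * g := fun g => by
    refine h'.nd.refl_induction h'.good (p := fun g => ∀ k, g * k = k * g) (by simp)
      (fun w g hw H k => ?_) g
    rw [mul_assoc, H, ← mul_assoc, k1 w hw, mul_assoc]
  exact h'.nd.center_Om_ne_top h'.good (by rw [h'.dim]; omega) (eq_top_iff.2 fun n _ =>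
    Subgroup.mem_center_iff.2 fun g => Subtype.ext (k2 _ _))


section
variable {K : Type*} [Group K] {A : H13.SemiSim (QPlus 4 F) (QPlus 4 F) →* MulAut K}
  {T : MulAut K} (H : TriData A T) (hT : T ∉ A.range)
include H hT

theorem red {p : ℕ} [Fact p.Prime] {x : MulAut K} (hord : orderOf x = p) :
    (∃ α s, α * x * α⁻¹ = A s) ∨
      (p = 3 ∧ x ∉ A.range ∧ ∀ β, ∀ k ∈ TrK F, β * x * β⁻¹ ≠ A k) := by
  by_cases hx : x ∈ A.range
  · obtain ⟨s, rfl⟩ := hx
    exact .inl ⟨1, s, by simp⟩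
  have hN := normalN H
  have k0 : ∀ β, ∀ k ∈ TrK F, β * x * β⁻¹ ≠ A k := fun β k hk e => by
    have := hN.conj_mem _ ⟨k, hk, rfl⟩ β⁻¹
    rw [← e] at this
    exact hx (Subgroup.map_le_range _ _ (by simpa [mul_assoc] using this))
  have k2 : (∃ n ∈ (TrK F).map A, x = T * n ∨ x = T⁻¹ * n) → p = 3 := by
    rintro ⟨n, hn, e⟩
    let π := QuotientGroup.mk' ((TrK F).map A)
    have πn : π n = 1 := (QuotientGroup.eq_one_iff _).2 hn
    have e1 : π T ^ p = 1 := by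
      have e2 : π x ^ p = 1 := by rw [← map_pow, ← hord, pow_orderOf_eq_one, map_one]
      rcases e with e | e
      · rwa [e, map_mul, πn, mul_one] at e2
      · rwa [e, map_mul, πn, mul_one, map_inv, inv_pow, inv_eq_one] at e2
    have e3 : π T ≠ 1 := fun e =>
      hT (Subgroup.map_le_range _ _ ((QuotientGroup.eq_one_iff _).1 e))
    have : Fact (Nat.Prime 3) := ⟨Nat.prime_three⟩
    have e4 : orderOf (π T) = 3 := orderOf_eq_prime (by rw [← map_pow, H.pow, map_one]) e3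
    exact (orderOf_eq_prime e1 e3).symm.trans e4
  rcases tri_cases H x with h0 | ⟨g, e⟩ | ⟨g, e⟩
  · exact absurd h0 hx
  · by_cases hg : g ∈ TrK F
    · exact .inr ⟨k2 ⟨_, ⟨g, hg, rfl⟩, .inl e⟩, hx, k0⟩
    · obtain ⟨b, hb⟩ := (conjS H hg).1
      refine .inl ⟨T, b, ?_⟩
      rw [e, mul_assoc, hb, mul_inv_cancel_left]
  · by_cases hg : g ∈ TrK F
    · exact .inr ⟨k2 ⟨_, ⟨g, hg, rfl⟩, .inr e⟩, hx, k0⟩
    · obtain ⟨b, hb⟩ := (conjS H hg).2
      refine .inl ⟨T⁻¹, b, ?_⟩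
      rw [e, inv_inv, mul_assoc, hb, inv_mul_cancel_left]

end

theorem cj1 {G : Type*} [Group G] {β φ α x : G} (h : β * (α * x * α⁻¹) * β⁻¹ = φ) :
    β * α * x * (β * α)⁻¹ = φ := by rw [← h]; group

theorem cj2 {G H : Type*} [Group G] [Group H] (f : G →* H) (u c : G) :
    (f u)⁻¹ * f (u * c * u⁻¹) * (f u)⁻¹⁻¹ = f c := by
  rw [map_mul, map_mul, map_inv]; group

theorem cj3 {G : Type*} [Group G] {N : Subgroup G} (hN : N.Normal) {α x : G} (h : x ∈ N) :
    α * x * α⁻¹ ∈ N := hN.conj_mem x h α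

theorem cj4 {G : Type*} [Group G] {β φ α x : G} (h : β * x * β⁻¹ = φ) :
    β * α⁻¹ * (α * x * α⁻¹) * (β * α⁻¹)⁻¹ = φ := by rw [← h]; group

theorem cj5 {G : Type*} [Group G] {N : Subgroup G} (hN : N.Normal) {α x : G}
    (h : α * x * α⁻¹ ∈ N) : x ∈ N := by simpa [mul_assoc] using hN.conj_mem _ h α⁻¹

end GA

theorem ga {F : Type*} [Field F] [Finite F] {r : ℕ} [Fact r.Prime] [CharP F r] {m : ℕ}
    (hm : 4 ≤ m) (hK : IsSimpleGroup (POmega F ⇑(QPlus m F))) {p : ℕ} [Fact p.Prime]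
    (hpr : p ≠ r) (s : H13.SemiSim (QPlus m F) (QPlus m F))
    (hord : orderOf (H28.aut (QPlus m F) s) = p)
    (hnot : ¬ IsInnerDiagonalAutPOmegaPlus m (H28.aut (QPlus m F) s)) :
    H28.Bal p (H28.aut (QPlus m F) s)
      (IsFieldAutClassPOmega ⇑(QPlus m F) (H28.aut (QPlus m F) s)) := by
  have := Fintype.ofFinite F
  have h := H28.ev_QPlus (F := F) (m := m) (by omega)
  have hk := H28.ker_aut h.nd h.five
  have hS : m ≠ 4 → Function.Surjective (H28.aut (QPlus m F)) := fun e =>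
    H28.aut_surjective h.nd (by rw [h.dim]; omega) (by rw [h.dim]; omega)
  have hI := H28.inn_eq_ZΩ h.nd h.five
  have hr := H28.coprime_ringChar (F := F) hpr
  have e0 : H28.aut _ s ^ p = 1 := hord ▸ pow_orderOf_eq_one (H28.aut _ s)
  replace hnot : s ∉ h.Sp := fun e => hnot ((H28.isInnDiagPlus_iff h).2 ⟨s, e, rfl⟩)
  have : Nonempty (Fin m ⊕ Fin m) := ⟨.inl ⟨0, by omega⟩⟩
  clear hord
  by_cases hs : s.σ = 1
  · refine GA.gGraph hk hI h hr (s := ⟨s, hs⟩) e0 (mt (h.mem_Sp (s := ⟨s, hs⟩)).2 hnot)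
      (fun h2 e => ?_) (fun α hα => ?_) _
    · obtain ⟨a, b, hab⟩ := H13.exists_anisotropic_binary F
      have := H28.fact_of_aniso hab
      have : Finite (QuadraticAlgebra F (-b) a) := Module.finite_of_finite F
      let j := algebraMap F (QuadraticAlgebra F (-b) a)
      exact h.dk_of_anti' h2 (H28.ev_QPlus (by omega)) (H28.descPlus m j)
        (by rw [Module.natCard_eq_pow_finrank (K := F), QuadraticAlgebra.finrank_eq_two]) e
    · by_cases h4 : m = 4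
      · subst h4
        exact GA.hS_graph triData_aut GA.T_not (fun e => hnot (mem_Sp_iff.2 ⟨hs, e⟩)) α hα
      · exact hS h4 α
  obtain ⟨e2, e⟩ := H28.orderOf_σ hk (r := p) Fact.out e0 hs
  have hj : ∀ x, x ∈ Set.range (H28.fixF s.σ).subtype ↔ s.σ x = x := by simp [H28.mem_fixF]
  obtain ⟨z, R, D, e1, h3⟩ := H28.exists_desc h.nd s e (H28.fixF s.σ).subtype hj
  rw [← H28.map_eq_of_scalar hk z]
  have hj' : ∀ x, x ∈ Set.range D.j ↔ s.σ x = x := e1 ▸ hj
  refine GA.gField hk hI h.nd h.five hr D h3 hj' e2 (fun α hα => ?_) fun h2 => ?_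
  · by_cases h4 : m = 4
    · subst h4
      exact GA.hS_field triData_aut hk D α hα
    · exact hS h4 α
  have ho := (Fact.out : p.Prime).eq_two_or_odd'.resolve_left h2
  have H : IsPlus R := (D.isPlus_iff_of_odd h (H28.card_eq_pow_of_fix hj') (e2 ▸ ho)).2
    (isPlus_QPlus _)
  have e5 : ∀ v, QPlus m F (fun i => s.σ (v i)) = s.σ (QPlus m F v) := fun v => by
    simp [QPlus_apply]
  obtain ⟨u, -, e4⟩ := h.exists_conj (H28.descPlus m D.j) D rfl (s := coord s.σ e5)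
    (fun v => funext fun i => (hj' _).1 ⟨v i, rfl⟩) h3 rfl (iff_of_true (isPlus_QPlus _) H)
  refine ⟨(H28.aut _ u)⁻¹, H28.aut _ (coord s.σ e5), s.σ, hs, (H28.isFieldAut_iff e5).2 rfl, ?_⟩
  rw [e4]
  exact GA.cj2 _ _ _

/-- S2732 from the triality case -/
theorem bal_of_tri3 {F : Type*} [Field F] [Finite F] {r : ℕ} [Fact r.Prime] [CharP F r]
    (tri3 : ∀ x : MulAut (POmega F ⇑(QPlus 4 F)), x ^ 3 = 1 →
      x ∉ (H28.aut (QPlus 4 F)).range → (3 : F) ≠ 0 →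
      ∀ A : Subgroup (MulAut (POmega F ⇑(QPlus 4 F))), (∀ k, MulAut.conj k ∈ A) →
        pPrimeCore 3 ↥(A ⊓ Subgroup.centralizer {x}) = ⊥)
    {m : ℕ} (hm : 4 ≤ m) (hK : IsSimpleGroup (POmega F ⇑(QPlus m F))) {p : ℕ}
    [hp : Fact p.Prime] (hpr : p ≠ r) (x : MulAut (POmega F ⇑(QPlus m F)))
    (hord : orderOf x = p) (hnot : ¬ IsInnerDiagonalAutPOmegaPlus m x) :
    H28.Bal p x (IsFieldAutClassPOmega ⇑(QPlus m F) x) := by
  have h := H28.ev_QPlus (F := F) (m := m) (by omega)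
  by_cases e : m = 4
  swap
  · obtain ⟨s, rfl⟩ := H28.aut_surjective h.nd (by rw [h.dim]; omega) (by rw [h.dim]; omega) x
    exact ga hm hK hpr s hord hnot
  subst e
  rcases GA.red triData_aut GA.T_not hord with ⟨α, s, hs⟩ | ⟨rfl, hx, k0⟩
  · have e : IsFieldAutClassPOmega ⇑(QPlus 4 F) x ↔
        IsFieldAutClassPOmega ⇑(QPlus 4 F) (α * x * α⁻¹) :=
      ⟨fun ⟨β, φ, σ, h1, h2, h3⟩ => ⟨β * α⁻¹, φ, σ, h1, h2, GA.cj4 h3⟩,
        fun ⟨β, φ, σ, h1, h2, h3⟩ => ⟨β * α, φ, σ, h1, h2, GA.cj1 h3⟩⟩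
    refine H28.Bal.conj α ?_
    rw [e, hs]
    refine ga hm hK hpr s (by rw [← hs, H28.orderOf_conj', hord]) fun e => hnot ?_
    exact (H28.isInnDiagPlus_iff ev8).2 (GA.cj5 (triData_aut (F := F)).normal
      (hs ▸ (H28.isInnDiagPlus_iff ev8).1 e))
  · intro A hA
    refine iff_of_false (not_not.2 (tri3 x (hord ▸ pow_orderOf_eq_one x) hx (fun e => hpr ?_) A hA))
      ?_
    · exact ((Nat.prime_dvd_prime_iff_eq Fact.out Nat.prime_three).1
        ((CharP.cast_eq_zero_iff F r 3).1 (by exact_mod_cast e))).symm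
    · rintro ⟨⟨β, φ, σ, -, h2, h3⟩, -⟩
      have e5 : ∀ v, QPlus 4 F (fun i => σ (v i)) = σ (QPlus 4 F v) := fun v => by
        simp [QPlus_apply]
      exact k0 β _ ⟨_, _, H13.Tr.coord σ e5⟩ (h3.trans ((H28.isFieldAut_iff e5).1 h2))

/-- the statement of S2732, given the triality case -/
theorem s2732_of_tri3 {F : Type*} [Field F] [Fintype F] {r : ℕ} [Fact r.Prime] [CharP F r]
    (tri3 : ∀ x : MulAut (POmega F (quadFormPlus 4 F)), x ^ 3 = 1 →
      x ∉ (H28.aut (H13.QPlus 4 F)).range → (3 : F) ≠ 0 →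
      ∀ A : Subgroup (MulAut (POmega F (quadFormPlus 4 F))), (∀ k, MulAut.conj k ∈ A) →
        pPrimeCore 3 ↥(A ⊓ Subgroup.centralizer {x}) = ⊥)
    {m : ℕ} (hm : 4 ≤ m) (hK : IsSimpleGroup (Cfsg.POmega F (Cfsg.quadFormPlus m F))) (A : Subgroup (MulAut (Cfsg.POmega F (Cfsg.quadFormPlus m F)))) (hinn : ∀ k : Cfsg.POmega F (Cfsg.quadFormPlus m F), MulAut.conj k ∈ A) {p : ℕ} [Fact p.Prime] (hpr : p ≠ r) (x : MulAut (Cfsg.POmega F (Cfsg.quadFormPlus m F))) (hord : orderOf x = p) (hnot : ¬ Cfsg.IsInnerDiagonalAutPOmegaPlus m x) :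
    Cfsg.pPrimeCore p ↥(A ⊓ Subgroup.centralizer {x}) ≠ ⊥ ↔ (Cfsg.IsFieldAutClassPOmega (Cfsg.quadFormPlus m F) x ∧ Nat.Coprime p (Nat.card ↥(MonoidHom.eqLocus x.toMonoidHom (MonoidHom.id (Cfsg.POmega F (Cfsg.quadFormPlus m F)))))) :=
  bal_of_tri3 tri3 hm hK hpr x hord hnot A hinn

end Cfsg.Agent.H12.Tr
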