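import Cfsg.Agent.H12.TrD

/-! Basic identities of twisted compositions; the composition algebra at an idempotent. -/

set_option autoImplicit false

namespace Cfsg.Agent.H12.Tr

open QuadraticMap

variable {F : Type*} [Field F] {σ : F ≃+* F} {Q : QuadraticForm F (V8 F)} {m : V8 F → V8 F → V8 F}

theorem NDq.ext (h : NDq Q) {x y : V8 F} (e : ∀ z, polar Q x z = polar Q y z) : x = y :=
  sub_eq_zero.mp (h _ fun z => by rw [polar_sub_left, e, sub_self])

theorem bar_polar (e x z : V8 F) : polar Q (bar Q e x) z = polar Q x (bar Q e z) := by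
  rw [bar, bar, polar_sub_left, polar_sub_right, polar_smul_left, polar_smul_right, polar_comm Q x e]
  simp only [smul_eq_mul]; ring

theorem bar_bar {e : V8 F} (hQ : Q e = 1) (x : V8 F) : bar Q e (bar Q e x) = x := by
  rw [bar, bar, polar_sub_right, polar_smul_right, polar_self, hQ]
  simp only [smul_eq_mul, nsmul_eq_mul]
  module

namespace TC

variable (h : TC σ Q m)
include h

theorem subl (x y z : V8 F) : m (x - y) z = m x z - m y z := by
  rw [eq_sub_iff_add_eq, ← h.addl, sub_add_cancel]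

theorem subr (x y z : V8 F) : m x (y - z) = m x y - m x z := by
  rw [eq_sub_iff_add_eq, ← h.addr, sub_add_cancel]

theorem polr (x y z : V8 F) : polar Q (m x y) (m x z) = σ (Q x) * σ (σ (polar Q y z)) := by
  simp only [polar, ← h.addr, h.norm, map_sub]; ring

theorem poll (x y z : V8 F) : polar Q (m x z) (m y z) = σ (polar Q x y) * σ (σ (Q z)) := by
  simp only [polar, ← h.addl, h.norm, map_sub]; ring

theorem i1 (u w : V8 F) : m (m u w) u = σ (σ (Q u)) • w := h.nd.ext fun z => by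
  rw [h.cyc, h.polr, map_mul, h.s3, polar_smul_left, smul_eq_mul, polar_comm Q z w]

theorem i2 (u w : V8 F) : m u (m w u) = σ (Q u) • w := h.nd.ext fun z => by
  rw [h.cyc, h.cyc, h.poll, map_mul, map_mul, h.s3, h.s3, polar_smul_left, smul_eq_mul, polar_comm Q z w, mul_comm]

theorem l1 (u v w : V8 F) : m (m u w) v + m (m v w) u = σ (σ (polar Q u v)) • w := by
  have e := h.i1 (u + v) w
  rw [h.addl, h.addl, h.addr, h.addr, h.i1, h.i1] at e
  rw [polar, map_sub, map_sub, map_sub, map_sub, sub_smul, sub_smul, ← e]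
  abel

theorem l2 (u v w : V8 F) : m u (m w v) + m v (m w u) = σ (polar Q u v) • w := by
  have e := h.i2 (u + v) w
  rw [h.addr, h.addl, h.addr, h.addr, h.i2, h.i2] at e
  rw [polar, map_sub, map_sub, sub_smul, sub_smul, ← e]
  abel

variable {e : V8 F} (he : m e e = e) (hQ : Q e = 1)
include hQ

theorem RL (x : V8 F) : m (m e x) e = x := by rw [h.i1, hQ, map_one, map_one, one_smul]

theorem LR (x : V8 F) : m e (m x e) = x := by rw [h.i2, hQ, map_one, one_smul]

theorem moufang (x y : V8 F) : m (m x e) (m e y) = bar Q e (m y x) := by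
  have e1 := h.l1 x (m e y) e
  rw [h.RL hQ] at e1
  rw [bar, polar_comm Q e, h.cyc, h.cyc, polar_comm Q _ x, ← e1, add_sub_cancel_right]

theorem polL (x y : V8 F) : polar Q (m e x) (m e y) = σ (σ (polar Q x y)) := by
  rw [h.polr, hQ, map_one, one_mul]

include he

theorem rho_eq (v : V8 F) : m e (m e v) = σ (polar Q e v) • e - m v e := by
  have e1 := h.l2 e v e
  rw [he] at e1
  rw [← e1, add_sub_cancel_right]

theorem L3 (v : V8 F) : m e (m e (m e v)) = bar Q e v := by
  rw [h.rho_eq he hQ v, h.subr, h.smulr, h.s3, he, h.LR hQ, bar]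

theorem rho3 (v : V8 F) : m e (m e (m e (m e (m e (m e v))))) = v := by
  rw [h.L3 he hQ, h.L3 he hQ, bar_bar hQ]

theorem tM (a b c : V8 F) : polar Q (m a b) c = polar Q (m (m b e) (m e a)) (m e (m e (m e c))) := by
  rw [h.moufang hQ, h.L3 he hQ, bar_polar, bar_bar hQ]

theorem rho_mul (x y : V8 F) : m e (m e (m x y)) = m (m e (m e x)) (m e (m e y)) := h.nd.ext fun z => by
  have key : ∀ a b c, polar Q (m a b) c =
      σ (σ (polar Q (m (m e (m e a)) (m e (m e b))) (m e (m e c)))) := fun a b c => by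
    rw [h.tM he hQ a b c, h.cyc, h.tM he hQ (m e a), h.RL hQ, h.LR hQ, h.cyc]
  rw [← h.rho3 he hQ z, h.polL hQ, h.polL hQ, key x y, h.s3, h.s3]

theorem toCA : ∃ (p : V8 F →ₗ[F] V8 F →ₗ[F] V8 F) (ρ : V8 F →+ V8 F), CA Q p e ∧ Rho Q p σ ρ ∧
    (∀ x, ρ x = m e (m e x)) ∧ ρ e = e ∧ ∀ x y, m x y = p (ρ (bar Q e x)) (ρ (ρ (bar Q e y))) := by
  refine ⟨LinearMap.mk₂ F (fun u v => m (m e u) (m v e)) (fun a b c => by rw [h.addr, h.addl])
    (fun a b c => by rw [h.smulr, h.smull, h.s3]) (fun a b c => by rw [h.addl, h.addr])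
    (fun a b c => by rw [h.smull, h.smulr, h.s3]),
    AddMonoidHom.mk' (fun x => m e (m e x)) fun a b => by rw [h.addr, h.addr],
    ⟨h.nd, fun x y => ?_, fun x => ?_, fun x => ?_⟩, ⟨fun a x => ?_, fun x y => ?_, fun x => ?_, h.rho3 he hQ⟩,
    fun _ => rfl, ?_, fun x y => ?_⟩
  all_goals simp only [LinearMap.mk₂_apply, AddMonoidHom.mk'_apply]
  · simp only [h.norm, hQ, map_one, one_mul, mul_one, h.s3]
  · rw [he, h.LR hQ]
  · rw [he, h.RL hQ]
  · rw [h.smulr, h.smulr, h.s3]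
  · rw [h.rho_mul he hQ, h.LR hQ, h.RL hQ]
  · simp only [h.norm, hQ, map_one, one_mul, h.s3]
  · rw [he, he]
  · rw [h.L3 he hQ, bar_bar hQ, h.RL hQ, h.L3 he hQ, bar_bar hQ]

theorem isA_rho : ∃ g : Equiv.Perm (V8 F), IsA m σ g ∧ (∀ x, g x = m e (m e x)) ∧ g ^ 3 = 1 := by
  refine ⟨⟨fun x => m e (m e x), fun x => m e (m e (m e (m e x))), h.rho3 he hQ, h.rho3 he hQ⟩,
    ⟨fun x y => ?_, fun a x => ?_, h.rho_mul he hQ⟩, fun _ => rfl, Equiv.ext (h.rho3 he hQ)⟩
  · change m e (m e _) = m e (m e x) + m e (m e y)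
    rw [h.addr, h.addr]
  · change m e (m e _) = _ • m e (m e x)
    rw [h.smulr, h.smulr, h.s3]

end TC

end Cfsg.Agent.H12.Tr
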