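import Cfsg.Agent.H12.TrD

/-! Explicit computations in the Okubo model. -/

set_option autoImplicit false
set_option linter.unusedSimpArgs false

namespace Cfsg.Agent.H12.Tr.O2

open QuadraticMap

variable {F : Type*} [Field F]

/-- second idempotent -/
def e1 (F : Type*) [Field F] : V8 F := Sum.elim ![1, 1, 1, 1] ![-2, 1, 1, 1]

/-- third idempotent -/
def e2 (F : Type*) [Field F] : V8 F := Sum.elim ![-2, -1, -1, -1] ![1, -1, -1, -1]

/-- square of left multiplication -/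
def rh (e x : V8 F) : V8 F := mO e (mO e x)

/-- the norm as a quadratic form -/
noncomputable def Q8 (F : Type*) [Field F] : QuadraticForm F (V8 F) :=
  QuadraticMap.proj (.inl 0) (.inr 0) + QuadraticMap.proj (.inl 1) (.inr 1) +
    QuadraticMap.proj (.inl 2) (.inr 2) + QuadraticMap.proj (.inl 3) (.inr 3)

theorem Q8_apply (x : V8 F) : Q8 F x = q8 x := by
  simp [Q8, q8]

theorem mO_eq (x y : V8 F) : mO x y = Sum.elim
  ![x (.inr 0) * y (.inr 0) - (x (.inl 2) * y (.inr 3) + x (.inl 3) * y (.inr 1) +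
      x (.inl 1) * y (.inr 2)),
    -(x (.inr 0) * y (.inl 3)) - y (.inl 0) * x (.inl 2) -
      (x (.inr 3) * y (.inr 2) - x (.inr 1) * y (.inr 1)),
    -(x (.inr 0) * y (.inl 1)) - y (.inl 0) * x (.inl 3) -
      (x (.inr 1) * y (.inr 3) - x (.inr 2) * y (.inr 2)),
    -(x (.inr 0) * y (.inl 2)) - y (.inl 0) * x (.inl 1) -
      (x (.inr 2) * y (.inr 1) - x (.inr 3) * y (.inr 3))]
  ![x (.inl 0) * y (.inl 0) - (x (.inr 2) * y (.inl 3) + x (.inr 3) * y (.inl 1) +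
      x (.inr 1) * y (.inl 2)),
    -(y (.inr 0) * x (.inr 2)) - x (.inl 0) * y (.inr 3) -
      (x (.inl 3) * y (.inl 2) - x (.inl 1) * y (.inl 1)),
    -(y (.inr 0) * x (.inr 3)) - x (.inl 0) * y (.inr 1) -
      (x (.inl 1) * y (.inl 3) - x (.inl 2) * y (.inl 2)),
    -(y (.inr 0) * x (.inr 1)) - x (.inl 0) * y (.inr 2) -
      (x (.inl 2) * y (.inl 1) - x (.inl 3) * y (.inl 3))] := by
  apply V8_ext <;> rfl

theorem pi3_eq (x : V8 F) : pi3 x = Sum.elim ![x (.inl 0), x (.inl 2), x (.inl 3), x (.inl 1)]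
    ![x (.inr 0), x (.inr 2), x (.inr 3), x (.inr 1)] := by
  apply V8_ext <;> rfl

theorem pi3_three (x : V8 F) : pi3 (pi3 (pi3 x)) = x := by
  apply V8_ext <;> rfl

theorem pi3_mO (x y : V8 F) : pi3 (mO x y) = mO (pi3 x) (pi3 y) := by
  apply V8_ext <;> simp [mO_eq, pi3_eq] <;> ring

theorem rh_pe (x : V8 F) : rh (pe F) x = pi3 x := by
  apply V8_ext <;> simp [rh, mO_eq, pi3_eq, pe]

theorem rh1 (x : V8 F) : rh (e1 F) x = Sum.elim ![-2 * x (.inl 0) + 2 * x (.inl 1) + 2 * x (.inl 2) + 2 * x (.inl 3) + 3 * x (.inr 0) + x (.inr 1) + x (.inr 2) + x (.inr 3),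
    -2 * x (.inl 0) + x (.inl 1) + 2 * x (.inl 2) + x (.inl 3) + 2 * x (.inr 0) + x (.inr 2) + 2 * x (.inr 3),
    -2 * x (.inl 0) + x (.inl 1) + x (.inl 2) + 2 * x (.inl 3) + 2 * x (.inr 0) + 2 * x (.inr 1) + x (.inr 3),
    -2 * x (.inl 0) + 2 * x (.inl 1) + x (.inl 2) + x (.inl 3) + 2 * x (.inr 0) + x (.inr 1) + 2 * x (.inr 2)]
    ![3 * x (.inl 0) - 2 * x (.inl 1) - 2 * x (.inl 2) - 2 * x (.inl 3) - 2 * x (.inr 0) - x (.inr 1) - x (.inr 2) - x (.inr 3),
    -x (.inl 0) + x (.inl 2) + 2 * x (.inl 3) + x (.inr 0) + x (.inr 1) - x (.inr 2) + x (.inr 3),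
    -x (.inl 0) + 2 * x (.inl 1) + x (.inl 3) + x (.inr 0) + x (.inr 1) + x (.inr 2) - x (.inr 3),
    -x (.inl 0) + x (.inl 1) + 2 * x (.inl 2) + x (.inr 0) - x (.inr 1) + x (.inr 2) + x (.inr 3)] := by
  apply V8_ext <;> simp [rh, mO_eq, e1] <;> ring

theorem rh2 (x : V8 F) : rh (e2 F) x = Sum.elim ![-2 * x (.inl 0) + x (.inl 1) + x (.inl 2) + x (.inl 3) + 3 * x (.inr 0) + 2 * x (.inr 1) + 2 * x (.inr 2) + 2 * x (.inr 3),
    -x (.inl 0) + x (.inl 1) - x (.inl 2) + x (.inl 3) + x (.inr 0) + 2 * x (.inr 1) + x (.inr 2),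
    -x (.inl 0) + x (.inl 1) + x (.inl 2) - x (.inl 3) + x (.inr 0) + 2 * x (.inr 2) + x (.inr 3),
    -x (.inl 0) - x (.inl 1) + x (.inl 2) + x (.inl 3) + x (.inr 0) + x (.inr 1) + 2 * x (.inr 3)]
    ![3 * x (.inl 0) - x (.inl 1) - x (.inl 2) - x (.inl 3) - 2 * x (.inr 0) - 2 * x (.inr 1) - 2 * x (.inr 2) - 2 * x (.inr 3),
    -2 * x (.inl 0) + 2 * x (.inl 1) + x (.inl 2) + 2 * x (.inr 0) + x (.inr 1) + 2 * x (.inr 2) + x (.inr 3),
    -2 * x (.inl 0) + 2 * x (.inl 2) + x (.inl 3) + 2 * x (.inr 0) + x (.inr 1) + x (.inr 2) + 2 * x (.inr 3),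
    -2 * x (.inl 0) + x (.inl 1) + 2 * x (.inl 3) + 2 * x (.inr 0) + 2 * x (.inr 1) + x (.inr 2) + x (.inr 3)] := by
  apply V8_ext <;> simp [rh, mO_eq, e2] <;> ring

theorem rel (x : V8 F) : pi3 (rh (e1 F) (rh (e2 F) x)) = x := by
  apply V8_ext <;> simp [rh1, rh2, pi3_eq] <;> ring

theorem f01 : pi3 (e1 F) = e1 F := by apply V8_ext <;> rfl
theorem f02 : pi3 (e2 F) = e2 F := by apply V8_ext <;> rfl
theorem f00 : pi3 (pe F) = pe F := by apply V8_ext <;> rfl
theorem f10 : rh (e1 F) (pe F) = pe F := by apply V8_ext <;> simp [rh1, pe] <;> ring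
theorem f12 : rh (e1 F) (e2 F) = e2 F := by apply V8_ext <;> simp [rh1, e2] <;> ring
theorem f20 : rh (e2 F) (pe F) = pe F := by apply V8_ext <;> simp [rh2, pe] <;> ring
theorem f21 : rh (e2 F) (e1 F) = e1 F := by apply V8_ext <;> simp [rh2, e1] <;> ring
theorem id0 : mO (pe F) (pe F) = pe F := by apply V8_ext <;> simp [mO_eq, pe]
theorem id1 : mO (e1 F) (e1 F) = e1 F := by apply V8_ext <;> simp [mO_eq, e1] <;> ring
theorem id2 : mO (e2 F) (e2 F) = e2 F := by apply V8_ext <;> simp [mO_eq, e2] <;> ring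

theorem f11 : rh (e1 F) (e1 F) = e1 F := by rw [rh, id1, id1]
theorem f22 : rh (e2 F) (e2 F) = e2 F := by rw [rh, id2, id2]

theorem dec (x : V8 F) : ∃ a b c : V8 F, pi3 a = a ∧ rh (e1 F) b = b ∧ rh (e2 F) c = c ∧
    (3 : F) • x = a + b + c := by
  obtain ⟨s, hs⟩ : ∃ s, s = x (.inl 1) - 2 * x (.inl 2) + x (.inl 3) + x (.inr 1) + x (.inr 2) - 2 * x (.inr 3) := ⟨_, rfl⟩
  obtain ⟨t, ht⟩ : ∃ s, s = -2 * x (.inl 1) + x (.inl 2) + x (.inl 3) + x (.inr 1) - 2 * x (.inr 2) + x (.inr 3) := ⟨_, rfl⟩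
  obtain ⟨u, hu⟩ : ∃ s, s = -2 * x (.inl 1) + x (.inl 2) + x (.inl 3) - x (.inr 1) - x (.inr 2) + 2 * x (.inr 3) := ⟨_, rfl⟩
  obtain ⟨v, hv⟩ : ∃ s, s = x (.inl 1) + x (.inl 2) - 2 * x (.inl 3) - x (.inr 1) + 2 * x (.inr 2) - x (.inr 3) := ⟨_, rfl⟩
  obtain ⟨p, hp⟩ : ∃ s, s = x (.inl 1) + x (.inl 2) + x (.inl 3) := ⟨_, rfl⟩
  obtain ⟨r, hr⟩ : ∃ s, s = x (.inr 1) + x (.inr 2) + x (.inr 3) := ⟨_, rfl⟩
  refine ⟨Sum.elim ![3 * x (.inl 0), p, p, p] ![3 * x (.inr 0), r, r, r],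
    Sum.elim ![0, -s - t, t, s] ![0, t, s, -s - t],
    Sum.elim ![0, -u - v, v, u] ![0, -u, u + v, -v], ?_, ?_, ?_, ?_⟩
  · apply V8_ext <;> rfl
  · apply V8_ext <;> simp [rh1] <;> ring
  · apply V8_ext <;> simp [rh2] <;> ring
  · subst hs ht hu hv hp hr
    apply V8_ext <;> simp <;> ring

theorem tc : TC 1 (Q8 F) (mO (F := F)) where
  nd := by
    intro x hx
    have h := fun i => hx (Pi.single i 1)
    have h0 := h (.inl 0); have h1 := h (.inl 1); have h2 := h (.inl 2); have h3 := h (.inl 3)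
    have h4 := h (.inr 0); have h5 := h (.inr 1); have h6 := h (.inr 2); have h7 := h (.inr 3)
    simp [polar, Q8_apply, q8] at h0 h1 h2 h3 h4 h5 h6 h7
    apply V8_ext <;> simp only [Pi.zero_apply]
    · linear_combination h4
    · linear_combination h5
    · linear_combination h6
    · linear_combination h7
    · linear_combination h0
    · linear_combination h1
    · linear_combination h2
    · linear_combination h3
  s3 := fun a => rfl
  addl := fun x y z => by apply V8_ext <;> simp [mO_eq] <;> ring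
  addr := fun x y z => by apply V8_ext <;> simp [mO_eq] <;> ring
  smull := fun a x y => by
    show _ = a • _
    apply V8_ext <;> simp [mO_eq] <;> ring
  smulr := fun a x y => by
    show _ = a • _
    apply V8_ext <;> simp [mO_eq] <;> ring
  norm := fun x y => by
    show _ = Q8 F x * Q8 F y
    simp [Q8_apply, q8, mO_eq]; ring
  cyc := fun x y z => by
    show _ = polar (Q8 F) (mO y z) x
    simp [polar, Q8_apply, q8, mO_eq]; ring

theorem idem (h3 : (3 : F) ≠ 0) (z : V8 F) (hz : z ≠ 0) (hi : mO z z = z)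
    (hf : pi3 z = rh (e1 F) z) : z = pe F ∨ z = e1 F ∨ z = e2 F := by
  have h0 := congrFun hf (.inl 0); have h1 := congrFun hf (.inl 1)
  have h2 := congrFun hf (.inl 2); have h3' := congrFun hf (.inl 3)
  have h5 := congrFun hf (.inr 1); have h6 := congrFun hf (.inr 2)
  simp only [rh1, pi3_eq, Sum.elim_inl, Sum.elim_inr, Matrix.cons_val_zero, Matrix.cons_val_one,
    Matrix.cons_val] at h0 h1 h2 h3' h5 h6
  have a2 : z (.inl 2) = z (.inl 1) := mul_left_cancel₀ h3 (by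
    linear_combination (-3) * h0 + (4) * h1 + (1) * h2 + (-2) * h3' + (3) * h6)
  have a3 : z (.inl 3) = z (.inl 1) := mul_left_cancel₀ h3 (by
    linear_combination (3) * h0 + (-1) * h1 + (2) * h2 + (-4) * h3' + (-3) * h5)
  have b1 : z (.inr 1) = z (.inl 1) := mul_left_cancel₀ h3 (by
    linear_combination (2) * h0 + (1) * h1 + (-1) * h2 + (-3) * h3' + (-1) * h5 + (1) * h6)
  have b2 : z (.inr 2) = z (.inl 1) := mul_left_cancel₀ h3 (by
    linear_combination (2) * h0 + (1) * h2 + (-4) * h3' + (-1) * h5 + (1) * h6)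
  have b3 : z (.inr 3) = z (.inl 1) := mul_left_cancel₀ h3 (by
    linear_combination (2) * h0 + (-1) * h1 + (-2) * h3' + (-1) * h5 + (1) * h6)
  have b0 : z (.inr 0) = z (.inl 0) - 3 * z (.inl 1) := mul_left_cancel₀ h3 (by
    linear_combination (-3) * h0 + (-2) * h1 + (-2) * h2 + (7) * h3' + (3) * h5 + (-3) * h6)
  have i0 := congrFun hi (.inr 0); have i1 := congrFun hi (.inr 1)
  simp only [mO_eq, Sum.elim_inl, Sum.elim_inr, Matrix.cons_val_zero, Matrix.cons_val_one,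
    Matrix.cons_val, a2, a3, b1, b2, b3, b0] at i0 i1
  obtain ⟨β, hβ⟩ : ∃ s, z (.inl 1) = s := ⟨_, rfl⟩
  obtain ⟨α, hα⟩ : ∃ s, z (.inl 0) = s + β := ⟨z (.inl 0) - β, by ring⟩
  rw [hβ] at a2 a3 b1 b2 b3
  rw [hα, hβ] at i0 i1 b0
  have k1 : β * (β - 2 * α - 1) = 0 := by linear_combination i1
  have k0 : α * (α - 2 * β - 1) = 0 := by linear_combination i0 + 2 * i1
  rcases mul_eq_zero.1 k1 with k | k <;> rcases mul_eq_zero.1 k0 with l | l
  · exfalso; apply hz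
    apply V8_ext <;> simp [hα, hβ, a2, a3, b0, b1, b2, b3, k, l]
  · left
    have : α = 1 := by linear_combination l + 2 * k
    apply V8_ext <;> simp [pe, hα, hβ, a2, a3, b0, b1, b2, b3, k, this]
  · right; left
    have : β = 1 := by linear_combination k + 2 * l
    apply V8_ext <;> simp [e1, hα, hβ, a2, a3, b0, b1, b2, b3, l, this]
    ring
  · right; right
    have hb : β = -1 := mul_left_cancel₀ h3 (by linear_combination -k - 2 * l)
    have ha : α = -1 := by linear_combination l + 2 * hb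
    apply V8_ext <;> simp [e2, hα, hβ, a2, a3, b0, b1, b2, b3, ha, hb] <;> ring

theorem good (nf : NFat F) (e b : V8 F) (he : mO e e = e) (hq : q8 e = 1)
    (ha : rh e (pe F) = pe F) (hb : rh e b = b) (hl : LinearIndependent F ![e, pe F, b])
    (hx : ∃ x, rh e x ≠ x) :
    ∃ φ : Equiv.Perm (V8 F), IsA mO 1 φ ∧ φ e = pe F := by
  obtain ⟨φ, h1, h2 | h2⟩ := nf 1 (Q8 F) mO tc e he (by rw [Q8_apply, hq])
    (fun _ => ⟨pe F, b, ha, hb, hl⟩)
  · exfalso
    obtain ⟨x, hx⟩ := hx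
    apply hx
    apply φ.injective
    rw [rh, h2, h2, h1]
    apply V8_ext <;> simp [mS, pm, pe]
  · exact ⟨φ.toEquiv, ⟨fun x y => map_add φ x y, fun a x => map_smul φ a x, h2⟩, h1⟩

theorem good1 (nf : NFat F) : ∃ φ : Equiv.Perm (V8 F), IsA mO 1 φ ∧ φ (e1 F) = pe F := by
  refine good nf _ (Sum.elim ![0, -1, 0, 1] ![0, 0, 1, -1]) id1 ?_ f10 ?_ ?_
    ⟨Pi.single (.inl 1) 1, fun h => ?_⟩
  · simp [q8, e1]; ring
  · apply V8_ext <;> simp [rh1] <;> ring
  · rw [Fintype.linearIndependent_iff]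
    intro g hg
    have h0 := congrFun hg (.inl 0); have h1 := congrFun hg (.inl 1)
    have h2 := congrFun hg (.inl 2)
    simp [Fin.sum_univ_three, e1, pe] at h0 h1 h2
    intro i; fin_cases i
    · exact h2
    · show g 1 = 0; linear_combination h0 - h2
    · show g 2 = 0; linear_combination h2 - h1
  · have := congrFun h (.inl 2)
    simp [rh1] at this

theorem good2 (nf : NFat F) : ∃ φ : Equiv.Perm (V8 F), IsA mO 1 φ ∧ φ (e2 F) = pe F := by
  refine good nf _ (Sum.elim ![0, -1, 0, 1] ![0, -1, 1, 0]) id2 ?_ f20 ?_ ?_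
    ⟨Pi.single (.inl 1) 1, fun h => ?_⟩
  · simp [q8, e2]; ring
  · apply V8_ext <;> simp [rh2] <;> ring
  · rw [Fintype.linearIndependent_iff]
    intro g hg
    have h0 := congrFun hg (.inl 0); have h1 := congrFun hg (.inl 1)
    have h2 := congrFun hg (.inl 2)
    simp [Fin.sum_univ_three, e2, pe] at h0 h1 h2
    intro i; fin_cases i
    · exact h2
    · show g 1 = 0; linear_combination h0 + 2 * h2
    · show g 2 = 0; linear_combination -h2 - h1
  · have := congrFun h (.inl 2)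
    simp [rh2] at this

end Cfsg.Agent.H12.Tr.O2
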