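import Cfsg.Agent.H12.TrD

set_option autoImplicit false
set_option linter.unusedSimpArgs false
set_option linter.unusedTactic false
set_option linter.unreachableTactic false
set_option linter.unnecessarySeqFocus false

namespace Cfsg.Agent.H12.Tr

variable {F : Type*} [Field F]

namespace P1

/-- short root element, `X_{e1+e0}(t) X_{e1-e0}(u) X_{-e2-e3}(w)` -/
def aa (t u w : F) (v : V8 F) : V8 F := Sum.elim
  ![v (.inl 0) - t * v (.inr 1), v (.inl 1) + t * v (.inr 0) + u * v (.inl 0) - t * u * v (.inr 1),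
    v (.inl 2), v (.inl 3)]
  ![v (.inr 0) - u * v (.inr 1), v (.inr 1), v (.inr 2) - w * v (.inl 3),
    v (.inr 3) + w * v (.inl 2)]

/-- short root element, `X_{-e3+e0}(t) X_{-e3-e0}(u) X_{e1+e2}(w)` -/
def bb (t u w : F) (v : V8 F) : V8 F := Sum.elim
  ![v (.inl 0) + t * v (.inl 3), v (.inl 1) + w * v (.inr 2), v (.inl 2) - w * v (.inr 1),
    v (.inl 3)]
  ![v (.inr 0) + u * v (.inl 3), v (.inr 1), v (.inr 2),
    v (.inr 3) - t * v (.inr 0) - u * v (.inl 0) - t * u * v (.inl 3)]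

/-- long root element `x2 ↦ x2 + s x1`, `y1 ↦ y1 - s y2` -/
def cc (s : F) (v : V8 F) : V8 F := Sum.elim
  ![v (.inl 0), v (.inl 1) + s * v (.inl 2), v (.inl 2), v (.inl 3)]
  ![v (.inr 0), v (.inr 1), v (.inr 2) - s * v (.inr 1), v (.inr 3)]

/-- long root element `x3 ↦ x3 + s x2`, `y2 ↦ y2 - s y3` -/
def dd (s : F) (v : V8 F) : V8 F := Sum.elim
  ![v (.inl 0), v (.inl 1), v (.inl 2) + s * v (.inl 3), v (.inl 3)]
  ![v (.inr 0), v (.inr 1), v (.inr 2), v (.inr 3) - s * v (.inr 2)]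

theorem zz_eq (s : F) (v : V8 F) : zz s v = Sum.elim
    ![v (.inl 0), v (.inl 1) + s * v (.inl 3), v (.inl 2), v (.inl 3)]
    ![v (.inr 0), v (.inr 1), v (.inr 2), v (.inr 3) - s * v (.inr 1)] := by
  apply V8_ext <;> simp [zz]

theorem Ll_iff {x : V8 F} : Ll x ↔ x (.inl 0) = 0 ∧ x (.inl 2) = 0 ∧ x (.inl 3) = 0 ∧
    x (.inr 0) = 0 ∧ x (.inr 1) = 0 ∧ x (.inr 2) = 0 := by
  constructor
  · intro h
    refine ⟨?_, ?_, ?_, ?_, ?_, ?_⟩ <;> exact h _ (by decide) (by decide)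
  · rintro ⟨h0, h2, h3, k0, k1, k2⟩ (i | i) a b <;> fin_cases i <;> simp_all

theorem mkp {σ : F ≃+* F} (f f' : V8 F → V8 F) (h1 : ∀ x, f' (f x) = x) (h2 : ∀ x, f (f' x) = x)
    (ha : ∀ x y, f (x + y) = f x + f y) (hs : ∀ (a : F) x, f (a • x) = a • f x)
    (hm : ∀ x y, f (mS σ x y) = mS σ (f x) (f y)) (q1 : ∀ x, Ll x → f x = x)
    (q2 : ∀ x, Lp x → Ll (f x - x)) (q3 : ∀ x, Lp (f x - x)) :
    ∃ g : Equiv.Perm (V8 F), IsA (mS σ) 1 g ∧ InQ g ∧ ∀ x, g x = f x :=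
  ⟨⟨f, f', h1, h2⟩, ⟨ha, hs, hm⟩, ⟨q1, q2, q3⟩, fun _ => rfl⟩

theorem isA_aa {σ : F ≃+* F} (hσ : ∀ a, σ (σ (σ a)) = a) (t : F) :
    ∃ g : Equiv.Perm (V8 F), IsA (mS σ) 1 g ∧ InQ g ∧ ∀ x, g x = aa t (-σ (σ t)) (σ t) x := by
  refine mkp _ (aa (-t) (σ (σ t)) (-σ t)) (fun x => ?_) (fun x => ?_) (fun x y => ?_)
    (fun a x => ?_) (fun x y => ?_) (fun x h => ?_) (fun x h => ?_) (fun x => ?_)
  · apply V8_ext <;> simp [aa] <;> ring
  · apply V8_ext <;> simp [aa] <;> ring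
  · apply V8_ext <;> simp [aa] <;> ring
  · apply V8_ext <;> simp [aa] <;> ring
  · apply V8_ext <;> simp [aa, mS, pm, hσ] <;> ring
  · obtain ⟨h0, h2, h3, k0, k1, k2⟩ := Ll_iff.1 h
    apply V8_ext <;> simp [aa, *]
  · obtain ⟨h0, h1⟩ := h
    simp [Ll_iff, aa, *]
  · simp [Lp, aa]

theorem isA_bb {σ : F ≃+* F} (hσ : ∀ a, σ (σ (σ a)) = a) (t : F) :
    ∃ g : Equiv.Perm (V8 F), IsA (mS σ) 1 g ∧ InQ g ∧ ∀ x, g x = bb t (-σ t) (-σ (σ t)) x := by
  refine mkp _ (bb (-t) (σ t) (σ (σ t))) (fun x => ?_) (fun x => ?_) (fun x y => ?_)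
    (fun a x => ?_) (fun x y => ?_) (fun x h => ?_) (fun x h => ?_) (fun x => ?_)
  · apply V8_ext <;> simp [bb] <;> ring
  · apply V8_ext <;> simp [bb] <;> ring
  · apply V8_ext <;> simp [bb] <;> ring
  · apply V8_ext <;> simp [bb] <;> ring
  · apply V8_ext <;> simp [bb, mS, pm, hσ] <;> ring
  · obtain ⟨h0, h2, h3, k0, k1, k2⟩ := Ll_iff.1 h
    apply V8_ext <;> simp [bb, *]
  · obtain ⟨h0, h1⟩ := h
    simp [Ll_iff, bb, *]
  · simp [Lp, bb]

theorem isA_cc {σ : F ≃+* F} {s : F} (hs : σ s = s) :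
    ∃ g : Equiv.Perm (V8 F), IsA (mS σ) 1 g ∧ InQ g ∧ ∀ x, g x = cc s x := by
  refine mkp _ (cc (-s)) (fun x => ?_) (fun x => ?_) (fun x y => ?_)
    (fun a x => ?_) (fun x y => ?_) (fun x h => ?_) (fun x h => ?_) (fun x => ?_)
  · apply V8_ext <;> simp [cc] <;> ring
  · apply V8_ext <;> simp [cc] <;> ring
  · apply V8_ext <;> simp [cc] <;> ring
  · apply V8_ext <;> simp [cc] <;> ring
  · apply V8_ext <;> simp [cc, mS, pm, hs] <;> ring
  · obtain ⟨h0, h2, h3, k0, k1, k2⟩ := Ll_iff.1 h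
    apply V8_ext <;> simp [cc, *]
  · obtain ⟨h0, h1⟩ := h
    simp [Ll_iff, cc, *]
  · simp [Lp, cc]

theorem isA_dd {σ : F ≃+* F} {s : F} (hs : σ s = s) :
    ∃ g : Equiv.Perm (V8 F), IsA (mS σ) 1 g ∧ InQ g ∧ ∀ x, g x = dd s x := by
  refine mkp _ (dd (-s)) (fun x => ?_) (fun x => ?_) (fun x y => ?_)
    (fun a x => ?_) (fun x y => ?_) (fun x h => ?_) (fun x h => ?_) (fun x => ?_)
  · apply V8_ext <;> simp [dd] <;> ring
  · apply V8_ext <;> simp [dd] <;> ring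
  · apply V8_ext <;> simp [dd] <;> ring
  · apply V8_ext <;> simp [dd] <;> ring
  · apply V8_ext <;> simp [dd, mS, pm, hs] <;> ring
  · obtain ⟨h0, h2, h3, k0, k1, k2⟩ := Ll_iff.1 h
    apply V8_ext <;> simp [dd, *]
  · obtain ⟨h0, h1⟩ := h
    simp [Ll_iff, dd, *]
  · simp [Lp, dd]

theorem mS_i1 {σ : F ≃+* F} (hσ : ∀ a, σ (σ (σ a)) = a) (u w : V8 F) :
    mS σ (mS σ u w) u = σ (σ (q8 u)) • w := by
  apply V8_ext <;> simp [mS, pm, q8, hσ] <;> ring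

theorem tr0 (h3 : (3 : F) ≠ 0) {σ : F ≃+* F} {p : F}
    (h : ∀ t, t * p + σ t * σ p + σ (σ t) * σ (σ p) = 0) : p = 0 := by
  by_contra hp
  have := h p⁻¹
  rw [← map_mul, ← map_mul, ← map_mul, inv_mul_cancel₀ hp, map_one, map_one] at this
  exact h3 (by linear_combination this)

end P1

open P1

theorem isA_zz {σ : F ≃+* F} {s : F} (hs : σ s = s) :
    ∃ g : Equiv.Perm (V8 F), IsA (mS σ) 1 g ∧ InQ g ∧ ∀ x, g x = zz s x := by
  refine mkp _ (zz (-s)) (fun x => ?_) (fun x => ?_) (fun x y => ?_)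
    (fun a x => ?_) (fun x y => ?_) (fun x h => ?_) (fun x h => ?_) (fun x => ?_)
  · apply V8_ext <;> simp [zz_eq] <;> ring
  · apply V8_ext <;> simp [zz_eq] <;> ring
  · apply V8_ext <;> simp [zz_eq] <;> ring
  · apply V8_ext <;> simp [zz_eq] <;> ring
  · apply V8_ext <;> simp [zz_eq, mS, pm, hs] <;> ring
  · obtain ⟨h0, h2, h3, k0, k1, k2⟩ := Ll_iff.1 h
    apply V8_ext <;> simp [zz_eq, *]
  · obtain ⟨h0, h1⟩ := h
    simp [Ll_iff, zz_eq, *]
  · simp [Lp, zz_eq]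

/-- a semilinear automorphism of `mS σ` is a semi-isometry -/
theorem IsA.q8_semi {σ ψ : F ≃+* F} (hσ : ∀ a, σ (σ (σ a)) = a) {d : Equiv.Perm (V8 F)}
    (hd : IsA (mS σ) ψ d) (x : V8 F) : σ (σ (q8 (d x))) = ψ (σ (σ (q8 x))) := by
  have h := hd.2.2 (mS σ x (d.symm (pe F))) x
  rw [mS_i1 hσ, hd.2.2, mS_i1 hσ, hd.2.1, Equiv.apply_symm_apply] at h
  have := congrFun h (.inl 0)
  simpa [pe] using this.symm

theorem IsA.q8_eq {σ : F ≃+* F} (hσ : ∀ a, σ (σ (σ a)) = a) {d : Equiv.Perm (V8 F)}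
    (hd : IsA (mS σ) 1 d) (x : V8 F) : q8 (d x) = q8 x :=
  σ.injective (σ.injective (hd.q8_semi hσ x))

/-- basis vector -/
abbrev P1.E (i : Fin 4 ⊕ Fin 4) : V8 F := Pi.single i 1

theorem pt1 (h3 : (3 : F) ≠ 0) (σ : F ≃+* F) (hσ : ∀ a, σ (σ (σ a)) = a) (d : Equiv.Perm (V8 F))
    (hd : IsA (mS σ) 1 d) (hc : ∀ g, IsA (mS σ) 1 g → InQ g → g * d = d * g) :
    ∃ s, σ s = s ∧ ∀ x, d x = zz s x := by
  let D : V8 F →ₗ[F] V8 F := ⟨⟨d, hd.1⟩, hd.2.1⟩
  have hD : ∀ x, d x = D x := fun _ => rfl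
  have inj : Function.Injective D := d.injective
  have cm : ∀ {f : V8 F → V8 F}, (∃ g : Equiv.Perm (V8 F), IsA (mS σ) 1 g ∧ InQ g ∧
      ∀ x, g x = f x) → ∀ x y, f x = y → f (D x) = D y := by
    rintro f ⟨g, h1, h2, h⟩ x y rfl
    rw [← h, ← h]
    exact congrArg (fun k : Equiv.Perm (V8 F) => k x) (hc g h1 h2)
  have pr : ∀ x y z, mS σ x y = z → mS σ (D x) (D y) = D z := by
    rintro x y z rfl
    exact (hd.2.2 x y).symm
  clear_value D
  obtain ⟨u, hu⟩ : ∃ u, D (E (.inl 3)) = u := ⟨_, rfl⟩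
  obtain ⟨v, hv⟩ : ∃ v, D (E (.inr 1)) = v := ⟨_, rfl⟩
  have z3 := cm (isA_zz (map_one σ)) (E (.inl 3)) (E (.inl 3) + E (.inl 1))
    (by apply V8_ext <;> simp [zz_eq])
  have d3 := cm (isA_dd (map_one σ)) (E (.inl 3)) (E (.inl 3) + E (.inl 2))
    (by apply V8_ext <;> simp [dd])
  have c3 := cm (isA_cc (map_one σ)) (E (.inl 3)) (E (.inl 3)) (by apply V8_ext <;> simp [cc])
  have z1 := cm (isA_zz (map_one σ)) (E (.inr 1)) (E (.inr 1) - E (.inr 3))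
    (by apply V8_ext <;> simp [zz_eq])
  have d1 := cm (isA_dd (map_one σ)) (E (.inr 1)) (E (.inr 1)) (by apply V8_ext <;> simp [dd])
  have c1 := cm (isA_cc (map_one σ)) (E (.inr 1)) (E (.inr 1) - E (.inr 2))
    (by apply V8_ext <;> simp [cc])
  have a3 := fun t => cm (isA_aa hσ t) (E (.inl 3)) (E (.inl 3) - σ t • E (.inr 2))
    (by apply V8_ext <;> simp [aa])
  have b1 := fun t => cm (isA_bb hσ t) (E (.inr 1)) (E (.inr 1) + σ (σ t) • E (.inl 2))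
    (by apply V8_ext <;> simp [bb])
  simp only [map_add, map_sub, map_smul, hu, hv] at z3 d3 c3 z1 d1 c1 a3 b1
  have u2 : u (.inl 2) = 0 := by simpa [cc] using congrFun c3 (.inl 1)
  have u1 : u (.inr 1) = 0 := by simpa [cc] using congrFun c3 (.inr 2)
  have v3 : v (.inl 3) = 0 := by simpa [dd] using congrFun d1 (.inl 2)
  have v2 : v (.inr 2) = 0 := by simpa [dd] using congrFun d1 (.inr 3)
  have X1 : D (E (.inl 1)) = u (.inl 3) • E (.inl 1) := by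
    rw [← sub_eq_iff_eq_add'.2 z3]; apply V8_ext <;> simp [zz_eq, u1]
  have X2 : D (E (.inl 2)) = u (.inl 3) • E (.inl 2) - u (.inr 2) • E (.inr 3) := by
    rw [← sub_eq_iff_eq_add'.2 d3]; apply V8_ext <;> simp [dd]
  have Y3 : D (E (.inr 3)) = v (.inr 1) • E (.inr 3) := by
    rw [show D (E (.inr 3)) = v - zz 1 v by rw [z1]; abel]; apply V8_ext <;> simp [zz_eq, v3]
  have Y2 : D (E (.inr 2)) = v (.inr 1) • E (.inr 2) - v (.inl 2) • E (.inl 1) := by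
    rw [show D (E (.inr 2)) = v - cc 1 v by rw [c1]; abel]; apply V8_ext <;> simp [cc]
  have l1 : v (.inr 1) = u (.inl 3) := by
    have := congrFun (a3 1) (.inr 2)
    simp [aa, Y2] at this
    exact this.symm
  have l2 : u (.inl 3) = σ (u (.inl 3)) * σ (σ (u (.inl 3))) := by
    have := congrFun (pr (E (.inl 1)) (E (.inl 2)) (-E (.inr 3))
      (by apply V8_ext <;> simp [mS, pm])) (.inr 3)
    simp [map_neg, X1, X2, Y3, mS, pm, l1] at this
    exact this.symm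
  have l0 : u (.inl 3) ≠ 0 := fun h => by
    have : E (F := F) (.inl 1) = 0 := inj (by rw [X1, h, zero_smul, map_zero])
    simpa using congrFun this (.inl 1)
  have l3 : u (.inl 3) = 1 := by
    have e1 := congrArg σ l2
    rw [map_mul, hσ] at e1
    have e2 : σ (σ (u (.inl 3))) * σ (σ (u (.inl 3))) = 1 := by
      apply mul_left_cancel₀ ((map_ne_zero σ).2 l0)
      linear_combination -e1 - σ (σ (u (.inl 3))) * l2
    rcases mul_self_eq_one_iff.1 e2 with e | e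
    · rw [← hσ (u _), e, map_one]
    · have e3 : u (.inl 3) = -1 := by rw [← hσ (u _), e, map_neg, map_one]
      rw [l2, e3]; simp
  rw [l3] at l1
  rw [l3] at X1 X2
  rw [l1] at Y3 Y2
  simp only [one_smul] at X1 X2 Y3 Y2
  have p1 := congrFun (pr (E (.inl 1)) (E (.inl 3)) (E (.inr 2))
      (by apply V8_ext <;> simp [mS, pm])) (.inl 1)
  have p2 := congrFun (pr (E (.inl 3)) (E (.inl 1)) (-E (.inr 2))
      (by apply V8_ext <;> simp [mS, pm])) (.inl 1)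
  have p3 := congrFun (pr (E (.inr 1)) (E (.inr 3)) (E (.inl 2))
      (by apply V8_ext <;> simp [mS, pm])) (.inr 3)
  have p4 := congrFun (pr (E (.inr 3)) (E (.inr 1)) (-E (.inl 2))
      (by apply V8_ext <;> simp [mS, pm])) (.inr 3)
  simp [map_neg, X1, X2, Y3, Y2, hu, hv, mS, pm] at p1 p2 p3 p4
  have u0 : u (.inl 0) = -σ (σ (u (.inr 0))) := by
    rw [← hσ (u (.inl 0)), p1, ← p2, map_neg]
  have v0 : v (.inl 0) = -σ (v (.inr 0)) := by
    apply σ.injective; rw [p3, map_neg, ← p4]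
  have k1 : u (.inr 0) = 0 := tr0 h3 (σ := σ) fun t => by
    have := congrFun (a3 t) (.inl 1)
    simp [aa, Y2, u1, u0, ← p2] at this
    linear_combination this
  have k2 : v (.inr 0) = 0 := tr0 h3 (σ := σ) fun t => by
    have := congrFun (b1 t) (.inr 3)
    simp [bb, X2, v3, v0, ← p4] at this
    linear_combination -this
  simp only [k1, k2, map_zero, neg_zero] at u0 v0 p2 p4
  have q1 := pr (E (.inl 3)) (E (.inl 3)) 0 (by apply V8_ext <;> simp [mS, pm])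
  have q2 := congrFun (pr (E (.inr 1)) (E (.inr 1)) 0 (by apply V8_ext <;> simp [mS, pm])) (.inl 0)
  have q3 := congrFun (pr (E (.inl 3)) (E (.inr 1)) 0 (by apply V8_ext <;> simp [mS, pm])) (.inl 0)
  have q4 := congrFun q1 (.inl 0)
  have q5 := congrFun q1 (.inr 2)
  simp [hu, hv, mS, pm, u1, u2, v3, v2, l1, l3, k1, k2, u0, v0, ← p2, ← p4] at q2 q3 q4 q5
  have s1 : σ (u (.inl 1)) = u (.inl 1) := σ.injective (by linear_combination -q5)
  have s2 : v (.inr 3) = -u (.inl 1) := by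
    apply σ.injective; apply σ.injective
    rw [map_neg, map_neg, s1, s1, ← s1]; linear_combination -q3
  have U : u = E (.inl 3) + u (.inl 1) • E (.inl 1) := by
    apply V8_ext <;> simp [u0, u2, l3, k1, u1, ← p4, q4]
  have V : v = E (.inr 1) - u (.inl 1) • E (.inr 3) := by
    apply V8_ext <;> simp [v0, q2, ← p2, v3, k2, l1, v2, s2]
  generalize u (.inl 1) = s at U V s1
  have X0 := pr (E (.inl 1)) (E (.inr 1)) (-E (.inl 0)) (by apply V8_ext <;> simp [mS, pm])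
  have Y0 := pr (E (.inr 1)) (E (.inl 1)) (-E (.inr 0)) (by apply V8_ext <;> simp [mS, pm])
  rw [map_neg, X1, hv, V] at X0 Y0
  have X0' : D (E (.inl 0)) = E (.inl 0) := by
    rw [← neg_neg (D _), ← X0]; apply V8_ext <;> simp [mS, pm]
  have Y0' : D (E (.inr 0)) = E (.inr 0) := by
    rw [← neg_neg (D _), ← Y0]; apply V8_ext <;> simp [mS, pm]
  rw [← p4, zero_smul, sub_zero] at X2
  rw [← p2, zero_smul, sub_zero] at Y2
  refine ⟨s, s1, fun x => ?_⟩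
  have hx : x = x (.inl 0) • E (.inl 0) + x (.inl 1) • E (.inl 1) + x (.inl 2) • E (.inl 2) +
      x (.inl 3) • E (.inl 3) + x (.inr 0) • E (.inr 0) + x (.inr 1) • E (.inr 1) +
      x (.inr 2) • E (.inr 2) + x (.inr 3) • E (.inr 3) := by
    apply V8_ext <;> simp
  rw [hD]
  conv_lhs => rw [hx]
  simp only [map_add, map_smul, X0', X1, X2, hu, Y0', hv, Y2, Y3]
  rw [U, V]
  apply V8_ext <;> simp [zz_eq] <;> ring

end Cfsg.Agent.H12.Tr
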